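import Mathlib

set_option autoImplicit false

/-!
# S5748-CYC2 (helper28, for helper43): a finite simple group of even order with cyclic Sylow
2-subgroups is commutative.
-/

namespace Cfsg.Agent.H28.CT

/-- S5748-CYC2. -/
theorem comm_of_cyclic_sylow2 {G : Type*} [Group G] [Finite G] [IsSimpleGroup G]
    (heven : Even (Nat.card G)) (hc : ∀ P : Sylow 2 G, IsCyclic ↥P) : IsMulCommutative G := by
  have h2 : 2 ∣ Nat.card G := even_iff_two_dvd.1 heven
  have hp : (Nat.card G).minFac = 2 := (Nat.minFac_eq_two_iff _).2 h2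
  obtain ⟨P⟩ : Nonempty (Sylow 2 G) := inferInstance
  have hcomp := IsCyclic.isComplement' hp (hc P)
  have hPne : (P : Subgroup G) ≠ ⊥ := P.ne_bot_of_dvd_card h2
  rcases Subgroup.Normal.eq_bot_or_eq_top
    (MonoidHom.normal_ker (MonoidHom.transferSylow P ((hc P).normalizer_le_centralizer hp)))
    with h | h
  · rw [h, Subgroup.isComplement'_bot_left] at hcomp
    have hcP := hc P
    have hcomm : IsMulCommutative (P : Subgroup G) := IsCyclic.isMulCommutative
    refine ⟨⟨fun a b => ?_⟩⟩
    have ha : a ∈ (P : Subgroup G) := by rw [hcomp]; trivial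
    have hb : b ∈ (P : Subgroup G) := by rw [hcomp]; trivial
    exact congrArg Subtype.val (hcomm.is_comm.comm (⟨a, ha⟩ : (P : Subgroup G)) ⟨b, hb⟩)
  · rw [h, Subgroup.isComplement'_top_left] at hcomp
    exact absurd hcomp hPne

end Cfsg.Agent.H28.CT
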