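import Mathlib

set_option autoImplicit false

/-!
# S5748-PSLCT (helper28, for helper43): `PSL₂(2^f)` is a CT-group.
-/

namespace Cfsg.Agent.H28.CT

open Matrix

/-- Entrywise: two `2 × 2` matrices commuting with a non-scalar matrix commute. -/
theorem comm_entries {F : Type*} [Field F] (a0 a1 a2 a3 b0 b1 b2 b3 c0 c1 c2 c3 : F)
    (hB : b1 ≠ 0 ∨ b2 ≠ 0 ∨ b0 ≠ b3)
    (ha1 : a1 * b2 = b1 * a2) (ha2 : a0 * b1 + a1 * b3 = b0 * a1 + b1 * a3)
    (ha3 : a2 * b0 + a3 * b2 = b2 * a0 + b3 * a2)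
    (hc1 : c1 * b2 = b1 * c2) (hc2 : c0 * b1 + c1 * b3 = b0 * c1 + b1 * c3)
    (hc3 : c2 * b0 + c3 * b2 = b2 * c0 + b3 * c2) :
    a1 * c2 = c1 * a2 ∧ a0 * c1 + a1 * c3 = c0 * a1 + c1 * a3 ∧
      a2 * c0 + a3 * c2 = c2 * a0 + c3 * a2 := by
  rcases hB with hb | hb | hb
  · have e1 : a2 = a1 * b2 / b1 := by rw [eq_div_iff hb]; linear_combination -ha1
    have e2 : a3 = (a0 * b1 + a1 * b3 - b0 * a1) / b1 := by
      rw [eq_div_iff hb]; linear_combination -ha2
    have e3 : c2 = c1 * b2 / b1 := by rw [eq_div_iff hb]; linear_combination -hc1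
    have e4 : c3 = (c0 * b1 + c1 * b3 - b0 * c1) / b1 := by
      rw [eq_div_iff hb]; linear_combination -hc2
    rw [e1, e2, e3, e4]
    refine ⟨?_, ?_, ?_⟩ <;> field_simp <;> ring
  · have e1 : a1 = a2 * b1 / b2 := by rw [eq_div_iff hb]; linear_combination ha1
    have e2 : a0 = (a2 * b0 + a3 * b2 - b3 * a2) / b2 := by
      rw [eq_div_iff hb]; linear_combination -ha3
    have e3 : c1 = c2 * b1 / b2 := by rw [eq_div_iff hb]; linear_combination hc1
    have e4 : c0 = (c2 * b0 + c3 * b2 - b3 * c2) / b2 := by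
      rw [eq_div_iff hb]; linear_combination -hc3
    rw [e1, e2, e3, e4]
    refine ⟨?_, ?_, ?_⟩ <;> field_simp <;> ring
  · have hd : b0 - b3 ≠ 0 := sub_ne_zero.2 hb
    have e1 : a1 = b1 * (a0 - a3) / (b0 - b3) := by
      rw [eq_div_iff hd]; linear_combination -ha2
    have e2 : a2 = b2 * (a0 - a3) / (b0 - b3) := by
      rw [eq_div_iff hd]; linear_combination ha3
    have e3 : c1 = b1 * (c0 - c3) / (b0 - b3) := by
      rw [eq_div_iff hd]; linear_combination -hc2
    have e4 : c2 = b2 * (c0 - c3) / (b0 - b3) := by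
      rw [eq_div_iff hd]; linear_combination hc3
    rw [e1, e2, e3, e4]
    refine ⟨?_, ?_, ?_⟩ <;> field_simp <;> ring

/-- S5748-PSLCT. -/
theorem psl2_char2_ct (F : Type) [Field F] [Fintype F] (f : ℕ) (hF : Fintype.card F = 2 ^ f)
    (a b c : Matrix.ProjectiveSpecialLinearGroup (Fin 2) F) (ha : a ≠ 1) (hb : b ≠ 1) (hc : c ≠ 1)
    (hab : Commute a b) (hbc : Commute b c) : Commute a c := by
  have h2 : (2 : F) = 0 := by
    have h := Nat.cast_card_eq_zero F
    rw [hF] at h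
    push_cast at h
    exact eq_zero_of_pow_eq_zero h
  have hsq : ∀ r : F, r ^ 2 = 1 → r = 1 := by
    intro r hr
    have h : (r - 1) ^ 2 = 0 := by linear_combination hr + (1 - r) * h2
    exact sub_eq_zero.1 (eq_zero_of_pow_eq_zero h)
  have hcen : ∀ Z : Matrix.SpecialLinearGroup (Fin 2) F,
      Z ∈ Subgroup.center (Matrix.SpecialLinearGroup (Fin 2) F) → Z = 1 := by
    intro Z hZ
    obtain ⟨r, hr, hrZ⟩ := Matrix.SpecialLinearGroup.mem_center_iff.1 hZ
    rw [Fintype.card_fin] at hr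
    have hr1 := hsq r hr
    apply Subtype.ext
    rw [← hrZ, hr1]
    simp
  obtain ⟨A, rfl⟩ := QuotientGroup.mk_surjective a
  obtain ⟨B, rfl⟩ := QuotientGroup.mk_surjective b
  obtain ⟨C, rfl⟩ := QuotientGroup.mk_surjective c
  have lift : ∀ X Y : Matrix.SpecialLinearGroup (Fin 2) F,
      Commute (QuotientGroup.mk X : Matrix.ProjectiveSpecialLinearGroup (Fin 2) F)
        (QuotientGroup.mk Y) → X * Y = Y * X := by
    intro X Y h
    have h1 : (QuotientGroup.mk (X * Y) : Matrix.ProjectiveSpecialLinearGroup (Fin 2) F) =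
        QuotientGroup.mk (Y * X) := h.eq
    have h3 := hcen _ (QuotientGroup.eq.1 h1)
    calc X * Y = (X * Y) * ((X * Y)⁻¹ * (Y * X)) := by rw [h3, mul_one]
      _ = Y * X := by group
  have hAB := lift A B hab
  have hBC := lift B C hbc
  have hB1 : B ≠ 1 := fun h => hb (by rw [h]; rfl)
  -- entries
  have eAB := congrArg (fun M : Matrix.SpecialLinearGroup (Fin 2) F =>
    (M : Matrix (Fin 2) (Fin 2) F)) hAB
  have eBC := congrArg (fun M : Matrix.SpecialLinearGroup (Fin 2) F =>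
    (M : Matrix (Fin 2) (Fin 2) F)) hBC
  simp only [Matrix.SpecialLinearGroup.coe_mul] at eAB eBC
  have a00 := congrFun (congrFun eAB 0) 0
  have a01 := congrFun (congrFun eAB 0) 1
  have a10 := congrFun (congrFun eAB 1) 0
  have c00 := congrFun (congrFun eBC 0) 0
  have c01 := congrFun (congrFun eBC 0) 1
  have c10 := congrFun (congrFun eBC 1) 0
  simp only [Matrix.mul_apply, Fin.sum_univ_two] at a00 a01 a10 c00 c01 c10
  -- B is not scalar
  have hBns : (B : Matrix (Fin 2) (Fin 2) F) 0 1 ≠ 0 ∨ (B : Matrix (Fin 2) (Fin 2) F) 1 0 ≠ 0 ∨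
      (B : Matrix (Fin 2) (Fin 2) F) 0 0 ≠ (B : Matrix (Fin 2) (Fin 2) F) 1 1 := by
    by_contra hcon
    push Not at hcon
    obtain ⟨h01, h10, h0011⟩ := hcon
    have hdet := B.2
    rw [Matrix.det_fin_two, h01, h10, ← h0011] at hdet
    have hb0 : (B : Matrix (Fin 2) (Fin 2) F) 0 0 = 1 := hsq _ (by linear_combination hdet)
    apply hB1
    apply Subtype.ext
    ext i j
    fin_cases i <;> fin_cases j <;> simp [h01, h10, hb0, ← h0011]
  obtain ⟨g1, g2, g3⟩ := comm_entries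
    ((A : Matrix (Fin 2) (Fin 2) F) 0 0) ((A : Matrix (Fin 2) (Fin 2) F) 0 1)
    ((A : Matrix (Fin 2) (Fin 2) F) 1 0) ((A : Matrix (Fin 2) (Fin 2) F) 1 1)
    ((B : Matrix (Fin 2) (Fin 2) F) 0 0) ((B : Matrix (Fin 2) (Fin 2) F) 0 1)
    ((B : Matrix (Fin 2) (Fin 2) F) 1 0) ((B : Matrix (Fin 2) (Fin 2) F) 1 1)
    ((C : Matrix (Fin 2) (Fin 2) F) 0 0) ((C : Matrix (Fin 2) (Fin 2) F) 0 1)
    ((C : Matrix (Fin 2) (Fin 2) F) 1 0) ((C : Matrix (Fin 2) (Fin 2) F) 1 1)
    hBns (by linear_combination a00) (by linear_combination a01) (by linear_combination a10)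
    (by linear_combination -c00) (by linear_combination -c01) (by linear_combination -c10)
  have hAC : A * C = C * A := by
    apply Subtype.ext
    rw [Matrix.SpecialLinearGroup.coe_mul, Matrix.SpecialLinearGroup.coe_mul]
    ext i j
    fin_cases i <;> fin_cases j <;> simp only [Matrix.mul_apply, Fin.sum_univ_two, Fin.zero_eta,
      Fin.mk_one, Fin.isValue]
    · linear_combination g1
    · linear_combination g2
    · linear_combination g3
    · linear_combination -g1
  show (QuotientGroup.mk A : Matrix.ProjectiveSpecialLinearGroup (Fin 2) F) * QuotientGroup.mk C =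
    QuotientGroup.mk C * QuotientGroup.mk A
  rw [← QuotientGroup.mk_mul, ← QuotientGroup.mk_mul, hAC]

end Cfsg.Agent.H28.CT
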