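import Cfsg.Agent.H54.CharP2
import Cfsg.Agent.Lib.Helper30.Generation
import Cfsg.Agent.H28.NormalRank2
import Cfsg.Agent.H28.PLocal2
import Cfsg.Prelude.Def_CaseTheorems

/-!
# Groups all of whose involution centralizers have characteristic 2

If `C_G(t)` has characteristic `2` (`C(O_2) ≤ O_2`) for every involution `t`, and the Sylow
`2`-subgroup `S` of `G` has rank at least `3`, then `S` normalizes no nontrivial subgroup of odd
order, and every `2`-local subgroup is `2`-constrained.
-/

set_option autoImplicit false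

namespace Cfsg.Agent.H28.C2T

open Cfsg

universe u

section conv

variable {X : Type u} [Group X] [Finite X]

/-- A `p`-constrained group with trivial `p'`-core has characteristic `p`. -/
theorem charP_of_isPConstrained (p : ℕ) [Fact p.Prime] (h : IsPConstrained p X)
    (h0 : pPrimeCore p X = ⊥) :
    Subgroup.centralizer (pCore p X : Set X) ≤ pCore p X := by
  have hL : layer (X ⧸ pPrimeCore p X) = ⊥ := H28.layer_eq_bot_of_isPConstrained p h
  have e : X ⧸ pPrimeCore p X ≃* X :=
    (QuotientGroup.quotientMulEquivOfEq h0).trans QuotientGroup.quotientBot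
  have hL' : layer X = ⊥ := H28.layer_eq_bot_of_mulEquiv e.symm hL
  have hF : generalizedFittingSubgroup X = pCore p X := by
    rw [H28.genFitting_eq_fitting_of_layer_eq_bot hL']
    exact le_antisymm (H28.fitting_le_pCore_of_pPrimeCore_eq_bot p h0) (H27.pCore_le_fitting p)
  have h2 := H28.centralizer_genFitting_le (G := X)
  rw [hF] at h2
  exact h2

/-- A group of characteristic `p` is `p`-constrained. -/
theorem isPConstrained_of_charP (p : ℕ) [Fact p.Prime]
    (h : Subgroup.centralizer (pCore p X : Set X) ≤ pCore p X) : IsPConstrained p X := by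
  have h0 : pPrimeCore p X = ⊥ := by
    have hd : Disjoint (pPrimeCore p X) (pCore p X) := by
      apply Subgroup.disjoint_of_coprime_natCard
      obtain ⟨k, hk⟩ := IsPGroup.iff_card.1 (H60.isPGroup_pCore (G := X) p)
      rw [hk]; exact Nat.Coprime.pow_right k (H60.card_pPrimeCore_coprime p)
    have h1 : pPrimeCore p X ≤ Subgroup.centralizer (pCore p X : Set X) := by
      intro x hx
      rw [Subgroup.mem_centralizer_iff]
      intro y hy
      exact (Subgroup.commute_of_normal_of_disjoint _ _ inferInstance inferInstance hd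
        x y hx hy).eq.symm
    have h3 : pPrimeCore p X ≤ pPrimeCore p X ⊓ pCore p X := le_inf le_rfl (h1.trans h)
    rw [hd.eq_bot] at h3
    exact le_bot_iff.1 h3
  have hL : layer X = ⊥ := by
    rw [H28.layer_eq_bot_iff]
    intro K hK
    have hle : K ≤ pCore p X :=
      (H28.isComponent_le_layer hK).trans (H28.layer_le_of_centralizer_le h)
    exact H27.isComponent_not_solvable hK
      (H28.isSolvable_of_isPGroup ((H60.isPGroup_pCore p).to_le hle))
  have e : X ⧸ pPrimeCore p X ≃* X :=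
    (QuotientGroup.quotientMulEquivOfEq h0).trans QuotientGroup.quotientBot
  exact H28.isPConstrained_of_layer_eq_bot p (H28.layer_eq_bot_of_mulEquiv e hL)

end conv


section main

variable {G : Type u} [Group G]

/-- In a subgroup `R ≤ Q` of relative index at most `2`, the product of two elements of `Q`
outside `R` lies in `R`. -/
theorem mul_mem_of_relIndex_le_two [Finite G] {R Q : Subgroup G}
    (h : R.relIndex Q ≤ 2) {a b : G} (ha : a ∈ Q) (hb : b ∈ Q) (ha' : a ∉ R) (hb' : b ∉ R) :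
    a * b ∈ R := by
  have h0 : R.relIndex Q ≠ 0 := by
    unfold Subgroup.relIndex
    exact Subgroup.index_ne_zero_of_finite
  have h12 : R.relIndex Q = 1 ∨ R.relIndex Q = 2 := by omega
  rcases h12 with h1 | h2
  · exact absurd (Subgroup.relIndex_eq_one.1 h1 ha) ha'
  · have := Subgroup.mul_mem_iff_of_index_two (H := R.subgroupOf Q) h2 (a := ⟨a, ha⟩) (b := ⟨b, hb⟩)
    simp only [Subgroup.mem_subgroupOf] at this
    exact this.2 ⟨fun h => absurd h ha', fun h => absurd h hb'⟩

/-- `C_G(⟨t⟩) = C_G(t)`. -/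
theorem centralizer_zpowers_eq (t : G) :
    Subgroup.centralizer ((Subgroup.zpowers t : Subgroup G) : Set G) =
      Subgroup.centralizer ({t} : Set G) := by
  apply le_antisymm
  · apply Subgroup.centralizer_le
    rw [Set.singleton_subset_iff]
    exact Subgroup.mem_zpowers t
  · intro x hx
    rw [Subgroup.mem_centralizer_singleton_iff] at hx
    rw [Subgroup.mem_centralizer_iff]
    intro h hh
    obtain ⟨k, rfl⟩ := Subgroup.mem_zpowers_iff.1 hh
    have hc : Commute t x := hx.symm
    exact (hc.zpow_left k).eq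


/-- If the `2`-group `S` normalizes the four-group `U`, then every nonidentity element of `U`
has centralizer of index at most `2` in `S`. -/
theorem card_le_two_mul_centralizer [Finite G] (S : Subgroup G) (hS : IsPGroup 2 S)
    (U : Subgroup G) (hU4 : Nat.card U = 4) (hSU : S ≤ Subgroup.normalizer (U : Set G)) (a : G)
    (ha : a ∈ U) (ha1 : a ≠ 1) :
    Nat.card S ≤ 2 * Nat.card ↥(S ⊓ Subgroup.centralizer ({a} : Set G)) := by
  classical
  let _ : MulAction ↥S G := MulAction.compHom G ((MulAut.conj (G := G)).comp S.subtype)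
  have hsmul : ∀ (s : ↥S) (g : G), s • g = (s : G) * g * (s : G)⁻¹ := fun s g => rfl
  have horb : MulAction.orbit ↥S a ⊆ (U : Set G) \ {1} := by
    rintro _ ⟨s, rfl⟩
    refine ⟨?_, ?_⟩
    · show s • a ∈ U
      rw [hsmul]
      exact (Subgroup.mem_normalizer_iff.1 (hSU s.2) a).1 ha
    · simp only [Set.mem_singleton_iff]
      show ¬ s • a = 1
      rw [hsmul]
      intro h
      apply ha1
      have h2 : a = (s : G)⁻¹ * ((s : G) * a * (s : G)⁻¹) * (s : G) := by group
      rw [h2, h]; group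
  have hU3 : ((U : Set G) \ {1}).ncard = 3 := by
    rw [Set.ncard_sdiff_singleton_of_mem (Subgroup.one_mem U)]
    have h4 : (U : Set G).ncard = 4 := by
      rw [← hU4]; exact (Nat.card_coe_set_eq _).symm
    omega
  have hle3 : (MulAction.stabilizer ↥S a).index ≤ 3 := by
    rw [MulAction.index_stabilizer]
    calc (MulAction.orbit ↥S a).ncard ≤ ((U : Set G) \ {1}).ncard :=
          Set.ncard_le_ncard horb (Set.toFinite _)
      _ = 3 := hU3
  have hdvd : (MulAction.stabilizer ↥S a).index ∣ Nat.card S := Subgroup.index_dvd_card _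
  obtain ⟨n, hn⟩ := IsPGroup.iff_card.1 hS
  rw [hn] at hdvd
  obtain ⟨k, -, hk⟩ := (Nat.dvd_prime_pow Nat.prime_two).1 hdvd
  have hk1 : k ≤ 1 := by
    by_contra hcon
    have h22 : 2 ^ 2 ≤ 2 ^ k := Nat.pow_le_pow_right (by norm_num) (by omega)
    omega
  have hle2 : (MulAction.stabilizer ↥S a).index ≤ 2 := by
    rw [hk]
    calc 2 ^ k ≤ 2 ^ 1 := Nat.pow_le_pow_right (by norm_num) hk1
      _ = 2 := by norm_num
  have hmul := Subgroup.card_mul_index (MulAction.stabilizer ↥S a)
  have key : ∀ s : MulAction.stabilizer ↥S a,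
      ((s : ↥S) : G) ∈ S ⊓ Subgroup.centralizer ({a} : Set G) := by
    intro s
    refine ⟨(s : ↥S).2, ?_⟩
    have h1 := s.2
    rw [MulAction.mem_stabilizer_iff, hsmul] at h1
    show ((s : ↥S) : G) ∈ Subgroup.centralizer ({a} : Set G)
    rw [Subgroup.mem_centralizer_singleton_iff]
    symm
    calc a * ((s : ↥S) : G) = (((s : ↥S) : G) * a * ((s : ↥S) : G)⁻¹) * ((s : ↥S) : G) := by rw [h1]
      _ = ((s : ↥S) : G) * a := by group
  have hinj : Nat.card (MulAction.stabilizer ↥S a) ≤
      Nat.card ↥(S ⊓ Subgroup.centralizer ({a} : Set G)) := by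
    apply Nat.card_le_card_of_injective
      (fun s : MulAction.stabilizer ↥S a =>
        (⟨((s : ↥S) : G), key s⟩ : ↥(S ⊓ Subgroup.centralizer ({a} : Set G))))
    intro s t hst
    simp only [Subtype.mk.injEq] at hst
    exact Subtype.ext (Subtype.ext hst)
  nlinarith


/-- If `C_G(a)` has characteristic `2` and `C_S(a)` has index at most `2` in the Sylow
`2`-subgroup `S`, then every `S`-invariant subgroup of odd order meets `C_G(a)` trivially. -/
theorem inf_centralizer_eq_bot [Finite G] (S : Sylow 2 G) (a : G)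
    (hC : Subgroup.centralizer (pCore 2 ↥(Subgroup.centralizer ({a} : Set G)) :
        Set ↥(Subgroup.centralizer ({a} : Set G))) ≤
      pCore 2 ↥(Subgroup.centralizer ({a} : Set G)))
    (hidx : Nat.card S ≤ 2 * Nat.card ↥((S : Subgroup G) ⊓ Subgroup.centralizer ({a} : Set G)))
    (X : Subgroup G) (hX : Odd (Nat.card X))
    (hSX : (S : Subgroup G) ≤ Subgroup.normalizer (X : Set G)) :
    X ⊓ Subgroup.centralizer ({a} : Set G) = ⊥ := by
  classical
  haveI : Fact (Nat.Prime 2) := ⟨Nat.prime_two⟩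
  set C := Subgroup.centralizer ({a} : Set G) with hCdef
  set Q := Cfsg.pCoreOf 2 C with hQdef
  set S₁ := (S : Subgroup G) ⊓ C with hS₁
  have hQp : IsPGroup 2 Q := H54.isPGroup_pCoreOf C
  have hCQ : C ≤ Subgroup.normalizer (Q : Set G) := H54.le_normalizer_pCoreOf C
  have hS₁p : IsPGroup 2 S₁ := S.isPGroup'.to_le inf_le_left
  have hsup : IsPGroup 2 (S₁ ⊔ Q : Subgroup G) :=
    IsPGroup.to_sup_of_normal_right' hS₁p hQp (inf_le_right.trans hCQ)
  have hcard_sup : Nat.card (S₁ ⊔ Q : Subgroup G) ≤ Nat.card S := by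
    obtain ⟨S', hS'⟩ := hsup.exists_le_sylow
    calc Nat.card (S₁ ⊔ Q : Subgroup G) ≤ Nat.card S' := Subgroup.card_le_of_le hS'
      _ = Nat.card S := by rw [Sylow.card_eq_multiplicity, Sylow.card_eq_multiplicity]
  have hrel1 : Nat.card S₁ * S₁.relIndex (S₁ ⊔ Q) = Nat.card (S₁ ⊔ Q : Subgroup G) := by
    rw [← Subgroup.relIndex_bot_left, ← Subgroup.relIndex_bot_left]
    exact Subgroup.relIndex_mul_relIndex ⊥ S₁ (S₁ ⊔ Q) bot_le le_sup_left
  have hS₁pos : 0 < Nat.card S₁ := Nat.card_pos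
  have hrel2 : S₁.relIndex (S₁ ⊔ Q) ≤ 2 := by nlinarith
  have hrel3 : (Q ⊓ S₁).relIndex Q ≤ 2 := by
    rw [Subgroup.inf_relIndex_left]
    refine (Subgroup.relIndex_le_of_le_right le_sup_right ?_).trans hrel2
    unfold Subgroup.relIndex
    exact Subgroup.index_ne_zero_of_finite
  have hXcop : ∀ y ∈ X, (orderOf y).Coprime 2 := by
    intro y hy
    have h1 : orderOf y ∣ Nat.card X := by
      have := orderOf_dvd_natCard (⟨y, hy⟩ : X)
      rwa [Subgroup.orderOf_mk] at this
    exact Nat.Coprime.coprime_dvd_left h1 (Nat.coprime_two_right.2 hX)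
  rw [eq_bot_iff]
  rintro y ⟨hyX, hyC⟩
  rw [Subgroup.mem_bot]
  apply H54.p'_trivial_of_charP (p := 2) C hC y hyC (hXcop y hyX)
  have hQX : Q ⊓ X = ⊥ := by
    apply Disjoint.eq_bot
    apply Subgroup.disjoint_of_coprime_natCard
    obtain ⟨k, hk⟩ := IsPGroup.iff_card.1 hQp
    rw [hk]
    exact Nat.Coprime.pow_left k (Nat.coprime_two_left.2 hX)
  have hyQ : ∀ x ∈ Q, y * x * y⁻¹ ∈ Q := fun x hx =>
    (Subgroup.mem_normalizer_iff.1 (hCQ hyC) x).1 hx
  have hR : ∀ r ∈ Q ⊓ S₁, y * r = r * y := by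
    rintro r ⟨hrQ, hrS, hrC⟩
    have h1 : y * r * y⁻¹ * r⁻¹ ∈ Q := Q.mul_mem (hyQ r hrQ) (Q.inv_mem hrQ)
    have h2 : y * r * y⁻¹ * r⁻¹ ∈ X := by
      have h3 : r * y⁻¹ * r⁻¹ ∈ X :=
        (Subgroup.mem_normalizer_iff.1 (hSX hrS) _).1 (X.inv_mem hyX)
      have := X.mul_mem hyX h3
      convert this using 1; group
    have h4 : y * r * y⁻¹ * r⁻¹ ∈ Q ⊓ X := ⟨h1, h2⟩
    rw [hQX, Subgroup.mem_bot] at h4
    calc y * r = (y * r * y⁻¹ * r⁻¹) * (r * y) := by group
      _ = r * y := by rw [h4, one_mul]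
  have hQ' : ∀ x ∈ Q, y * x * y⁻¹ * x⁻¹ ∈ Q ⊓ S₁ := by
    intro x hx
    by_cases hxR : x ∈ Q ⊓ S₁
    · have h0 := hR x hxR
      have h1 : y * x * y⁻¹ * x⁻¹ = 1 := by rw [h0]; group
      rw [h1]; exact Subgroup.one_mem _
    · have hyx : y * x * y⁻¹ ∉ Q ⊓ S₁ := by
        intro hmem
        apply hxR
        have h0 := hR _ hmem
        have h2 : y * x * y⁻¹ = x := by
          have h3 : y * (y * x * y⁻¹) = y * x := by rw [h0]; group
          exact mul_left_cancel h3
        rwa [h2] at hmem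
      have hx' : x⁻¹ ∉ Q ⊓ S₁ := fun h => hxR (by simpa using Subgroup.inv_mem _ h)
      exact mul_mem_of_relIndex_le_two hrel3 (hyQ x hx) (Q.inv_mem hx) hyx hx'
  have hcop : Nat.Coprime (orderOf y) (Nat.card Q) := by
    obtain ⟨k, hk⟩ := IsPGroup.iff_card.1 hQp
    rw [hk]; exact Nat.Coprime.pow_right k (hXcop y hyX)
  exact H54.centralizes_of_stable_chain Q (Q ⊓ S₁) y (orderOf y) (pow_orderOf_eq_one y) hcop
    inf_le_left hR hQ'


/-- If every involution centralizer has characteristic `2` and the Sylow `2`-subgroup `S` has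
rank at least `3`, then `S` normalizes no nontrivial subgroup of odd order. -/
theorem no_invariant_odd [Finite G] (S : Sylow 2 G) (hrk : ¬ PRankLE 2 2 ↥(S : Subgroup G))
    (H0 : ∀ t : G, orderOf t = 2 →
      Subgroup.centralizer (pCore 2 ↥(Subgroup.centralizer ({t} : Set G)) :
        Set ↥(Subgroup.centralizer ({t} : Set G))) ≤
      pCore 2 ↥(Subgroup.centralizer ({t} : Set G)))
    (X : Subgroup G) (hX : Odd (Nat.card X))
    (hSX : (S : Subgroup G) ≤ Subgroup.normalizer (X : Set G)) : X = ⊥ := by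
  classical
  haveI : Fact (Nat.Prime 2) := ⟨Nat.prime_two⟩
  obtain ⟨U, hUn, hUe, hUc⟩ :=
    H28.exists_normal_elemAb_sq (P := ↥(S : Subgroup G)) 2 S.isPGroup' hrk
  set U' := U.map (S : Subgroup G).subtype with hU'
  have hU'S : U' ≤ S := Subgroup.map_subtype_le U
  have hU'card : Nat.card U' = 4 := by
    rw [hU', Subgroup.card_map_of_injective (Subgroup.subtype_injective _), hUc]; norm_num
  have hU'sq : ∀ a ∈ U', a ^ 2 = 1 := by
    rintro _ ⟨u, hu, rfl⟩
    have := hUe.2 u hu
    rw [← map_pow, this, map_one]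
  have hU'comm : ∀ a ∈ U', ∀ b ∈ U', a * b = b * a := by
    rintro _ ⟨u, hu, rfl⟩ _ ⟨v, hv, rfl⟩
    have h1 := hUe.1.1.1 ⟨u, hu⟩ ⟨v, hv⟩
    have h2 : u * v = v * u := congrArg Subtype.val h1
    rw [← map_mul, ← map_mul, h2]
  have hSU' : (S : Subgroup G) ≤ Subgroup.normalizer (U' : Set G) := by
    apply H54.le_normalizer_of_conj_mem
    rintro g hg _ ⟨u, hu, rfl⟩
    exact ⟨⟨g, hg⟩ * u * ⟨g, hg⟩⁻¹, hUn.conj_mem u hu ⟨g, hg⟩, rfl⟩
  haveI hU'c : IsMulCommutative U' := ⟨⟨fun a b => Subtype.ext (hU'comm a a.2 b b.2)⟩⟩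
  have hncyc : ¬ IsCyclic U' := by
    intro hcyc
    have h1 : Monoid.exponent U' = Nat.card U' := IsCyclic.exponent_eq_card
    have h2 : Monoid.exponent U' ∣ 2 := by
      apply Monoid.exponent_dvd_of_forall_pow_eq_one
      intro g
      apply Subtype.ext
      rw [Subgroup.coe_pow]
      exact hU'sq g g.2
    rw [h1, hU'card] at h2
    omega
  have hcop : (Nat.card U').Coprime (Nat.card X) := by
    rw [hU'card]
    have : (2 ^ 2).Coprime (Nat.card X) := Nat.Coprime.pow_left 2 (Nat.coprime_two_left.2 hX)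
    exact this
  have hgen := Lib.Helper30.genCent_eq (A := U') hncyc (Nat.card X) X rfl (hU'S.trans hSX) hcop
  rw [← hgen, eq_bot_iff]
  unfold Lib.Helper30.genCent
  apply iSup₂_le
  rintro a ⟨ha, ha1⟩
  have h2 : orderOf a = 2 := orderOf_eq_prime (hU'sq a ha) ha1
  rw [inf_centralizer_eq_bot S a (H0 a h2)
    (card_le_two_mul_centralizer S S.isPGroup' U' hU'card hSU' a ha ha1) X hX hSX]

/-- The statement of S3246. -/
theorem scn3_main [Finite G] (S : Sylow 2 G) (A : Subgroup G) (hA : IsSCN (S : Subgroup G) A)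
    (hA3 : ¬ PRankLE 2 2 ↥A)
    (h : (∀ M : Subgroup G, IsMaximalTwoLocal M → IsPConstrained 2 ↥M ∧ oddCore ↥M = ⊥) ∨
      (∀ t : G, orderOf t = 2 → IsPConstrained 2 ↥(Subgroup.centralizer ({t} : Set G)) ∧
        oddCore ↥(Subgroup.centralizer ({t} : Set G)) = ⊥)) :
    (∀ X : Subgroup G, Odd (Nat.card ↥X) → (S : Subgroup G) ≤ Subgroup.normalizer (X : Set G) →
        X = ⊥) ∧
      (∀ T : Subgroup G, IsPGroup 2 ↥T → T ≠ ⊥ →
        IsPConstrained 2 ↥(Subgroup.normalizer (T : Set G))) := by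
  classical
  haveI : Fact (Nat.Prime 2) := ⟨Nat.prime_two⟩
  have hrk : ¬ PRankLE 2 2 ↥(S : Subgroup G) := by
    obtain ⟨B, hBA, hBc, hBe, hBcard⟩ := (H28.not_pRankLE_subgroup_iff 2 2 A).1 hA3
    exact (H28.not_pRankLE_subgroup_iff 2 2 (S : Subgroup G)).2
      ⟨B, hBA.trans hA.1, hBc, hBe, hBcard⟩
  have H0 : ∀ t : G, orderOf t = 2 →
      Subgroup.centralizer (pCore 2 ↥(Subgroup.centralizer ({t} : Set G)) :
        Set ↥(Subgroup.centralizer ({t} : Set G))) ≤
      pCore 2 ↥(Subgroup.centralizer ({t} : Set G)) := by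
    intro t ht
    rcases h with h | h
    · have ht1 : t ≠ 1 := by
        rintro rfl
        rw [orderOf_one] at ht
        omega
      have hZp : IsPGroup 2 (Subgroup.zpowers t) := by
        apply IsPGroup.of_card (n := 1)
        rw [Nat.card_zpowers, ht, pow_one]
      have hZ1 : Subgroup.zpowers t ≠ ⊥ := Subgroup.zpowers_ne_bot.2 ht1
      have hN : IsTwoLocal (Subgroup.normalizer ((Subgroup.zpowers t : Subgroup G) : Set G)) :=
        ⟨Subgroup.zpowers t, hZp, hZ1, rfl⟩
      obtain ⟨M, hNM, hM⟩ := (Set.toFinite {M : Subgroup G | IsTwoLocal M ∧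
        Subgroup.normalizer ((Subgroup.zpowers t : Subgroup G) : Set G) ≤ M}).exists_le_maximal
          (show Subgroup.normalizer ((Subgroup.zpowers t : Subgroup G) : Set G) ∈ _ from
            ⟨hN, le_rfl⟩)
      have hmax : IsMaximalTwoLocal M :=
        ⟨hM.prop.1, fun N' hN' hMN' =>
          le_antisymm (hM.2 ⟨hN', hM.prop.2.trans hMN'⟩ hMN') hMN'⟩
      obtain ⟨hcon, hodd⟩ := h M hmax
      have hCharM := charP_of_isPConstrained 2 hcon hodd
      have h3 := H54.charP_centralizer_of_centralizer_le M (Subgroup.zpowers t) hCharM hZp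
        (Subgroup.le_normalizer.trans hNM)
        ((Subgroup.centralizer_le_normalizer _).trans hNM)
      rw [centralizer_zpowers_eq] at h3
      exact h3
    · obtain ⟨hcon, hodd⟩ := h t ht
      exact charP_of_isPConstrained 2 hcon hodd
  refine ⟨fun X hX hSX => no_invariant_odd S hrk H0 X hX hSX, fun T hT hT1 => ?_⟩
  obtain ⟨t, htT, ht2, htc⟩ := H28.exists_central_involution' T hT hT1
  exact isPConstrained_of_charP 2 (H54.charP_normalizer_of_centralizer_elt T hT t htT htc (H0 t ht2))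

end main

end Cfsg.Agent.H28.C2T
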