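import Cfsg.Agent.H28.LargeES
import Cfsg.Agent.H28.Bender

/-!
# Simplicity criterion for groups with an extraspecial `F*(C(z))`

If `Q = F*(C_G(z))` is extraspecial, `z` is not weakly closed in `Q`, `C_G(z)/Q` is simple,
`C_G(z)` is irreducible on `Q/⟨z⟩` and `⟨z^G ∩ C_G(z)⟩ ≠ Q`, then `G` is simple.
-/

set_option autoImplicit false

namespace Cfsg.Agent.H28.ESS

open Cfsg Cfsg.Agent.H92

variable {G : Type*} [Group G]

/-- A fixed-point-free involution inverts. -/
theorem inverts_of_fpf [Finite G] (N : Subgroup G) [hN : N.Normal] (t : G) (ht : t * t = 1)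
    (hf : ∀ n ∈ N, n * t = t * n → n = 1) : ∀ n ∈ N, t * n * t⁻¹ = n⁻¹ := by
  have hti : t⁻¹ = t := inv_eq_of_mul_eq_one_left ht
  let f : ↥N → ↥N := fun n =>
    ⟨(n : G)⁻¹ * (t * n * t⁻¹), N.mul_mem (N.inv_mem n.2) (hN.conj_mem n n.2 t)⟩
  have hinj : Function.Injective f := by
    intro n m hnm
    have h1 : (n : G)⁻¹ * (t * n * t⁻¹) = (m : G)⁻¹ * (t * m * t⁻¹) := congrArg Subtype.val hnm
    have h2 : ((m : G) * (n : G)⁻¹) * t = t * ((m : G) * (n : G)⁻¹) := by
      have h3 := congrArg (fun x => (m : G) * x * t * (n : G)⁻¹) h1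
      simpa [mul_assoc] using h3
    have h4 := hf _ (N.mul_mem m.2 (N.inv_mem n.2)) h2
    apply Subtype.ext
    exact (mul_inv_eq_one.mp h4).symm
  have hsurj := Finite.surjective_of_injective hinj
  intro n hn
  obtain ⟨m, hm⟩ := hsurj ⟨n, hn⟩
  have h1 : (m : G)⁻¹ * (t * m * t⁻¹) = n := congrArg Subtype.val hm
  rw [← h1]
  simp only [mul_inv_rev, inv_inv, hti, mul_assoc]
  rw [ht, mul_one]

/-- Every nontrivial normal subgroup contains `z`. -/
theorem z_mem_normal [Finite G] {Q : Subgroup G} {z : G} (hE : ESPair Q z)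
    (hnwc : ∃ g : G, g * z * g⁻¹ ∈ Q ∧ g * z * g⁻¹ ≠ z) (N : Subgroup G) [hN : N.Normal]
    (hN1 : N ≠ ⊥) : z ∈ N := by
  by_cases hfix : ∃ n ∈ N, n ≠ 1 ∧ n * z = z * n
  · obtain ⟨n, hn, hn1, hnz⟩ := hfix
    by_cases hc : ∀ q ∈ Q, q * n = n * q
    · rcases hE.cent n hc with h1 | h1
      · exact absurd h1 hn1
      · rw [← h1]; exact hn
    · push Not at hc
      obtain ⟨q, hq, hqn⟩ := hc
      have huN : q * n * q⁻¹ * n⁻¹ ∈ N := N.mul_mem (hN.conj_mem n hn q) (N.inv_mem hn)
      have huQ : q * n * q⁻¹ * n⁻¹ ∈ Q := by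
        have h1 := hE.norm n hnz q⁻¹ (Q.inv_mem hq)
        have e : q * n * q⁻¹ * n⁻¹ = q * (n * q⁻¹ * n⁻¹) := by group
        rw [e]; exact Q.mul_mem hq h1
      have hu1 : q * n * q⁻¹ * n⁻¹ ≠ 1 := by
        intro h1
        apply hqn
        have := congrArg (· * n * q) h1
        simpa [mul_assoc] using this
      generalize q * n * q⁻¹ * n⁻¹ = u at huN huQ hu1
      by_cases huz : u = z
      · rw [← huz]; exact huN
      · obtain ⟨q', hq', hq'u⟩ := hE.exists_conj huQ hu1 huz
        have h2 : q' * u * q'⁻¹ * u⁻¹ ∈ N := N.mul_mem (hN.conj_mem u huN q') (N.inv_mem huN)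
        rw [hq'u] at h2
        simpa using h2
  · exfalso
    push Not at hfix
    have hfpf : ∀ c : G, ∀ n ∈ N, n * (c * z * c⁻¹) = (c * z * c⁻¹) * n → n = 1 := by
      intro c n hn hc
      have h1 : c⁻¹ * n * c ∈ N := by
        have := hN.conj_mem n hn c⁻¹
        rwa [inv_inv] at this
      have h2 : (c⁻¹ * n * c) * z = z * (c⁻¹ * n * c) := by
        have := congrArg (fun x => c⁻¹ * x * c) hc
        simpa [mul_assoc] using this
      by_contra hn1
      apply hfix (c⁻¹ * n * c) h1 _ h2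
      intro h3
      apply hn1
      have := congrArg (fun x => c * x * c⁻¹) h3
      simpa [mul_assoc] using this
    obtain ⟨g, hgQ, hgz⟩ := hnwc
    have hg1 : g * z * g⁻¹ ≠ 1 := by
      intro h1
      apply hE.z_ne
      have := congrArg (fun x => g⁻¹ * x * g) h1
      simpa [mul_assoc] using this
    obtain ⟨q, hq, hqz⟩ := hE.exists_conj hgQ hg1 hgz
    have hsq : (g * z * g⁻¹) * (g * z * g⁻¹) = 1 := by
      have e : (g * z * g⁻¹) * (g * z * g⁻¹) = g * (z * z) * g⁻¹ := by group
      rw [e, hE.z_sq]; group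
    have hinv1 := inverts_of_fpf N z hE.z_sq (fun n hn h => by
      have := hfpf 1 n hn (by simpa using h)
      exact this)
    have hinv2 := inverts_of_fpf N (g * z * g⁻¹) hsq (hfpf g)
    have hall : ∀ n ∈ N, n = 1 := by
      intro n hn
      apply hfpf (q * g) n hn
      have e : q * g * z * (q * g)⁻¹ = q * (g * z * g⁻¹) * q⁻¹ := by group
      rw [e, hqz]
      have h1 := hinv2 n hn
      have h2 := hinv1 n⁻¹ (N.inv_mem hn)
      rw [inv_inv] at h2
      -- z * (z' * n * z'⁻¹) * z⁻¹ = n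
      have h3 : z * ((g * z * g⁻¹) * n * (g * z * g⁻¹)⁻¹) * z⁻¹ = n := by rw [h1, h2]
      have := congrArg (fun x => x * z * (g * z * g⁻¹)) h3
      simpa [mul_assoc] using this.symm
    apply hN1
    rw [eq_bot_iff]
    intro n hn
    rw [Subgroup.mem_bot]
    exact hall n hn

/-- Frattini step: if `C(z) ≤ M ⊴ G` and `Q ≤ M` then `M = G`. -/
theorem eq_top_of_centralizer_le [Finite G] {Q : Subgroup G} {z : G} (hE : ESPair Q z)
    (M : Subgroup G) [hM : M.Normal] (hHM : Subgroup.centralizer ({z} : Set G) ≤ M) :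
    M = ⊤ := by
  have : Fact (Nat.Prime 2) := ⟨Nat.prime_two⟩
  have hQH : Q ≤ Subgroup.centralizer ({z} : Set G) := by
    intro q hq
    rw [Subgroup.mem_centralizer_singleton_iff]
    exact hE.z_central q hq
  have hQM : Q ≤ M := hQH.trans hHM
  have hQ2 : IsPGroup 2 ↥(Q.subgroupOf M) :=
    (LES.isPGroup_of_le_ESPair hE Q le_rfl).comap_subtype
  obtain ⟨P, hP⟩ := hQ2.exists_le_sylow
  have hfr := Sylow.normalizer_sup_eq_top P
  have hQS : Q ≤ (P : Subgroup ↥M).map M.subtype := by
    intro q hq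
    exact ⟨⟨q, hQM hq⟩, hP (Subgroup.mem_subgroupOf.mpr hq), rfl⟩
  have hS2 : IsPGroup 2 ↥((P : Subgroup ↥M).map M.subtype) := P.isPGroup'.map _
  generalize (P : Subgroup ↥M).map M.subtype = S at hfr hQS hS2
  have hzS : z ∈ S := hQS hE.z_mem
  have hnt : Nontrivial ↥S := ⟨⟨⟨z, hzS⟩, 1, fun h => hE.z_ne (congrArg Subtype.val h)⟩⟩
  have hcn := hS2.center_nontrivial
  obtain ⟨c, hc1⟩ := exists_ne (1 : ↥(Subgroup.center ↥S))
  have hcz : ((c : ↥S) : G) = z := by
    have h1 : ∀ q ∈ Q, q * ((c : ↥S) : G) = ((c : ↥S) : G) * q := by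
      intro q hq
      have h2 := Subgroup.mem_center_iff.mp c.2 ⟨q, hQS hq⟩
      exact congrArg Subtype.val h2
    rcases hE.cent _ h1 with h3 | h3
    · exfalso
      apply hc1
      apply Subtype.ext
      apply Subtype.ext
      exact h3
    · exact h3
  have hzc : ∀ s ∈ S, s * z = z * s := by
    intro s hs
    have h2 := Subgroup.mem_center_iff.mp c.2 ⟨s, hs⟩
    have h3 := congrArg Subtype.val h2
    rw [← hcz]
    exact h3
  have hNM : Subgroup.normalizer (S : Set G) ≤ M := by
    intro y hy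
    apply hHM
    rw [Subgroup.mem_centralizer_singleton_iff]
    have hyi : y⁻¹ ∈ Subgroup.normalizer (S : Set G) := Subgroup.inv_mem _ hy
    have h1 : ∀ q ∈ Q, q * (y * z * y⁻¹) = (y * z * y⁻¹) * q := by
      intro q hq
      have h2 : y⁻¹ * q * y ∈ S := by
        have := (Subgroup.mem_normalizer_iff.mp hyi q).mp (hQS hq)
        rwa [inv_inv] at this
      have h3 := hzc _ h2
      have := congrArg (fun x => y * x * y⁻¹) h3
      simpa [mul_assoc] using this
    rcases hE.cent _ h1 with h3 | h3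
    · exfalso
      apply hE.z_ne
      have := congrArg (fun x => y⁻¹ * x * y) h3
      simpa [mul_assoc] using this
    · have := congrArg (fun x => x * y) h3
      simpa [mul_assoc] using this
  rw [← hfr]
  exact (sup_eq_right.mpr hNM).symm

/-- The simplicity criterion, in terms of subgroups of `G`. -/
theorem simple_of_ES [Finite G] {Q : Subgroup G} {z : G} (hE : ESPair Q z)
    (hnwc : ∃ g : G, g * z * g⁻¹ ∈ Q ∧ g * z * g⁻¹ ≠ z)
    (hirr : ∀ W : Subgroup G, W ≤ Q → (∀ c, c * z = z * c → ∀ w ∈ W, c * w * c⁻¹ ∈ W) →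
      W = Q ∨ ∀ x ∈ W, x = 1 ∨ x = z)
    (hmax : ∀ K : Subgroup G, Q ≤ K → K ≤ Subgroup.centralizer ({z} : Set G) →
      (∀ c, c * z = z * c → ∀ k ∈ K, c * k * c⁻¹ ∈ K) →
      K = Q ∨ Subgroup.centralizer ({z} : Set G) ≤ K)
    (hwcl : Subgroup.closure {x : G | x * z = z * x ∧ IsConj z x} ≠ Q) : IsSimpleGroup G := by
  have hnt : Nontrivial G := ⟨⟨z, 1, hE.z_ne⟩⟩
  have hQH : Q ≤ Subgroup.centralizer ({z} : Set G) := by
    intro q hq
    rw [Subgroup.mem_centralizer_singleton_iff]
    exact hE.z_central q hq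
  have hMn : (Subgroup.normalClosure ({z} : Set G)).Normal := Subgroup.normalClosure_normal
  have hzM : z ∈ Subgroup.normalClosure ({z} : Set G) :=
    Subgroup.subset_normalClosure (Set.mem_singleton z)
  have hconjM : ∀ x, IsConj z x → x ∈ Subgroup.normalClosure ({z} : Set G) := by
    intro x hx
    obtain ⟨c, hc⟩ := isConj_iff.mp hx
    rw [← hc]
    exact hMn.conj_mem z hzM c
  obtain ⟨g, hgQ, hgz⟩ := hnwc
  have hg1 : g * z * g⁻¹ ≠ 1 := by
    intro h1
    apply hE.z_ne
    have := congrArg (fun x => g⁻¹ * x * g) h1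
    simpa [mul_assoc] using this
  have hgM : g * z * g⁻¹ ∈ Subgroup.normalClosure ({z} : Set G) := hMn.conj_mem z hzM g
  -- `Q ≤ M`
  have hQM : Q ≤ Subgroup.normalClosure ({z} : Set G) := by
    have h1 := hirr (Subgroup.normalClosure ({z} : Set G) ⊓ Q) inf_le_right (by
      intro c hc w hw
      exact ⟨hMn.conj_mem w hw.1 c, hE.norm c hc w hw.2⟩)
    rcases h1 with h1 | h1
    · rw [← h1]; exact inf_le_left
    · rcases h1 _ ⟨hgM, hgQ⟩ with h2 | h2
      · exact absurd h2 hg1
      · exact absurd h2 hgz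
  -- `M ∩ H` is `Q` or `H`
  have h2 := hmax (Subgroup.normalClosure ({z} : Set G) ⊓ Subgroup.centralizer ({z} : Set G))
    (le_inf hQM hQH) inf_le_right (by
      intro c hc k hk
      refine ⟨hMn.conj_mem k hk.1 c, ?_⟩
      have hcH : c ∈ Subgroup.centralizer ({z} : Set G) :=
        Subgroup.mem_centralizer_singleton_iff.mpr hc
      exact Subgroup.mul_mem _ (Subgroup.mul_mem _ hcH hk.2) (Subgroup.inv_mem _ hcH))
  have hMtop : Subgroup.normalClosure ({z} : Set G) = ⊤ := by
    rcases h2 with h2 | h2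
    · exfalso
      -- `D = ⟨z^G ∩ H⟩ ≤ Q`
      have hDQ : Subgroup.closure {x : G | x * z = z * x ∧ IsConj z x} ≤ Q := by
        rw [Subgroup.closure_le]
        intro x hx
        rw [← h2]
        exact ⟨hconjM x hx.2, Subgroup.mem_centralizer_singleton_iff.mpr hx.1⟩
      have h3 := hirr _ hDQ (by
        intro c hc w hw
        have hle : Subgroup.closure {x : G | x * z = z * x ∧ IsConj z x} ≤
            (Subgroup.closure {x : G | x * z = z * x ∧ IsConj z x}).comap
              (MulAut.conj c).toMonoidHom := by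
          rw [Subgroup.closure_le]
          intro x hx
          rw [SetLike.mem_coe, Subgroup.mem_comap]
          apply Subgroup.subset_closure
          refine ⟨?_, ?_⟩
          · show c * x * c⁻¹ * z = z * (c * x * c⁻¹)
            have hci : c⁻¹ * z = z * c⁻¹ := LES.inv_push hc
            calc c * x * c⁻¹ * z = c * x * (c⁻¹ * z) := by group
              _ = c * (x * z) * c⁻¹ := by rw [hci]; group
              _ = (c * z) * x * c⁻¹ := by rw [hx.1]; group
              _ = z * (c * x * c⁻¹) := by rw [hc]; group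
          · exact hx.2.trans (isConj_iff.mpr ⟨c, rfl⟩)
        exact hle hw)
      rcases h3 with h3 | h3
      · exact hwcl h3
      · have hgD : g * z * g⁻¹ ∈ Subgroup.closure {x : G | x * z = z * x ∧ IsConj z x} :=
          Subgroup.subset_closure ⟨hE.z_central _ hgQ, isConj_iff.mpr ⟨g, rfl⟩⟩
        rcases h3 _ hgD with h4 | h4
        · exact hg1 h4
        · exact hgz h4
    · exact eq_top_of_centralizer_le hE _ (h2.trans inf_le_left)
  refine ⟨fun N hN => ?_⟩
  by_cases hN1 : N = ⊥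
  · exact Or.inl hN1
  · right
    have hzN : z ∈ N := z_mem_normal hE ⟨g, hgQ, hgz⟩ N hN1
    have hle : Subgroup.normalClosure ({z} : Set G) ≤ N :=
      Subgroup.normalClosure_le_normal (by
        intro x hx
        rw [Set.mem_singleton_iff.mp hx]; exact hzN)
    rw [hMtop] at hle
    exact top_le_iff.mp hle

/-- From `F*(C(z)) = Q` extraspecial (as a subgroup of `C(z)`) to an `ESPair` in `G`. -/
theorem espair_of_genFitting [Finite G] (z : G) (hz : orderOf z = 2)
    (Q : Subgroup (Subgroup.centralizer ({z} : Set G))) [hQn : Q.Normal]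
    (hF : Cfsg.generalizedFittingSubgroup ↥(Subgroup.centralizer ({z} : Set G)) = Q)
    (hQ : Cfsg.IsExtraspecial 2 ↥Q) :
    ESPair (Q.map (Subgroup.centralizer ({z} : Set G)).subtype) z := by
  have hz1 : z ≠ 1 := by
    intro h1
    rw [h1, orderOf_one] at hz
    omega
  have hzz : z * z = 1 := by
    have := pow_orderOf_eq_one z
    rwa [hz, pow_two] at this
  have hzH : z ∈ Subgroup.centralizer ({z} : Set G) :=
    Subgroup.mem_centralizer_singleton_iff.mpr rfl
  have hcen : Subgroup.centralizer (Q : Set ↥(Subgroup.centralizer ({z} : Set G))) ≤ Q := by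
    have h1 := Cfsg.Agent.H28.centralizer_genFitting_le
      (G := ↥(Subgroup.centralizer ({z} : Set G)))
    rwa [hF] at h1
  have hL2 : Subgroup.centralizer (Q : Set ↥(Subgroup.centralizer ({z} : Set G))) =
      (Subgroup.center ↥Q).map Q.subtype := by
    apply le_antisymm
    · intro x hx
      refine ⟨⟨x, hcen hx⟩, ?_, rfl⟩
      rw [SetLike.mem_coe, Subgroup.mem_center_iff]
      intro y
      apply Subtype.ext
      exact Subgroup.mem_centralizer_iff.mp hx y y.2
    · rintro _ ⟨x, hx, rfl⟩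
      rw [Subgroup.mem_centralizer_iff]
      intro y hy
      have h1 := Subgroup.mem_center_iff.mp hx ⟨y, hy⟩
      exact congrArg Subtype.val h1
  have hL3 : Subgroup.centralizer
      (((Subgroup.center ↥Q).map Q.subtype : Subgroup ↥(Subgroup.centralizer ({z} : Set G))) :
        Set ↥(Subgroup.centralizer ({z} : Set G))) ≤ Subgroup.normalizer (Q : Set _) := by
    rw [Subgroup.normalizer_eq_top]
    exact le_top
  obtain ⟨z', hE, hZ⟩ := ESPair.of_hyp Q hQ hL2 hL3
  have hzz' : (⟨z, hzH⟩ : ↥(Subgroup.centralizer ({z} : Set G))) = z' := by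
    have h1 : (⟨z, hzH⟩ : ↥(Subgroup.centralizer ({z} : Set G))) ∈
        Subgroup.centralizer (Q : Set ↥(Subgroup.centralizer ({z} : Set G))) := by
      rw [Subgroup.mem_centralizer_iff]
      intro y _
      apply Subtype.ext
      exact (Subgroup.mem_centralizer_singleton_iff.mp y.2)
    rw [hL2] at h1
    rcases (hZ _).mp h1 with h2 | h2
    · exact absurd (congrArg Subtype.val h2) hz1
    · exact h2
  subst hzz'
  refine ⟨⟨_, hE.z_mem, rfl⟩, hz1, hzz, ?_, ?_, ?_, ?_, ?_⟩
  · rintro _ ⟨q, _, rfl⟩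
    exact Subgroup.mem_centralizer_singleton_iff.mp q.2
  · rintro _ ⟨x, hx, rfl⟩ _ ⟨y, hy, rfl⟩
    rcases hE.comm x hx y hy with h1 | h1
    · left; exact congrArg Subtype.val h1
    · right; exact congrArg Subtype.val h1
  · rintro _ ⟨x, hx, rfl⟩
    rcases hE.sq x hx with h1 | h1
    · left; exact congrArg Subtype.val h1
    · right; exact congrArg Subtype.val h1
  · intro c hc
    have hcz : c * z = z * c := (hc z ⟨_, hE.z_mem, rfl⟩).symm
    have hcH : c ∈ Subgroup.centralizer ({z} : Set G) :=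
      Subgroup.mem_centralizer_singleton_iff.mpr hcz
    have h1 := hE.cent ⟨c, hcH⟩ (by
      intro q hq
      apply Subtype.ext
      exact hc q ⟨q, hq, rfl⟩)
    rcases h1 with h1 | h1
    · left; exact congrArg Subtype.val h1
    · right; exact congrArg Subtype.val h1
  · rintro c hc _ ⟨q, hq, rfl⟩
    have hcH : c ∈ Subgroup.centralizer ({z} : Set G) :=
      Subgroup.mem_centralizer_singleton_iff.mpr hc
    exact ⟨⟨c, hcH⟩ * q * ⟨c, hcH⟩⁻¹, hQn.conj_mem q hq ⟨c, hcH⟩, rfl⟩

/-- The simplicity criterion in the form of the statement. -/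
theorem simple_of_hyp [Finite G] (z : G) (hz : orderOf z = 2)
    (Q : Subgroup (Subgroup.centralizer ({z} : Set G))) [hQn : Q.Normal]
    (hF : Cfsg.generalizedFittingSubgroup ↥(Subgroup.centralizer ({z} : Set G)) = Q)
    (hQ : Cfsg.IsExtraspecial 2 ↥Q)
    (hnwc : ∃ g : G, (∃ hq : g * z * g⁻¹ ∈ Subgroup.centralizer ({z} : Set G),
      (⟨g * z * g⁻¹, hq⟩ : Subgroup.centralizer ({z} : Set G)) ∈ Q) ∧ g * z * g⁻¹ ≠ z)
    (hsimp : IsSimpleGroup (↥(Subgroup.centralizer ({z} : Set G)) ⧸ Q))
    (hirr : ∀ W : Subgroup (Subgroup.centralizer ({z} : Set G)), W.Normal → W ≤ Q →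
      (W = Q ∨ ∀ x ∈ W, (x : G) ∈ Subgroup.zpowers z))
    (hwcl : Subgroup.closure {x : Subgroup.centralizer ({z} : Set G) | IsConj z (x : G)} ≠ Q) :
    IsSimpleGroup G := by
  have hE := espair_of_genFitting z hz Q hF hQ
  have hQH : Q.map (Subgroup.centralizer ({z} : Set G)).subtype ≤
      Subgroup.centralizer ({z} : Set G) := by
    rintro _ ⟨q, _, rfl⟩
    exact q.2
  have hnormal : ∀ K : Subgroup G, (∀ c, c * z = z * c → ∀ k ∈ K, c * k * c⁻¹ ∈ K) →
      (K.subgroupOf (Subgroup.centralizer ({z} : Set G))).Normal := by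
    intro K hK
    refine ⟨fun k hk c => ?_⟩
    rw [Subgroup.mem_subgroupOf] at hk ⊢
    exact hK c (Subgroup.mem_centralizer_singleton_iff.mp c.2) k hk
  have hback : ∀ K : Subgroup G, K ≤ Subgroup.centralizer ({z} : Set G) →
      (K.subgroupOf (Subgroup.centralizer ({z} : Set G))).map
        (Subgroup.centralizer ({z} : Set G)).subtype = K := by
    intro K hK
    rw [Subgroup.subgroupOf_map_subtype]
    exact inf_eq_left.mpr hK
  apply simple_of_ES hE
  · obtain ⟨g, ⟨hq, hmem⟩, hne⟩ := hnwc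
    exact ⟨g, ⟨_, hmem, rfl⟩, hne⟩
  · intro W hWQ hW
    have hWn := hnormal W hW
    have hWle : W.subgroupOf (Subgroup.centralizer ({z} : Set G)) ≤ Q := by
      intro w hw
      obtain ⟨q, hq, hqw⟩ := hWQ (Subgroup.mem_subgroupOf.mp hw)
      have : q = w := Subtype.ext hqw
      rw [← this]; exact hq
    rcases hirr _ hWn hWle with h1 | h1
    · left
      rw [← hback W (hWQ.trans hQH), h1]
    · right
      intro x hx
      have hxH : x ∈ Subgroup.centralizer ({z} : Set G) := hQH (hWQ hx)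
      have h2 := h1 ⟨x, hxH⟩ (Subgroup.mem_subgroupOf.mpr hx)
      exact (LES.mem_zpowers_invol hE.z_sq x).mp h2
  · intro K hQK hKH hK
    have hKn := hnormal K hK
    have hQK' : Q ≤ K.subgroupOf (Subgroup.centralizer ({z} : Set G)) := by
      intro q hq
      rw [Subgroup.mem_subgroupOf]
      exact hQK ⟨q, hq, rfl⟩
    have hmapn : ((K.subgroupOf (Subgroup.centralizer ({z} : Set G))).map
        (QuotientGroup.mk' Q)).Normal :=
      Subgroup.Normal.map hKn _ (QuotientGroup.mk'_surjective Q)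
    rcases hmapn.eq_bot_or_eq_top with h1 | h1
    · left
      have hle : K.subgroupOf (Subgroup.centralizer ({z} : Set G)) ≤ Q := by
        intro k hk
        have h2 : QuotientGroup.mk' Q k ∈
            (K.subgroupOf (Subgroup.centralizer ({z} : Set G))).map (QuotientGroup.mk' Q) :=
          Subgroup.mem_map_of_mem _ hk
        rw [h1, Subgroup.mem_bot] at h2
        exact (QuotientGroup.eq_one_iff k).mp h2
      rw [← hback K hKH, le_antisymm hle hQK']
    · right
      intro x hx
      have h2 : QuotientGroup.mk' Q ⟨x, hx⟩ ∈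
          (K.subgroupOf (Subgroup.centralizer ({z} : Set G))).map (QuotientGroup.mk' Q) := by
        rw [h1]; exact Subgroup.mem_top _
      obtain ⟨k, hk, hkx⟩ := h2
      have h3 : k⁻¹ * ⟨x, hx⟩ ∈ Q := by
        have := QuotientGroup.eq.mp hkx
        exact this
      have h4 : k * (k⁻¹ * ⟨x, hx⟩) ∈ K.subgroupOf (Subgroup.centralizer ({z} : Set G)) :=
        Subgroup.mul_mem _ hk (hQK' h3)
      rw [mul_inv_cancel_left] at h4
      exact Subgroup.mem_subgroupOf.mp h4
  · intro hcon
    apply hwcl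
    apply Subgroup.map_injective (Subgroup.centralizer ({z} : Set G)).subtype_injective
    rw [← hcon, MonoidHom.map_closure]
    congr 1
    ext x
    constructor
    · rintro ⟨y, hy, rfl⟩
      exact ⟨Subgroup.mem_centralizer_singleton_iff.mp y.2, hy⟩
    · rintro ⟨h1, h2⟩
      exact ⟨⟨x, Subgroup.mem_centralizer_singleton_iff.mpr h1⟩, h2, rfl⟩

end Cfsg.Agent.H28.ESS
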