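import Cfsg.Agent.H28.SolvBalance
import Cfsg.Agent.H1.Coprime

/-!
# A `P`-free core lemma for `O_{q'}` of centralizers in groups with a solvable normal part
-/

set_option autoImplicit false

namespace Cfsg.Agent.H28.Flv

open Cfsg Cfsg.Agent.H28

universe u

variable {H : Type u} [Group H]

/-- `O_{q'}(H) = 1`, `L` a solvable normal subgroup: `C_L(O_q(H)) ≤ O_q(H)`. -/
theorem solvable_normal_inf_centralizer_pCore_le [Finite H] (q : ℕ) [Fact q.Prime]
    (h0 : pPrimeCore q H = ⊥) (L : Subgroup H) [hLn : L.Normal] (hLs : Group.IsSolvable L) :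
    L ⊓ Subgroup.centralizer (pCore q H : Set H) ≤ pCore q H := by
  have hFit : fittingSubgroup H ≤ pCore q H := fitting_le_pCore_of_pPrimeCore_eq_bot q h0
  have hlay : ⁅layer H, L⁆ = ⊥ := by
    apply comm_layer_of_forall
    intro K hK
    apply H27.component_comm_solvable K L hK hLs
    rw [Subgroup.normalizer_eq_top]; exact le_top
  have hFn := genFitting_normal (G := H)
  have hCn : (Subgroup.centralizer (generalizedFittingSubgroup H : Set H)).Normal :=
    Subgroup.normal_centralizer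
  set Z := generalizedFittingSubgroup H ⊓
    Subgroup.centralizer (generalizedFittingSubgroup H : Set H) with hZ
  have hZn : Z.Normal := Subgroup.normal_inf_normal _ _
  have hZF : Z ≤ fittingSubgroup H := by
    apply le_fitting_of_normal_of_comm hZn
    intro a ha b hb
    exact (Subgroup.mem_centralizer_iff.mp hb.2 a ha.1)
  intro x hx
  have hxc : x ∈ Subgroup.centralizer (generalizedFittingSubgroup H : Set H) := by
    have h1 : generalizedFittingSubgroup H ≤ Subgroup.centralizer ({x} : Set H) := by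
      unfold generalizedFittingSubgroup
      apply sup_le
      · intro e he
        rw [Subgroup.mem_centralizer_singleton_iff]
        exact (H27.comm_of_comm_eq_bot hlay he hx.1)
      · intro f hf
        rw [Subgroup.mem_centralizer_singleton_iff]
        exact (Subgroup.mem_centralizer_iff.mp hx.2 f (hFit hf))
    rw [Subgroup.mem_centralizer_iff]
    intro g hg
    exact (Subgroup.mem_centralizer_singleton_iff.mp (h1 hg))
  exact hFit (hZF ⟨centralizer_genFitting_le hxc, hxc⟩)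

/-- Core lemma. `L` solvable normal in `H`, `H = L C`, `R` a `q`-subgroup, `X` a `q'`-subgroup
of `N_H(R)` normalized by `N_H(R)`, `Y` a `q'`-subgroup normalized by `C`. Then
`X ∩ L ≤ O_{q'}(H)` and `X ∩ Y ≤ O_{q'}(H)`. -/
theorem core [Finite H] (q : ℕ) [Fact q.Prime] (L C : Subgroup H) [hLn : L.Normal]
    (hLs : Group.IsSolvable L) (hLC : L ⊔ C = ⊤)
    (R X Y : Subgroup H) (hR : IsPGroup q R)
    (hX : (Nat.card X).Coprime q) (hXR : X ≤ Subgroup.normalizer (R : Set H))
    (hRX : Subgroup.normalizer (R : Set H) ≤ Subgroup.normalizer (X : Set H))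
    (hY : (Nat.card Y).Coprime q) (hCY : C ≤ Subgroup.normalizer (Y : Set H)) :
    X ⊓ L ≤ pPrimeCore q H ∧ X ⊓ Y ≤ pPrimeCore q H := by
  have hOcop : (Nat.card (pPrimeCore q H)).Coprime q := H60.card_pPrimeCore_coprime q
  have h0 : pPrimeCore q (H ⧸ pPrimeCore q H) = ⊥ := H60.pPrimeCore_quotient_eq_bot q
  set π := QuotientGroup.mk' (pPrimeCore q H) with hπ
  have hπs : Function.Surjective π := QuotientGroup.mk'_surjective _
  have hXb : (Nat.card (X.map π)).Coprime q :=
    Nat.Coprime.coprime_dvd_left (Subgroup.card_map_dvd _ _) hX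
  have hYb : (Nat.card (Y.map π)).Coprime q :=
    Nat.Coprime.coprime_dvd_left (Subgroup.card_map_dvd _ _) hY
  have key := pPrime_normalizer_core (G := H ⧸ pPrimeCore q H) q h0 (R.map π) (X.map π)
    (hR.map _) hXb ((Subgroup.map_mono hXR).trans (Subgroup.le_normalizer_map _))
    (by
      intro gb hgb
      obtain ⟨g, rfl⟩ := hπs gb
      obtain ⟨n, hn, hng⟩ := H14.exists_mem_normalizer_of_mk_mem_normalizer hR hOcop g hgb
      rw [← hng]
      exact Subgroup.le_normalizer_map _ ⟨n, hRX hn, rfl⟩)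
  have hXF := key.1
  set F := pCore q (H ⧸ pPrimeCore q H) with hF
  have hFq : IsPGroup q F := H60.isPGroup_pCore q
  have hLbn : (L.map π).Normal := hLn.map π hπs
  have hLbs : Group.IsSolvable (L.map π) := by
    have hsurj : Function.Surjective (π.subgroupMap L) := MonoidHom.subgroupMap_surjective π L
    exact Group.isSolvable_of_surjective hsurj
  have hii : L.map π ⊓ Subgroup.centralizer (F : Set (H ⧸ pPrimeCore q H)) ≤ F :=
    solvable_normal_inf_centralizer_pCore_le q h0 (L.map π) hLbs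
  have hker : ∀ x : H, π x = 1 → x ∈ pPrimeCore q H := by
    intro x hx
    rwa [hπ, QuotientGroup.mk'_apply, QuotientGroup.eq_one_iff] at hx
  constructor
  · intro x hx
    apply hker
    have h1 : π x ∈ F := hii ⟨⟨x, hx.2, rfl⟩, hXF ⟨x, hx.1, rfl⟩⟩
    obtain ⟨k, hk⟩ := hFq ⟨_, h1⟩
    have hk' : (π x) ^ q ^ k = 1 := by simpa using congrArg Subtype.val hk
    exact eq_one_of_pow_of_coprime hXb (⟨x, hx.1, rfl⟩ : π x ∈ X.map π) hk'
  · set Y₀ := Y.map π ⊓ Subgroup.centralizer (F : Set (H ⧸ pPrimeCore q H)) with hY₀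
    have hCFn : (Subgroup.centralizer (F : Set (H ⧸ pPrimeCore q H))).Normal := by
      have : F.Normal := H39.pCore_normal' (G := H ⧸ pPrimeCore q H) q
      exact Subgroup.normal_centralizer
    have hY₀cop : (Nat.card Y₀).Coprime q :=
      Nat.Coprime.coprime_dvd_left (Subgroup.card_dvd_of_le inf_le_left) hYb
    -- `Y₀` centralizes the image of `L`
    have hcent : L.map π ≤ Subgroup.centralizer (Y₀ : Set (H ⧸ pPrimeCore q H)) := by
      intro l hl
      rw [Subgroup.mem_centralizer_iff]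
      intro y hy
      set c := l * y * l⁻¹ * y⁻¹ with hc
      have hcL : c ∈ L.map π := by
        have h1 : y * l⁻¹ * y⁻¹ ∈ L.map π := hLbn.conj_mem _ (Subgroup.inv_mem _ hl) y
        have h2 : c = l * (y * l⁻¹ * y⁻¹) := by rw [hc]; group
        rw [h2]; exact Subgroup.mul_mem _ hl h1
      have hcC : c ∈ Subgroup.centralizer (F : Set (H ⧸ pPrimeCore q H)) := by
        have h1 : l * y * l⁻¹ ∈ Subgroup.centralizer (F : Set (H ⧸ pPrimeCore q H)) :=
          hCFn.conj_mem _ hy.2 l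
        exact Subgroup.mul_mem _ h1 (Subgroup.inv_mem _ hy.2)
      have hcF : c ∈ F := hii ⟨hcL, hcC⟩
      have hyc : Commute c y := (Subgroup.mem_centralizer_iff.mp hy.2 c hcF)
      have hlyl : l * y * l⁻¹ = c * y := by rw [hc]; group
      set n := Nat.card Y₀ with hn
      have hyn : y ^ n = 1 := by
        have h2 : ((⟨y, hy⟩ : Y₀) ^ n) = 1 := pow_card_eq_one'
        have h3 : (((⟨y, hy⟩ : Y₀) ^ n : Y₀) : H ⧸ pPrimeCore q H) = 1 := by rw [h2]; rfl
        exact h3
      have hcn : c ^ n = 1 := by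
        have h1 : (l * y * l⁻¹) ^ n = 1 := by
          rw [conj_pow, hyn]; group
        rw [hlyl, hyc.mul_pow, hyn, mul_one] at h1
        exact h1
      obtain ⟨k, hk⟩ := hFq ⟨c, hcF⟩
      have hk' : c ^ q ^ k = 1 := by simpa using congrArg Subtype.val hk
      have h1 : orderOf c ∣ q ^ k := orderOf_dvd_of_pow_eq_one hk'
      have h2 : orderOf c ∣ n := orderOf_dvd_of_pow_eq_one hcn
      have h3 : (orderOf c).Coprime (q ^ k) :=
        Nat.Coprime.coprime_dvd_left h2 (Nat.Coprime.pow_right k hY₀cop)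
      have hc1 : c = 1 := orderOf_eq_one_iff.mp (Nat.Coprime.eq_one_of_dvd h3 h1)
      have : l * y = y * l := by
        have h4 : l * y = c * (y * l) := by rw [hc]; group
        rw [h4, hc1, one_mul]
      exact this.symm
    have hnorm : (⊤ : Subgroup (H ⧸ pPrimeCore q H)) ≤
        Subgroup.normalizer (Y₀ : Set (H ⧸ pPrimeCore q H)) := by
      have h1 : (L ⊔ C).map π = ⊤ := by
        rw [hLC, ← MonoidHom.range_eq_map, MonoidHom.range_eq_top]; exact hπs
      rw [← h1, Subgroup.map_sup]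
      apply sup_le
      · exact hcent.trans (Subgroup.centralizer_le_normalizer _)
      · have h2 : C.map π ≤ Subgroup.normalizer ((Y.map π : Subgroup _) : Set (H ⧸ pPrimeCore q H)) :=
          (Subgroup.map_mono hCY).trans (Subgroup.le_normalizer_map _)
        have h3 : C.map π ≤ Subgroup.normalizer
            ((Subgroup.centralizer (F : Set (H ⧸ pPrimeCore q H)) : Subgroup _) :
              Set (H ⧸ pPrimeCore q H)) := by
          rw [Subgroup.normalizer_eq_top]; exact le_top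
        exact (le_inf h2 h3).trans (normalizer_inf_le_normalizer_inf _ _)
    have hY₀n : Y₀.Normal := by
      rw [← Subgroup.normalizer_eq_top_iff]
      exact top_le_iff.mp hnorm
    have hY₀bot : Y₀ = ⊥ := by
      have h1 := H27.le_rad (Q := fun K _ => (Nat.card K).Coprime q) hY₀n hY₀cop
      rw [← H27.pPrimeCore_eq_rad, h0] at h1
      exact le_bot_iff.mp h1
    intro x hx
    apply hker
    have h1 : π x ∈ Y₀ := ⟨⟨x, hx.2, rfl⟩, hXF ⟨x, hx.1, rfl⟩⟩
    rw [hY₀bot] at h1
    exact Subgroup.mem_bot.mp h1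

/-- The normalizer of `⟨z⟩` normalizes `O_{q'}` of `H ∩ C_G(z)` for `H` normal. -/
theorem normalizer_zpowers_le_normalizer_core {G : Type u} [Group G] (q : ℕ) (Hs : Subgroup G)
    [hHn : Hs.Normal] (z : G) (n : G) (hn : n⁻¹ * z * n ∈ Subgroup.zpowers z)
    (hn' : n * z * n⁻¹ ∈ Subgroup.zpowers z) :
    n ∈ Subgroup.normalizer
      (((pPrimeCore q ↥(Hs ⊓ Subgroup.centralizer ({z} : Set G))).map
        (Hs ⊓ Subgroup.centralizer ({z} : Set G)).subtype : Subgroup G) : Set G) := by
  have hnCz : n ∈ Subgroup.normalizer ((Subgroup.centralizer ({z} : Set G) : Subgroup G) : Set G) := by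
    rw [Subgroup.mem_normalizer_iff]
    intro c
    constructor
    · intro hc
      rw [Subgroup.mem_centralizer_singleton_iff] at hc ⊢
      exact conj_comm_of_conj_mem_zpowers n z c hn hc
    · intro hc
      rw [Subgroup.mem_centralizer_singleton_iff] at hc ⊢
      have h1 := conj_comm_of_conj_mem_zpowers n⁻¹ z _ (by simpa using hn') hc
      have h2 : n⁻¹ * (n * c * n⁻¹) * (n⁻¹)⁻¹ = c := by group
      rwa [h2] at h1
  have hnH : n ∈ Subgroup.normalizer (Hs : Set G) := by
    rw [Subgroup.normalizer_eq_top]; exact Subgroup.mem_top _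
  have hnI : n ∈ Subgroup.normalizer ((Hs ⊓ Subgroup.centralizer ({z} : Set G) : Subgroup G) : Set G) :=
    normalizer_inf_le_normalizer_inf _ _ ⟨hnH, hnCz⟩
  exact H27.normalizer_le_normalizer_radIn (H27.isoInv_coprime q) _ hnI

/-- S3819. -/
theorem s3819 {G : Type u} [Group G] [Finite G] {p : ℕ} [Fact p.Prime]
    (P : Sylow p G)
    (hsol : Group.IsSolvable ↥⁅Cfsg.pPrimeCore p G, (P : Subgroup G)⁆)
    {q : ℕ} [Fact q.Prime] (z : G) (hzH : z ∈ Cfsg.pPrimeCore p G)
    (hzP : z ∈ Subgroup.centralizer ((P : Subgroup G) : Set G))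
    (hz : ∃ k : ℕ, orderOf z = q ^ k) :
    ((Cfsg.pPrimeCore q ↥(Cfsg.pPrimeCore p G ⊓ Subgroup.centralizer ({z} : Set G))).map
        (Cfsg.pPrimeCore p G ⊓ Subgroup.centralizer ({z} : Set G)).subtype ⊓
      (Cfsg.pPrimeCore q ↥(Cfsg.pPrimeCore p G ⊓ Subgroup.centralizer ((P : Subgroup G) : Set G))).map
        (Cfsg.pPrimeCore p G ⊓ Subgroup.centralizer ((P : Subgroup G) : Set G)).subtype) ⊔
    ⁅(Cfsg.pPrimeCore q ↥(Cfsg.pPrimeCore p G ⊓ Subgroup.centralizer ({z} : Set G))).map
        (Cfsg.pPrimeCore p G ⊓ Subgroup.centralizer ({z} : Set G)).subtype, (P : Subgroup G)⁆ ≤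
    (Cfsg.pPrimeCore q ↥(Cfsg.pPrimeCore p G)).map (Cfsg.pPrimeCore p G).subtype := by
  set Hs := Cfsg.pPrimeCore p G with hHs
  set Cz := Hs ⊓ Subgroup.centralizer ({z} : Set G) with hCz
  set CP := Hs ⊓ Subgroup.centralizer ((P : Subgroup G) : Set G) with hCP
  set X := (Cfsg.pPrimeCore q ↥Cz).map Cz.subtype with hX
  set Y := (Cfsg.pPrimeCore q ↥CP).map CP.subtype with hY
  have hHn : Hs.Normal := inferInstance
  have hHcop : (Nat.card Hs).Coprime p := H60.card_pPrimeCore_coprime p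
  have hPp : IsPGroup p (P : Subgroup G) := P.isPGroup'
  have hXCz : X ≤ Cz := by rintro _ ⟨y, -, rfl⟩; exact y.2
  have hYCP : Y ≤ CP := by rintro _ ⟨y, -, rfl⟩; exact y.2
  have hXH : X ≤ Hs := hXCz.trans inf_le_left
  have hYH : Y ≤ Hs := hYCP.trans inf_le_left
  have hXcop : (Nat.card X).Coprime q := by
    have h2 : Nat.card X = Nat.card (pPrimeCore q ↥Cz) :=
      (Nat.card_congr ((pPrimeCore q ↥Cz).equivMapOfInjective
        Cz.subtype Cz.subtype_injective).toEquiv).symm
    rw [h2]; exact H60.card_pPrimeCore_coprime q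
  have hYcop : (Nat.card Y).Coprime q := by
    have h2 : Nat.card Y = Nat.card (pPrimeCore q ↥CP) :=
      (Nat.card_congr ((pPrimeCore q ↥CP).equivMapOfInjective
        CP.subtype CP.subtype_injective).toEquiv).symm
    rw [h2]; exact H60.card_pPrimeCore_coprime q
  -- coprime decomposition
  have hPN : (P : Subgroup G) ≤ Subgroup.normalizer (Hs : Set G) := by
    rw [Subgroup.normalizer_eq_top]; exact le_top
  have hcopPH : (Nat.card (P : Subgroup G)).Coprime (Nat.card Hs) := by
    obtain ⟨n, hn⟩ := IsPGroup.iff_card.mp hPp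
    rw [hn]
    exact Nat.Coprime.pow_left n hHcop.symm
  have hdec : ⁅Hs, (P : Subgroup G)⁆ ⊔ CP = Hs :=
    H1.coprime_commutator_sup_centralizer (P : Subgroup G) Hs hPN hcopPH
      (Or.inl (isSolvable_of_isPGroup hPp))
  have hLH : ⁅Hs, (P : Subgroup G)⁆ ≤ Hs :=
    H1.commutator_le_of_le_normalizer (P : Subgroup G) Hs hPN
  have hCPH : CP ≤ Hs := inf_le_left
  -- the subgroups of the type `Hs`
  have hLn : (⁅Hs, (P : Subgroup G)⁆.subgroupOf Hs).Normal :=
    (Subgroup.normal_subgroupOf_iff_le_normalizer hLH).mpr (le_normalizer_commutator_left _ _)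
  have hLs : Group.IsSolvable ↥(⁅Hs, (P : Subgroup G)⁆.subgroupOf Hs) :=
    Group.isSolvable_of_isSolvable_injective
      (f := (Subgroup.subgroupOfEquivOfLe hLH).toMonoidHom)
      (Subgroup.subgroupOfEquivOfLe hLH).injective
  have hLC : ⁅Hs, (P : Subgroup G)⁆.subgroupOf Hs ⊔ CP.subgroupOf Hs = ⊤ := by
    rw [← Subgroup.subgroupOf_sup hLH hCPH, hdec, Subgroup.subgroupOf_self]
  obtain ⟨k, hk⟩ := hz
  have hR : IsPGroup q (Subgroup.zpowers (⟨z, hzH⟩ : Hs)) := by
    apply IsPGroup.of_card (n := k)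
    rw [Nat.card_zpowers, Subgroup.orderOf_mk, hk]
  have hX' : (Nat.card (X.subgroupOf Hs)).Coprime q := by
    rw [Nat.card_congr (Subgroup.subgroupOfEquivOfLe hXH).toEquiv]; exact hXcop
  have hY' : (Nat.card (Y.subgroupOf Hs)).Coprime q := by
    rw [Nat.card_congr (Subgroup.subgroupOfEquivOfLe hYH).toEquiv]; exact hYcop
  have hXR : X.subgroupOf Hs ≤
      Subgroup.normalizer ((Subgroup.zpowers (⟨z, hzH⟩ : Hs) : Subgroup Hs) : Set Hs) := by
    intro d hd
    have hdz : (d : G) * z = z * d :=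
      Subgroup.mem_centralizer_singleton_iff.mp ((hXCz (Subgroup.mem_subgroupOf.mp hd)).2)
    apply Subgroup.centralizer_le_normalizer
    rw [Subgroup.mem_centralizer_iff]
    intro r hr
    obtain ⟨n, rfl⟩ := Subgroup.mem_zpowers_iff.mp hr
    have hc : Commute (⟨z, hzH⟩ : Hs) d := Subtype.ext hdz.symm
    exact (hc.zpow_left n).eq
  have hRX : Subgroup.normalizer ((Subgroup.zpowers (⟨z, hzH⟩ : Hs) : Subgroup Hs) : Set Hs) ≤
      Subgroup.normalizer ((X.subgroupOf Hs : Subgroup Hs) : Set Hs) := by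
    intro n hn
    have hconj : ∀ m : Hs, m ∈ Subgroup.normalizer
        ((Subgroup.zpowers (⟨z, hzH⟩ : Hs) : Subgroup Hs) : Set Hs) →
        (m : G)⁻¹ * z * m ∈ Subgroup.zpowers z := by
      intro m hm
      have h1 := (Subgroup.mem_normalizer_iff.mp (Subgroup.inv_mem _ hm) ⟨z, hzH⟩).mp
        (Subgroup.mem_zpowers _)
      obtain ⟨j, hj⟩ := Subgroup.mem_zpowers_iff.mp h1
      refine Subgroup.mem_zpowers_iff.mpr ⟨j, ?_⟩
      have h2 := congrArg Subtype.val hj
      simpa using h2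
    have hnX : (n : G) ∈ Subgroup.normalizer (X : Set G) :=
      normalizer_zpowers_le_normalizer_core q Hs z (n : G) (hconj n hn)
        (by simpa using hconj n⁻¹ (Subgroup.inv_mem _ hn))
    rw [Subgroup.mem_normalizer_iff] at hnX ⊢
    intro h
    rw [Subgroup.mem_subgroupOf, Subgroup.mem_subgroupOf]
    exact hnX h
  have hCY : CP.subgroupOf Hs ≤ Subgroup.normalizer ((Y.subgroupOf Hs : Subgroup Hs) : Set Hs) := by
    intro n hn
    have hnY : (n : G) ∈ Subgroup.normalizer (Y : Set G) :=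
      le_normalizer_map_subtype (pPrimeCore q ↥CP) (Subgroup.mem_subgroupOf.mp hn)
    rw [Subgroup.mem_normalizer_iff] at hnY ⊢
    intro h
    rw [Subgroup.mem_subgroupOf, Subgroup.mem_subgroupOf]
    exact hnY h
  obtain ⟨hc1, hc2⟩ := core q (⁅Hs, (P : Subgroup G)⁆.subgroupOf Hs) (CP.subgroupOf Hs) hLs hLC
    (Subgroup.zpowers (⟨z, hzH⟩ : Hs)) (X.subgroupOf Hs) (Y.subgroupOf Hs) hR hX' hXR hRX hY' hCY
  -- `P` normalizes `X`
  have hPX : (P : Subgroup G) ≤ Subgroup.normalizer (X : Set G) := by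
    intro g hg
    have hgz : g * z = z * g := Subgroup.mem_centralizer_iff.mp hzP g hg
    apply normalizer_zpowers_le_normalizer_core q Hs z g
    · have : g⁻¹ * z * g = z := by rw [mul_assoc, ← hgz, inv_mul_cancel_left]
      rw [this]; exact Subgroup.mem_zpowers z
    · have : g * z * g⁻¹ = z := by rw [hgz, mul_inv_cancel_right]
      rw [this]; exact Subgroup.mem_zpowers z
  apply sup_le
  · intro x hx
    have h1 : (⟨x, hXH hx.1⟩ : Hs) ∈ pPrimeCore q ↥Hs :=
      hc2 ⟨Subgroup.mem_subgroupOf.mpr hx.1, Subgroup.mem_subgroupOf.mpr hx.2⟩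
    exact ⟨⟨x, hXH hx.1⟩, h1, rfl⟩
  · intro x hx
    have hxX : x ∈ X := H1.commutator_le_of_le_normalizer (P : Subgroup G) X hPX hx
    have hxL : x ∈ ⁅Hs, (P : Subgroup G)⁆ := Subgroup.commutator_mono hXH le_rfl hx
    have h1 : (⟨x, hXH hxX⟩ : Hs) ∈ pPrimeCore q ↥Hs :=
      hc1 ⟨Subgroup.mem_subgroupOf.mpr hxX, Subgroup.mem_subgroupOf.mpr hxL⟩
    exact ⟨⟨x, hXH hxX⟩, h1, rfl⟩

end Cfsg.Agent.H28.Flv
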