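import Mathlib
import Cfsg.Agent.H98.GLkDefs

/-!
# The configurations are finite in number, at most `cfgCount` (S2478-POLY2, helper28)
-/

set_option autoImplicit false

namespace Cfsg.Agent.H28.GLk

open Polynomial DirectSum
open Cfsg.Agent.H98.GLk

theorem cm_pos {q : ℕ} (hq : 1 < q) (m : ℕ) : 0 < cm q m := by
  unfold cm
  split_ifs with h
  · exact Nat.one_pos
  · have : q ^ (m - 1) < q ^ m := Nat.pow_lt_pow_right hq (by omega)
    omega

/-- **S2478-POLY2.** -/
theorem conf_finite_ncard_le {F : Type*} [Field F] [Fintype F]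
    (hc : ∀ m : ℕ, Nat.card {g : F[X] // g.Monic ∧ g.natDegree = m ∧ g.coeff 0 ≠ 0} =
      cm (Fintype.card F) m) (J n : ℕ) :
    (Conf F J n).Finite ∧ (Conf F J n).ncard ≤ cfgCount (Fintype.card F) J n := by
  classical
  have hq : 1 < Fintype.card F := Fintype.one_lt_card
  have hPfin : ∀ m : ℕ, Set.Finite {g : F[X] | g.Monic ∧ g.natDegree = m ∧ g.coeff 0 ≠ 0} := by
    intro m
    have h1 : Nat.card {g : F[X] // g.Monic ∧ g.natDegree = m ∧ g.coeff 0 ≠ 0} ≠ 0 := by
      rw [hc m]
      exact (cm_pos hq m).ne'
    exact Nat.finite_of_card_ne_zero h1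
  have hPcard : ∀ m : ℕ, (hPfin m).toFinset.card = cm (Fintype.card F) m := by
    intro m
    rw [← Set.ncard_eq_toFinset_card _ (hPfin m), ← Nat.card_coe_set_eq]
    exact hc m
  induction J generalizing n with
  | zero =>
    have hsub : (Conf F 0 n).Subsingleton := Set.subsingleton_of_subsingleton
    refine ⟨hsub.finite, ?_⟩
    rw [cfgCount_zero]
    split_ifs with h
    · exact Set.ncard_le_one_of_subsingleton _
    · have hempty : Conf F 0 n = ∅ := by
        ext g
        simp only [Set.mem_empty_iff_false, iff_false]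
        intro hg
        apply h
        have := hg.2
        simpa using this.symm
      rw [hempty, Set.ncard_empty]
  | succ J ih =>
    set T : Finset (Fin (J + 1) → F[X]) :=
      (Finset.range (n / (J + 1) + 1)).biUnion (fun m =>
        ((hPfin m).toFinset ×ˢ (ih (n - (J + 1) * m)).1.toFinset).image
          (fun x => (Fin.snoc x.2 x.1 : Fin (J + 1) → F[X]))) with hT
    have hsub : Conf F (J + 1) n ⊆ (T : Set (Fin (J + 1) → F[X])) := by
      intro g hg
      obtain ⟨hg1, hg2⟩ := hg
      rw [Fin.sum_univ_castSucc] at hg2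
      simp only [Fin.val_castSucc, Fin.val_last] at hg2
      have hm : (g (Fin.last J)).natDegree ≤ n / (J + 1) := by
        rw [Nat.le_div_iff_mul_le (by omega : 0 < J + 1)]
        rw [mul_comm]
        omega
      rw [Finset.mem_coe, hT, Finset.mem_biUnion]
      refine ⟨(g (Fin.last J)).natDegree, Finset.mem_range.2 (by omega), ?_⟩
      rw [Finset.mem_image]
      refine ⟨(g (Fin.last J), Fin.init g), ?_, Fin.snoc_init_self g⟩
      rw [Finset.mem_product]
      constructor
      · rw [Set.Finite.mem_toFinset]
        exact ⟨(hg1 _).1, rfl, (hg1 _).2⟩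
      · rw [Set.Finite.mem_toFinset]
        refine ⟨fun e => hg1 _, ?_⟩
        have : ∀ e : Fin J, (Fin.init g e) = g e.castSucc := fun e => rfl
        simp only [this]
        omega
    refine ⟨T.finite_toSet.subset hsub, ?_⟩
    calc (Conf F (J + 1) n).ncard ≤ (T : Set (Fin (J + 1) → F[X])).ncard :=
          Set.ncard_le_ncard hsub T.finite_toSet
      _ = T.card := Set.ncard_coe_finset T
      _ ≤ ∑ m ∈ Finset.range (n / (J + 1) + 1),
            (((hPfin m).toFinset ×ˢ (ih (n - (J + 1) * m)).1.toFinset).image
              (fun x => (Fin.snoc x.2 x.1 : Fin (J + 1) → F[X]))).card := Finset.card_biUnion_le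
      _ ≤ ∑ m ∈ Finset.range (n / (J + 1) + 1),
            cm (Fintype.card F) m * cfgCount (Fintype.card F) J (n - (J + 1) * m) := by
          apply Finset.sum_le_sum
          intro m _
          refine le_trans Finset.card_image_le ?_
          rw [Finset.card_product, hPcard m]
          apply Nat.mul_le_mul_left
          rw [← Set.ncard_eq_toFinset_card _ (ih (n - (J + 1) * m)).1]
          exact (ih (n - (J + 1) * m)).2
      _ = cfgCount (Fintype.card F) (J + 1) n := (cfgCount_succ _ _ _).symm

end Cfsg.Agent.H28.GLk
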