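import Cfsg.Agent.H28.PConstrained
import Cfsg.Agent.H39.Cores

set_option autoImplicit false
open Cfsg
open scoped IsMulCommutative

namespace Cfsg.Agent.H28

variable {G : Type*} [Group G]

/-- Cocycle averaging: let `C` be a normal abelian subgroup of `G`, `T` a subgroup whose index is
coprime to `|C|`, `α` an automorphism with `α g * g⁻¹ ∈ C` for all `g` and fixing `T` pointwise.
Then `α` is conjugation by an element of `C`. -/
theorem inner_of_cocycle [Finite G] (C T : Subgroup G) [hCn : C.Normal]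
    (hcomm : ∀ a ∈ C, ∀ b ∈ C, a * b = b * a)
    (hcop : (T.index).Coprime (Nat.card C))
    (α : MulAut G) (hδ : ∀ g : G, α g * g⁻¹ ∈ C) (hfixT : ∀ x ∈ T, α x = x) :
    ∃ z ∈ C, ∀ x : G, α x = z * x * z⁻¹ := by
  classical
  have : IsMulCommutative C := ⟨⟨fun a b => Subtype.ext (hcomm a a.2 b b.2)⟩⟩
  have : Fintype (G ⧸ T) := Fintype.ofFinite _
  let δ : G → C := fun g => ⟨α g * g⁻¹, hδ g⟩
  have hδT : ∀ g : G, ∀ t ∈ T, δ (g * t) = δ g := by
    intro g t ht
    apply Subtype.ext
    simp only [δ, map_mul, hfixT t ht]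
    group
  let δq : G ⧸ T → C := fun q => Quotient.liftOn' q δ (by
    intro a b hab
    rw [QuotientGroup.leftRel_apply] at hab
    have := hδT a (a⁻¹ * b) hab
    rw [mul_inv_cancel_left] at this
    exact this.symm)
  let w : C := ∏ q : G ⧸ T, δq q
  have hcoc : ∀ h g : G, δ (h * g) = δ h * MulAut.conjNormal h (δ g) := by
    intro h g
    apply Subtype.ext
    simp only [δ, map_mul, Subgroup.coe_mul, MulAut.conjNormal_apply]
    group
  have hkey : ∀ h : G, w = δ h ^ T.index * MulAut.conjNormal h w := by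
    intro h
    have h1 : ∏ q : G ⧸ T, δq (h • q) = w :=
      Equiv.prod_comp (MulAction.toPerm h) δq
    have h2 : ∀ q : G ⧸ T, δq (h • q) = δ h * MulAut.conjNormal h (δq q) := by
      intro q
      induction q using Quotient.inductionOn' with
      | h g => exact hcoc h g
    calc w = ∏ q : G ⧸ T, δq (h • q) := h1.symm
      _ = ∏ q : G ⧸ T, (δ h * MulAut.conjNormal h (δq q)) :=
          Finset.prod_congr rfl (fun q _ => h2 q)
      _ = δ h ^ T.index * MulAut.conjNormal h w := by
          rw [Finset.prod_mul_distrib, Finset.prod_const, Finset.card_univ, ← map_prod,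
            Subgroup.index, Nat.card_eq_fintype_card]
  obtain ⟨a, ha⟩ : ∃ a : ℤ, ∀ x : C, (x ^ T.index) ^ a = x := by
    refine ⟨Nat.gcdA T.index (Nat.card C), fun x => ?_⟩
    have hb := Nat.gcd_eq_gcd_ab T.index (Nat.card C)
    rw [hcop] at hb
    have hx : x ^ (Nat.card C) = 1 := pow_card_eq_one'
    calc (x ^ T.index) ^ (Nat.gcdA T.index (Nat.card C))
        = (x ^ T.index) ^ (Nat.gcdA T.index (Nat.card C))
            * (x ^ (Nat.card C)) ^ (Nat.gcdB T.index (Nat.card C)) := by
          rw [hx, one_zpow, mul_one]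
      _ = x ^ ((T.index : ℤ) * Nat.gcdA T.index (Nat.card C)
            + (Nat.card C : ℤ) * Nat.gcdB T.index (Nat.card C)) := by
          rw [zpow_add, zpow_mul, zpow_mul, zpow_natCast, zpow_natCast]
      _ = x := by rw [← hb]; simp
  refine ⟨(w ^ a : C), (w ^ a).2, fun h => ?_⟩
  have h3 : δ h ^ T.index = w * (MulAut.conjNormal h w)⁻¹ := by
    rw [eq_mul_inv_iff_mul_eq]; exact (hkey h).symm
  have h4 : δ h = w ^ a * (MulAut.conjNormal h (w ^ a))⁻¹ := by
    rw [← ha (δ h), h3, mul_zpow, inv_zpow, map_zpow]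
  have h5 := congrArg (Subtype.val) h4
  simp only [δ, Subgroup.coe_mul, Subgroup.coe_inv, MulAut.conjNormal_apply] at h5
  calc α h = (α h * h⁻¹) * h := by group
    _ = _ := by rw [h5]; group

/-- An automorphism of a finite group with `O_{p'}(G) = 1` that fixes a Sylow `p`-subgroup and
the layer elementwise is inner. -/
theorem inner_of_fix_sylow_layer [Finite G] {p : ℕ} [Fact p.Prime]
    (hcore : pPrimeCore p G = ⊥) (T : Sylow p G) (α : MulAut G)
    (hfixT : ∀ x ∈ (T : Subgroup G), α x = x)
    (hfixE : ∀ x ∈ layer G, α x = x) : ∃ g : G, ∀ x : G, α x = g * x * g⁻¹ := by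
  classical
  have hF := genFitting_normal (G := G)
  set C := Subgroup.centralizer (generalizedFittingSubgroup G : Set G) with hCdef
  have hCn : C.Normal := Subgroup.normal_centralizer
  have hCcomm : ∀ a ∈ C, ∀ b ∈ C, a * b = b * a :=
    fun a ha b hb => centralizer_genFitting_comm a b ha hb
  have hFT : fittingSubgroup G ≤ (T : Subgroup G) :=
    (fitting_le_pCore_of_pPrimeCore_eq_bot p hcore).trans (H39.pCore_le_sylow T)
  have hCT : C ≤ (T : Subgroup G) := (le_fitting_of_normal_of_comm hCn hCcomm).trans hFT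
  have hfixF : ∀ x ∈ generalizedFittingSubgroup G, α x = x := by
    have hle : generalizedFittingSubgroup G ≤
        MonoidHom.eqLocus (α : G →* G) (MonoidHom.id G) := by
      refine sup_le ?_ ?_
      · intro x hx; exact hfixE x hx
      · intro x hx; exact hfixT x (hFT hx)
    intro x hx; exact hle hx
  have hδ : ∀ g : G, α g * g⁻¹ ∈ C := by
    intro g
    rw [hCdef, Subgroup.mem_centralizer_iff]
    intro f hf
    have h1 : g⁻¹ * f * g ∈ generalizedFittingSubgroup G := by
      have := hF.conj_mem f hf g⁻¹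
      simpa using this
    have h2 := hfixF _ h1
    have h3 := hfixF f hf
    rw [map_mul, map_mul, map_inv, h3] at h2
    calc f * (α g * g⁻¹) = α g * ((α g)⁻¹ * f * α g) * g⁻¹ := by group
      _ = α g * (g⁻¹ * f * g) * g⁻¹ := by rw [h2]
      _ = α g * g⁻¹ * f := by group
  have hp : p.Prime := Fact.out
  have hcop : ((T : Subgroup G).index).Coprime (Nat.card C) := by
    have hdvd : Nat.card C ∣ Nat.card (T : Subgroup G) := Subgroup.card_dvd_of_le hCT
    obtain ⟨k, hk⟩ := IsPGroup.iff_card.1 T.isPGroup'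
    rw [hk] at hdvd
    obtain ⟨j, -, hj⟩ := (Nat.dvd_prime_pow hp).1 hdvd
    rw [hj]
    exact Nat.Coprime.pow_right j ((Nat.Prime.coprime_iff_not_dvd hp).2 T.not_dvd_index).symm
  obtain ⟨z, -, hz⟩ := inner_of_cocycle C (T : Subgroup G) hCcomm hcop α hδ hfixT
  exact ⟨z, hz⟩

end Cfsg.Agent.H28
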