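import Cfsg.Agent.H92.Extra
import Cfsg.Agent.H10.Dihedral
import Cfsg.Agent.H1.Coprime
import Cfsg.Agent.H1.PCore
import Cfsg.Agent.H28.Basic
import Cfsg.Agent.H28.FStar3
import Cfsg.Agent.H28.LocBal1

/-!
# Two conjugate large extraspecial subgroups `Q`, `P = Q^g` with `Z(P) ≤ Q`

Element-wise analysis of `X = ⟨Q, P⟩`, `R = (P ∩ C(z))(Q ∩ C(a))`, `E = Q ∩ P`, `V = ⟨z, a⟩`
on top of helper92's `ESPair`.
-/

set_option autoImplicit false

namespace Cfsg.Agent.H28.LES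

open Cfsg Cfsg.Agent.H92
open scoped commutatorElement

variable {G : Type*} [Group G]

/-- The configuration: `Q` with centre `⟨z⟩`, `P = g Q g⁻¹` with centre `⟨a⟩`, `a ∈ Q`, `z ∈ P`. -/
structure Cfg (Q P : Subgroup G) (z a g : G) : Prop where
  hQ : ESPair Q z
  hP : ESPair P a
  aQ : a ∈ Q
  zP : z ∈ P
  ne : z ≠ a
  hPg : P = Q.map (MulAut.conj g).toMonoidHom
  hag : a = g * z * g⁻¹

theorem push_assoc {x v w : G} (h : x * v = w * x) (y : G) : x * (v * y) = w * (x * y) := by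
  rw [← mul_assoc, h, mul_assoc]

theorem push_assoc2 {x v w₁ w₂ : G} (h : x * v = w₁ * (w₂ * x)) (y : G) :
    x * (v * y) = w₁ * (w₂ * (x * y)) := by
  rw [← mul_assoc, h, mul_assoc, mul_assoc]

theorem inv_push {x v : G} (h : x * v = v * x) : x⁻¹ * v = v * x⁻¹ :=
  (Commute.inv_left (show Commute x v from h)).eq

/-- Push rules for an element `t` with `t z = z t`, `t a t⁻¹ = z a`. -/
structure TRules (z a t : G) : Prop where
  tz : t * z = z * t
  ta : t * a = z * (a * t)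
  tiz : t⁻¹ * z = z * t⁻¹
  tia : t⁻¹ * a = z * (a * t⁻¹)

theorem TRules.all {z a t : G} (r : TRules z a t) :
    (t * z = z * t ∧ t * a = z * (a * t) ∧ t⁻¹ * z = z * t⁻¹ ∧ t⁻¹ * a = z * (a * t⁻¹)) ∧
    (∀ y, t * (z * y) = z * (t * y)) ∧ (∀ y, t * (a * y) = z * (a * (t * y))) ∧
    (∀ y, t⁻¹ * (z * y) = z * (t⁻¹ * y)) ∧ (∀ y, t⁻¹ * (a * y) = z * (a * (t⁻¹ * y))) :=
  ⟨⟨r.tz, r.ta, r.tiz, r.tia⟩, push_assoc r.tz, push_assoc2 r.ta, push_assoc r.tiz,
    push_assoc2 r.tia⟩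

/-- Push rules for an element `s` with `s a = a s`, `s z s⁻¹ = z a`. -/
structure SRules (z a s : G) : Prop where
  sz : s * z = z * (a * s)
  sa : s * a = a * s
  siz : s⁻¹ * z = z * (a * s⁻¹)
  sia : s⁻¹ * a = a * s⁻¹

theorem SRules.all {z a s : G} (r : SRules z a s) :
    (s * z = z * (a * s) ∧ s * a = a * s ∧ s⁻¹ * z = z * (a * s⁻¹) ∧ s⁻¹ * a = a * s⁻¹) ∧
    (∀ y, s * (z * y) = z * (a * (s * y))) ∧ (∀ y, s * (a * y) = a * (s * y)) ∧
    (∀ y, s⁻¹ * (z * y) = z * (a * (s⁻¹ * y))) ∧ (∀ y, s⁻¹ * (a * y) = a * (s⁻¹ * y)) :=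
  ⟨⟨r.sz, r.sa, r.siz, r.sia⟩, push_assoc2 r.sz, push_assoc r.sa, push_assoc2 r.siz,
    push_assoc r.sia⟩

/-- Push rules for an element `u` commuting with `z` and `a`. -/
structure CRules (z a u : G) : Prop where
  uz : u * z = z * u
  ua : u * a = a * u

theorem CRules.all {z a u : G} (r : CRules z a u) :
    (u * z = z * u ∧ u * a = a * u ∧ u⁻¹ * z = z * u⁻¹ ∧ u⁻¹ * a = a * u⁻¹) ∧
    (∀ y, u * (z * y) = z * (u * y)) ∧ (∀ y, u * (a * y) = a * (u * y)) ∧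
    (∀ y, u⁻¹ * (z * y) = z * (u⁻¹ * y)) ∧ (∀ y, u⁻¹ * (a * y) = a * (u⁻¹ * y)) :=
  ⟨⟨r.uz, r.ua, inv_push r.uz, inv_push r.ua⟩, push_assoc r.uz, push_assoc r.ua,
    push_assoc (inv_push r.uz), push_assoc (inv_push r.ua)⟩

namespace Cfg

variable {Q P : Subgroup G} {z a g : G}

theorem zz (h : Cfg Q P z a g) : z * z = 1 := h.hQ.z_sq

theorem aa (h : Cfg Q P z a g) : a * a = 1 := h.hP.z_sq

theorem az (h : Cfg Q P z a g) : a * z = z * a := h.hQ.z_central a h.aQ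

theorem zz' (h : Cfg Q P z a g) (y : G) : z * (z * y) = y := by
  rw [← mul_assoc, h.zz, one_mul]

theorem aa' (h : Cfg Q P z a g) (y : G) : a * (a * y) = y := by
  rw [← mul_assoc, h.aa, one_mul]

theorem az' (h : Cfg Q P z a g) (y : G) : a * (z * y) = z * (a * y) := by
  rw [← mul_assoc, h.az, mul_assoc]

theorem gz (h : Cfg Q P z a g) : g * z = a * g := by
  rw [h.hag]; group

theorem zinv (h : Cfg Q P z a g) : z⁻¹ = z := inv_eq_of_mul_eq_one_left h.zz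

theorem ainv (h : Cfg Q P z a g) : a⁻¹ = a := inv_eq_of_mul_eq_one_left h.aa

theorem z_ne_one (h : Cfg Q P z a g) : z ≠ 1 := h.hQ.z_ne

theorem a_ne_one (h : Cfg Q P z a g) : a ≠ 1 := h.hP.z_ne

theorem za_ne_one (h : Cfg Q P z a g) : z * a ≠ 1 := by
  intro h1
  apply h.ne
  calc z = z * (a * a) := by rw [h.aa, mul_one]
    _ = (z * a) * a := by rw [mul_assoc]
    _ = a := by rw [h1, one_mul]

theorem symm (h : Cfg Q P z a g) : Cfg P Q a z g⁻¹ := by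
  refine ⟨h.hP, h.hQ, h.zP, h.aQ, h.ne.symm, ?_, ?_⟩
  · ext x
    rw [mem_map_conj_iff, h.hPg, mem_map_conj_iff]
    have e : g⁻¹ * (g⁻¹⁻¹ * x * g⁻¹) * g = x := by group
    rw [e]
  · rw [h.hag]; group

theorem exists_t (h : Cfg Q P z a g) : ∃ t ∈ Q, t * a * t⁻¹ = z * a :=
  h.hQ.exists_conj h.aQ h.hP.z_ne (Ne.symm h.ne)

theorem exists_s (h : Cfg Q P z a g) : ∃ s ∈ P, s * z * s⁻¹ = a * z :=
  h.hP.exists_conj h.zP h.hQ.z_ne h.ne

theorem tRules (h : Cfg Q P z a g) {t : G} (htQ : t ∈ Q) (ht : t * a * t⁻¹ = z * a) :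
    TRules z a t := by
  have tz : t * z = z * t := h.hQ.z_central t htQ
  have tiz : t⁻¹ * z = z * t⁻¹ := by
    have := congrArg (fun x => t⁻¹ * x * t⁻¹) tz
    simpa [mul_assoc] using this.symm
  have ta : t * a = z * (a * t) := by
    have := congrArg (fun x => x * t) ht
    simpa [mul_assoc] using this
  refine ⟨tz, ta, tiz, ?_⟩
  calc t⁻¹ * a = t⁻¹ * (z * (t * a * t⁻¹)) := by rw [ht, h.zz']
    _ = z * (a * t⁻¹) := by
      rw [← mul_assoc t⁻¹ z, tiz]; simp [mul_assoc]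

theorem sRules (h : Cfg Q P z a g) {s : G} (hsP : s ∈ P) (hs : s * z * s⁻¹ = a * z) :
    SRules z a s := by
  have r := h.symm.tRules hsP hs
  refine ⟨?_, r.tz, ?_, r.tiz⟩
  · rw [r.ta, h.az']
  · rw [r.tia, h.az']

/-- The subgroup `R`. -/
def RR (Q P : Subgroup G) (z a : G) : Subgroup G :=
  (P ⊓ Subgroup.centralizer ({z} : Set G)) ⊔ (Q ⊓ Subgroup.centralizer ({a} : Set G))

theorem RR_symm (Q P : Subgroup G) (z a : G) : RR P Q a z = RR Q P z a := sup_comm _ _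

theorem mem_Q0 {x : G} : x ∈ Q ⊓ Subgroup.centralizer ({a} : Set G) ↔ x ∈ Q ∧ x * a = a * x := by
  rw [Subgroup.mem_inf, Subgroup.mem_centralizer_singleton_iff]

theorem Q0_le_RR : Q ⊓ Subgroup.centralizer ({a} : Set G) ≤ RR Q P z a := le_sup_right

theorem P0_le_RR : P ⊓ Subgroup.centralizer ({z} : Set G) ≤ RR Q P z a := le_sup_left

/-- Elements of `R` centralize `z` and `a`. -/
theorem RR_comm (h : Cfg Q P z a g) {x : G} (hx : x ∈ RR Q P z a) : x * z = z * x ∧ x * a = a * x := by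
  have hle : RR Q P z a ≤ Subgroup.centralizer ({z} : Set G) ⊓ Subgroup.centralizer ({a} : Set G) := by
    apply sup_le
    · intro p hp
      rw [mem_Q0] at hp
      exact ⟨Subgroup.mem_centralizer_singleton_iff.mpr hp.2,
        Subgroup.mem_centralizer_singleton_iff.mpr (h.hP.z_central p hp.1)⟩
    · intro q hq
      rw [mem_Q0] at hq
      exact ⟨Subgroup.mem_centralizer_singleton_iff.mpr (h.hQ.z_central q hq.1),
        Subgroup.mem_centralizer_singleton_iff.mpr hq.2⟩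
  have := hle hx
  exact ⟨Subgroup.mem_centralizer_singleton_iff.mp this.1,
    Subgroup.mem_centralizer_singleton_iff.mp this.2⟩

theorem z_mem_RR (h : Cfg Q P z a g) : z ∈ RR Q P z a :=
  P0_le_RR (mem_Q0.mpr ⟨h.zP, rfl⟩)

theorem a_mem_RR (h : Cfg Q P z a g) : a ∈ RR Q P z a :=
  Q0_le_RR (mem_Q0.mpr ⟨h.aQ, rfl⟩)

/-- The basic rewriting rules for `z`, `a`. -/
theorem za (h : Cfg Q P z a g) :
    (z * z = 1 ∧ a * a = 1 ∧ a * z = z * a ∧ z⁻¹ = z ∧ a⁻¹ = a) ∧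
    (∀ y, z * (z * y) = y) ∧ (∀ y, a * (a * y) = y) ∧ (∀ y, a * (z * y) = z * (a * y)) :=
  ⟨⟨h.zz, h.aa, h.az, h.zinv, h.ainv⟩, h.zz', h.aa', h.az'⟩

theorem cRules_Q0 (h : Cfg Q P z a g) {u : G}
    (hu : u ∈ Q ⊓ Subgroup.centralizer ({a} : Set G)) : CRules z a u :=
  ⟨h.hQ.z_central u (mem_Q0.mp hu).1, (mem_Q0.mp hu).2⟩

theorem cRules_P0 (h : Cfg Q P z a g) {u : G}
    (hu : u ∈ P ⊓ Subgroup.centralizer ({z} : Set G)) : CRules z a u :=
  ⟨(mem_Q0.mp hu).2, h.hP.z_central u (mem_Q0.mp hu).1⟩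

theorem cRules_RR (h : Cfg Q P z a g) {u : G} (hu : u ∈ RR Q P z a) : CRules z a u :=
  ⟨(h.RR_comm hu).1, (h.RR_comm hu).2⟩

/-- `s P₀ s⁻¹ ≤ P₀`. -/
theorem conj_s_P0 (h : Cfg Q P z a g) {s : G} (hsP : s ∈ P) (hs : s * z * s⁻¹ = a * z)
    {u : G} (hu : u ∈ P ⊓ Subgroup.centralizer ({z} : Set G)) :
    s * u * s⁻¹ ∈ P ⊓ Subgroup.centralizer ({z} : Set G) := by
  have r := h.sRules hsP hs
  have ru := h.cRules_P0 hu
  rw [mem_Q0]
  refine ⟨P.mul_mem (P.mul_mem hsP (mem_Q0.mp hu).1) (P.inv_mem hsP), ?_⟩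
  simp only [mul_assoc, r.all, ru.all, h.za]

/-- `s Q₀ s⁻¹ ≤ R`. -/
theorem conj_s_mem (h : Cfg Q P z a g) {s : G} (hsP : s ∈ P) (hs : s * z * s⁻¹ = a * z)
    {u : G} (hu : u ∈ Q ⊓ Subgroup.centralizer ({a} : Set G)) : s * u * s⁻¹ ∈ RR Q P z a := by
  have r := h.sRules hsP hs
  have ru := h.cRules_Q0 hu
  have hw : u⁻¹ * s * u * s⁻¹ ∈ P ⊓ Subgroup.centralizer ({z} : Set G) := by
    rw [mem_Q0]
    constructor
    · have h1 := h.hP.norm u⁻¹ ru.all.1.2.2.2 s hsP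
      rw [inv_inv] at h1
      exact P.mul_mem h1 (P.inv_mem hsP)
    · simp only [mul_assoc, r.all, ru.all, h.za]
  have e : s * u * s⁻¹ = u * (u⁻¹ * s * u * s⁻¹) := by group
  rw [e]
  exact Subgroup.mul_mem _ (Q0_le_RR hu) (P0_le_RR hw)

/-- `s` normalizes `R`. -/
theorem s_mem_normalizer [Finite G] (h : Cfg Q P z a g) {s : G} (hsP : s ∈ P)
    (hs : s * z * s⁻¹ = a * z) : s ∈ Subgroup.normalizer (RR Q P z a : Set G) := by
  apply Subgroup.mem_normalizer_fintype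
  have hle : RR Q P z a ≤ (RR Q P z a).comap (MulAut.conj s).toMonoidHom := by
    apply sup_le
    · intro u hu
      rw [Subgroup.mem_comap]
      exact P0_le_RR (h.conj_s_P0 hsP hs hu)
    · intro u hu
      rw [Subgroup.mem_comap]
      exact h.conj_s_mem hsP hs hu
  intro n hn
  exact hle hn

theorem P_le_normalizer [Finite G] (h : Cfg Q P z a g) :
    P ≤ Subgroup.normalizer (RR Q P z a : Set G) := by
  obtain ⟨s, hsP, hs⟩ := h.exists_s
  have hsN := h.s_mem_normalizer hsP hs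
  intro p hp
  rcases h.hP.coset hs hp h.zP with h1 | h1
  · exact Subgroup.le_normalizer (P0_le_RR (mem_Q0.mpr ⟨hp, h1⟩))
  · have h2 : s⁻¹ * p ∈ Subgroup.normalizer (RR Q P z a : Set G) :=
      Subgroup.le_normalizer (P0_le_RR (mem_Q0.mpr ⟨P.mul_mem (P.inv_mem hsP) hp, h1⟩))
    have e : p = s * (s⁻¹ * p) := by group
    rw [e]
    exact Subgroup.mul_mem _ hsN h2

theorem Q_le_normalizer [Finite G] (h : Cfg Q P z a g) :
    Q ≤ Subgroup.normalizer (RR Q P z a : Set G) := by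
  have := h.symm.P_le_normalizer
  rwa [RR_symm] at this

theorem X_le_normalizer [Finite G] (h : Cfg Q P z a g) :
    Q ⊔ P ≤ Subgroup.normalizer (RR Q P z a : Set G) :=
  sup_le h.Q_le_normalizer h.P_le_normalizer

theorem RR_le_X : RR Q P z a ≤ Q ⊔ P :=
  sup_le (inf_le_left.trans le_sup_right) (inf_le_left.trans le_sup_left)

end Cfg

theorem mem_zpowers_invol {z : G} (hz : z * z = 1) (x : G) :
    x ∈ Subgroup.zpowers z ↔ x = 1 ∨ x = z := by
  constructor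
  · intro hx
    obtain ⟨k, rfl⟩ := Subgroup.mem_zpowers_iff.mp hx
    have h2 : z ^ (2 : ℤ) = 1 := by
      rw [zpow_ofNat, pow_two, hz]
    rw [zpow_eq_zpow_emod k h2]
    rcases Int.emod_two_eq_zero_or_one k with h0 | h1
    · left; rw [h0, zpow_zero]
    · right; rw [h1, zpow_one]
  · rintro (rfl | rfl)
    · exact one_mem _
    · exact Subgroup.mem_zpowers _

namespace Cfg

variable {Q P : Subgroup G} {z a g : G}

/-- The four-group `V = ⟨z, a⟩`. -/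
theorem mem_V (h : Cfg Q P z a g) (v : G) :
    v ∈ Subgroup.closure ({z, a} : Set G) ↔ v = 1 ∨ v = z ∨ v = a ∨ v = z * a := by
  have e : Subgroup.closure ({z, a} : Set G) = Subgroup.zpowers z ⊔ Subgroup.zpowers a := by
    rw [Subgroup.zpowers_eq_closure, Subgroup.zpowers_eq_closure, ← Subgroup.closure_union]
    rfl
  rw [e]
  exact four_group_mem _ _ z a (mem_zpowers_invol h.zz) (mem_zpowers_invol h.aa) h.zz h.aa
    h.az.symm v

theorem z_mem_V : z ∈ Subgroup.closure ({z, a} : Set G) :=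
  Subgroup.subset_closure (Set.mem_insert _ _)

theorem a_mem_V : a ∈ Subgroup.closure ({z, a} : Set G) :=
  Subgroup.subset_closure (Set.mem_insert_of_mem _ rfl)

theorem mem_centralizer_V (h : Cfg Q P z a g) {x : G} :
    x ∈ Subgroup.centralizer (Subgroup.closure ({z, a} : Set G) : Set G) ↔
      x * z = z * x ∧ x * a = a * x := by
  rw [Subgroup.mem_centralizer_iff]
  constructor
  · intro hx
    exact ⟨(hx z z_mem_V).symm, (hx a a_mem_V).symm⟩
  · rintro ⟨hz, ha⟩ v hv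
    rcases (h.mem_V v).mp hv with rfl | rfl | rfl | rfl
    · simp
    · exact hz.symm
    · exact ha.symm
    · rw [mul_assoc, ← ha, ← mul_assoc, ← hz, mul_assoc]

theorem RR_le_centralizer_V (h : Cfg Q P z a g) :
    RR Q P z a ≤ Subgroup.centralizer (Subgroup.closure ({z, a} : Set G) : Set G) :=
  fun _ hx => h.mem_centralizer_V.mpr (h.RR_comm hx)

theorem mem_normalizer_V [Finite G] (h : Cfg Q P z a g) {x : G}
    (hz : x * z * x⁻¹ ∈ Subgroup.closure ({z, a} : Set G))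
    (ha : x * a * x⁻¹ ∈ Subgroup.closure ({z, a} : Set G)) :
    x ∈ Subgroup.normalizer (Subgroup.closure ({z, a} : Set G) : Set G) := by
  apply Subgroup.mem_normalizer_fintype
  intro v hv
  rcases (h.mem_V v).mp hv with rfl | rfl | rfl | rfl
  · simp
  · exact hz
  · exact ha
  · have e : x * (z * a) * x⁻¹ = (x * z * x⁻¹) * (x * a * x⁻¹) := by group
    rw [e]
    exact Subgroup.mul_mem _ hz ha

theorem Q_le_normalizer_V [Finite G] (h : Cfg Q P z a g) :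
    Q ≤ Subgroup.normalizer (Subgroup.closure ({z, a} : Set G) : Set G) := by
  intro q hq
  apply h.mem_normalizer_V
  · have e : q * z * q⁻¹ = z := by rw [h.hQ.z_central q hq]; group
    rw [e]; exact z_mem_V
  · rcases h.hQ.conj_eq hq h.aQ with h1 | h1
    · rw [h1]; exact a_mem_V
    · rw [h1]; exact (h.mem_V _).mpr (Or.inr (Or.inr (Or.inr rfl)))

theorem P_le_normalizer_V [Finite G] (h : Cfg Q P z a g) :
    P ≤ Subgroup.normalizer (Subgroup.closure ({z, a} : Set G) : Set G) := by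
  intro p hp
  apply h.mem_normalizer_V
  · rcases h.hP.conj_eq hp h.zP with h1 | h1
    · rw [h1]; exact z_mem_V
    · rw [h1, h.az]; exact (h.mem_V _).mpr (Or.inr (Or.inr (Or.inr rfl)))
  · have e : p * a * p⁻¹ = a := by rw [h.hP.z_central p hp]; group
    rw [e]; exact a_mem_V

theorem X_le_normalizer_V [Finite G] (h : Cfg Q P z a g) :
    Q ⊔ P ≤ Subgroup.normalizer (Subgroup.closure ({z, a} : Set G) : Set G) :=
  sup_le h.Q_le_normalizer_V h.P_le_normalizer_V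

end Cfg

/-- Abstract: a quotient generated by two involutions with the `S₃` relations. -/
theorem quot_S3 (X R : Subgroup G) (hN : X ≤ Subgroup.normalizer (R : Set G)) (t s : G)
    (htX : t ∈ X) (hsX : s ∈ X) (ht2 : t * t ∈ R) (hs2 : s * s ∈ R)
    (h3 : s * t * s⁻¹ * t * s⁻¹ * t⁻¹ ∈ R) (hne : t * s * t⁻¹ * s⁻¹ ∉ R)
    (Q P : Subgroup G) (hX : X = Q ⊔ P) (hQ : ∀ q ∈ Q, q ∈ R ∨ t⁻¹ * q ∈ R)
    (hP : ∀ p ∈ P, p ∈ R ∨ s⁻¹ * p ∈ R) :
    ∃ _ : (R.subgroupOf X).Normal, Nonempty (↥X ⧸ R.subgroupOf X ≃* Equiv.Perm (Fin 3)) := by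
  have hnorm : (R.subgroupOf X).Normal := Subgroup.normal_subgroupOf_of_le_normalizer hN
  refine ⟨hnorm, ?_⟩
  have hker : ∀ x : ↥X, QuotientGroup.mk' (R.subgroupOf X) x = 1 ↔ (x : G) ∈ R := by
    intro x
    rw [QuotientGroup.mk'_apply, QuotientGroup.eq_one_iff, Subgroup.mem_subgroupOf]
  generalize hπ : QuotientGroup.mk' (R.subgroupOf X) = π at hker
  have hsurj : Function.Surjective π := hπ ▸ QuotientGroup.mk'_surjective (R.subgroupOf X)
  generalize hd : π ⟨t, htX⟩ = d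
  generalize he : π ⟨s, hsX⟩ = e
  have hdd : d * d = 1 := by
    rw [← hd, ← map_mul, hker]; exact ht2
  have hee : e * e = 1 := by
    rw [← he, ← map_mul, hker]; exact hs2
  have hdi : d⁻¹ = d := inv_eq_of_mul_eq_one_left hdd
  have hei : e⁻¹ = e := inv_eq_of_mul_eq_one_left hee
  have h3' : (e * d) ^ 3 = 1 := by
    have h4 : e * d * e⁻¹ * d * e⁻¹ * d⁻¹ = 1 := by
      rw [← hd, ← he, ← map_inv, ← map_inv, ← map_mul, ← map_mul, ← map_mul, ← map_mul,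
        ← map_mul, hker]
      exact h3
    rw [hdi, hei] at h4
    rw [pow_succ, pow_succ, pow_one]
    simpa [mul_assoc] using h4
  have hne' : e * d ≠ d * e := by
    intro hc
    apply hne
    have h4 : d * e * d⁻¹ * e⁻¹ = 1 := by
      rw [← hc]; group
    rw [← hd, ← he, ← map_inv, ← map_inv, ← map_mul, ← map_mul, ← map_mul, hker] at h4
    exact h4
  obtain ⟨φ⟩ := H10.nonempty_dihedral3_equiv_closure hee hdd h3' hne'
  obtain ⟨ψ⟩ := H10.nonempty_dihedral3_equiv_perm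
  have htop : Subgroup.closure ({e, d} : Set (↥X ⧸ R.subgroupOf X)) = ⊤ := by
    have hdD : d ∈ Subgroup.closure ({e, d} : Set (↥X ⧸ R.subgroupOf X)) :=
      Subgroup.subset_closure (Set.mem_insert_of_mem _ rfl)
    have heD : e ∈ Subgroup.closure ({e, d} : Set (↥X ⧸ R.subgroupOf X)) :=
      Subgroup.subset_closure (Set.mem_insert _ _)
    generalize Subgroup.closure ({e, d} : Set (↥X ⧸ R.subgroupOf X)) = D at hdD heD ⊢
    have hle : X ≤ (D.comap π).map X.subtype := by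
      have hQX : Q ≤ X := hX ▸ (le_sup_left : Q ≤ Q ⊔ P)
      have hPX : P ≤ X := hX ▸ (le_sup_right : P ≤ Q ⊔ P)
      refine le_of_eq_of_le hX (sup_le ?_ ?_)
      · intro q hq
        have hqX : q ∈ X := hQX hq
        refine ⟨⟨q, hqX⟩, ?_, rfl⟩
        rw [SetLike.mem_coe, Subgroup.mem_comap]
        rcases hQ q hq with h1 | h1
        · have h2 : π ⟨q, hqX⟩ = 1 := (hker _).mpr h1
          rw [h2]; exact one_mem _
        · have h2 : π (⟨t, htX⟩⁻¹ * ⟨q, hqX⟩) = 1 := (hker _).mpr h1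
          rw [map_mul, map_inv, hd] at h2
          rw [← inv_mul_eq_one.mp h2]; exact hdD
      · intro q hq
        have hqX : q ∈ X := hPX hq
        refine ⟨⟨q, hqX⟩, ?_, rfl⟩
        rw [SetLike.mem_coe, Subgroup.mem_comap]
        rcases hP q hq with h1 | h1
        · have h2 : π ⟨q, hqX⟩ = 1 := (hker _).mpr h1
          rw [h2]; exact one_mem _
        · have h2 : π (⟨s, hsX⟩⁻¹ * ⟨q, hqX⟩) = 1 := (hker _).mpr h1
          rw [map_mul, map_inv, he] at h2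
          rw [← inv_mul_eq_one.mp h2]; exact heD
    rw [eq_top_iff]
    intro k _
    obtain ⟨x, rfl⟩ := hsurj k
    obtain ⟨y, hy, hyx⟩ := hle x.2
    have hyx' : y = x := Subtype.ext hyx
    rw [← hyx']; exact hy
  exact ⟨((Subgroup.topEquiv.symm.trans (MulEquiv.subgroupCongr htop.symm)).trans φ.symm).trans ψ⟩

theorem perm3_sq_or_cube : ∀ σ : Equiv.Perm (Fin 3), σ ^ 2 = 1 ∨ σ ^ 3 = 1 := by decide

set_option maxRecDepth 100000 in
theorem perm3_invol : ∀ σ : Equiv.Perm (Fin 3), σ ^ 2 = 1 → σ ≠ 1 →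
    ∃ ρ : Equiv.Perm (Fin 3), (σ * (ρ * σ * ρ⁻¹)) ^ 3 = 1 ∧ σ * (ρ * σ * ρ⁻¹) ≠ 1 := by decide

theorem normal_two_subgroup_perm3 (N : Subgroup (Equiv.Perm (Fin 3))) [hNn : N.Normal]
    (hN : IsPGroup 2 N) : N = ⊥ := by
  have key : ∀ σ ∈ N, σ ^ 3 = 1 → σ = 1 := by
    intro σ hσ h3
    obtain ⟨k, hk⟩ := hN ⟨σ, hσ⟩
    have hk' : σ ^ 2 ^ k = 1 := by simpa using congrArg Subtype.val hk
    have h1 : orderOf σ ∣ 3 := orderOf_dvd_of_pow_eq_one h3
    have h2 : orderOf σ ∣ 2 ^ k := orderOf_dvd_of_pow_eq_one hk'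
    have h4 : orderOf σ ∣ Nat.gcd 3 (2 ^ k) := Nat.dvd_gcd h1 h2
    have h5 : Nat.gcd 3 (2 ^ k) = 1 := Nat.Coprime.pow_right k (by norm_num)
    rw [h5] at h4
    exact orderOf_eq_one_iff.mp (Nat.dvd_one.mp h4)
  rw [eq_bot_iff]
  intro σ hσ
  rw [Subgroup.mem_bot]
  by_contra hne
  rcases perm3_sq_or_cube σ with h2 | h3
  · obtain ⟨ρ, hρ3, hρ1⟩ := perm3_invol σ h2 hne
    exact hρ1 (key _ (N.mul_mem hσ (hNn.conj_mem σ hσ ρ)) hρ3)
  · exact hne (key σ hσ h3)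

theorem le_of_quot_perm3 {X : Type*} [Group X] (N R₀ : Subgroup X) [R₀.Normal] [hNn : N.Normal]
    (hN : IsPGroup 2 N) (e : X ⧸ R₀ ≃* Equiv.Perm (Fin 3)) : N ≤ R₀ := by
  let ψ : X →* Equiv.Perm (Fin 3) := e.toMonoidHom.comp (QuotientGroup.mk' R₀)
  have hsurj : Function.Surjective ψ := e.surjective.comp (QuotientGroup.mk'_surjective R₀)
  have hnorm : (N.map ψ).Normal := Subgroup.Normal.map hNn ψ hsurj
  have hp : IsPGroup 2 (N.map ψ) := hN.map ψ
  have hbot := normal_two_subgroup_perm3 (N.map ψ) hp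
  intro x hx
  have h1 : ψ x ∈ N.map ψ := Subgroup.mem_map_of_mem ψ hx
  rw [hbot, Subgroup.mem_bot] at h1
  have h2 : (QuotientGroup.mk' R₀) x = 1 := by
    apply e.injective; rw [map_one]; exact h1
  exact (QuotientGroup.eq_one_iff x).mp h2

namespace Cfg

variable {Q P : Subgroup G} {z a g : G}

theorem t2_mem (h : Cfg Q P z a g) {t : G} (htQ : t ∈ Q) : t * t ∈ RR Q P z a := by
  rcases h.hQ.sq t htQ with h1 | h1
  · rw [h1]; exact one_mem _
  · rw [h1]; exact h.z_mem_RR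

theorem s2_mem (h : Cfg Q P z a g) {s : G} (hsP : s ∈ P) : s * s ∈ RR Q P z a := by
  rcases h.hP.sq s hsP with h1 | h1
  · rw [h1]; exact one_mem _
  · rw [h1]; exact h.a_mem_RR

theorem word3_mem (h : Cfg Q P z a g) {t s : G} (htQ : t ∈ Q) (ht : t * a * t⁻¹ = z * a)
    (hsP : s ∈ P) (hs : s * z * s⁻¹ = a * z) :
    s * t * s⁻¹ * t * s⁻¹ * t⁻¹ ∈ RR Q P z a := by
  have rt := h.tRules htQ ht
  have rs := h.sRules hsP hs
  have hq0 : g⁻¹ * s⁻¹ * g ∈ Q := by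
    have := P.inv_mem hsP
    rwa [h.hPg, mem_map_conj_iff] at this
  have hc : (s⁻¹ * t * g) * z = z * (s⁻¹ * t * g) := by
    simp only [mul_assoc, h.gz, rt.all, rs.all, h.za]
  have h1 := h.hQ.norm (s⁻¹ * t * g) hc (g⁻¹ * s⁻¹ * g) hq0
  have e1 : (s⁻¹ * t * g) * (g⁻¹ * s⁻¹ * g) * (s⁻¹ * t * g)⁻¹ = s⁻¹ * t * s⁻¹ * t⁻¹ * s := by
    group
  rw [e1] at h1
  have hq' : t * s⁻¹ * t * s⁻¹ * t⁻¹ * s ∈ Q ⊓ Subgroup.centralizer ({a} : Set G) := by
    rw [mem_Q0]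
    constructor
    · have e2 : t * s⁻¹ * t * s⁻¹ * t⁻¹ * s = t * (s⁻¹ * t * s⁻¹ * t⁻¹ * s) := by group
      rw [e2]
      exact Q.mul_mem htQ h1
    · simp only [mul_assoc, rt.all, rs.all, h.za]
  have h2 := h.conj_s_mem hsP hs hq'
  have e3 : s * (t * s⁻¹ * t * s⁻¹ * t⁻¹ * s) * s⁻¹ = s * t * s⁻¹ * t * s⁻¹ * t⁻¹ := by group
  rwa [e3] at h2

theorem comm_not_mem (h : Cfg Q P z a g) {t s : G} (htQ : t ∈ Q) (ht : t * a * t⁻¹ = z * a)
    (hsP : s ∈ P) (hs : s * z * s⁻¹ = a * z) :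
    t * s * t⁻¹ * s⁻¹ ∉ RR Q P z a := by
  have rt := h.tRules htQ ht
  have rs := h.sRules hsP hs
  intro hc
  have h1 := (h.RR_comm hc).1
  have e : (t * s * t⁻¹ * s⁻¹) * z = z * (a * (t * s * t⁻¹ * s⁻¹)) := by
    simp only [mul_assoc, rt.all, rs.all, h.za]
  have h2 : z * (a * (t * s * t⁻¹ * s⁻¹)) = z * (t * s * t⁻¹ * s⁻¹) := e.symm.trans h1
  have h3 := mul_left_cancel h2
  exact h.a_ne_one (mul_right_cancel (h3.trans (one_mul _).symm))

theorem cosetQ (h : Cfg Q P z a g) {t : G} (htQ : t ∈ Q) (ht : t * a * t⁻¹ = z * a) :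
    ∀ q ∈ Q, q ∈ RR Q P z a ∨ t⁻¹ * q ∈ RR Q P z a := by
  intro q hq
  rcases h.hQ.coset ht hq h.aQ with h1 | h1
  · exact Or.inl (Q0_le_RR (mem_Q0.mpr ⟨hq, h1⟩))
  · exact Or.inr (Q0_le_RR (mem_Q0.mpr ⟨Q.mul_mem (Q.inv_mem htQ) hq, h1⟩))

theorem cosetP (h : Cfg Q P z a g) {s : G} (hsP : s ∈ P) (hs : s * z * s⁻¹ = a * z) :
    ∀ p ∈ P, p ∈ RR Q P z a ∨ s⁻¹ * p ∈ RR Q P z a := by
  intro p hp
  rcases h.hP.coset hs hp h.zP with h1 | h1
  · exact Or.inl (P0_le_RR (mem_Q0.mpr ⟨hp, h1⟩))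
  · exact Or.inr (P0_le_RR (mem_Q0.mpr ⟨P.mul_mem (P.inv_mem hsP) hp, h1⟩))

/-- `X / R ≅ S₃`. -/
theorem quot [Finite G] (h : Cfg Q P z a g) :
    ∃ _ : ((RR Q P z a).subgroupOf (Q ⊔ P)).Normal,
      Nonempty (↥(Q ⊔ P) ⧸ (RR Q P z a).subgroupOf (Q ⊔ P) ≃* Equiv.Perm (Fin 3)) := by
  obtain ⟨t, htQ, ht⟩ := h.exists_t
  obtain ⟨s, hsP, hs⟩ := h.exists_s
  exact quot_S3 (Q ⊔ P) (RR Q P z a) h.X_le_normalizer t s
    ((le_sup_left : Q ≤ Q ⊔ P) htQ) ((le_sup_right : P ≤ Q ⊔ P) hsP) (h.t2_mem htQ) (h.s2_mem hsP)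
    (h.word3_mem htQ ht hsP hs) (h.comm_not_mem htQ ht hsP hs) Q P rfl (h.cosetQ htQ ht)
    (h.cosetP hsP hs)

end Cfg

theorem normalizer_le_normalizer_centralizer (S : Set G) :
    Subgroup.normalizer S ≤ Subgroup.normalizer (Subgroup.centralizer S : Set G) :=
  (Subgroup.normal_subgroupOf_iff_le_normalizer (Subgroup.centralizer_le_normalizer S)).mp
    inferInstance

theorem isPGroup_of_le_ESPair {Q : Subgroup G} {z : G} (hQ : ESPair Q z) (A : Subgroup G)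
    (hA : A ≤ Q) : IsPGroup 2 ↥A := by
  intro x
  refine ⟨2, ?_⟩
  apply Subtype.ext
  have h1 := hQ.sq x (hA x.2)
  rw [Subgroup.coe_pow, Subgroup.coe_one]
  have e : (x : G) ^ 2 ^ 2 = (x * x) * (x * x) := by
    show (x : G) ^ (2 * 2) = _
    rw [pow_mul, pow_two, pow_two]
  rw [e]
  rcases h1 with h1 | h1
  · rw [h1, one_mul]
  · rw [h1, hQ.z_sq]

namespace Cfg

variable {Q P : Subgroup G} {z a g : G}

/-- `N(V) = X C(V)`. -/
theorem normalizer_V_eq [Finite G] (h : Cfg Q P z a g) :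
    Subgroup.normalizer (Subgroup.closure ({z, a} : Set G) : Set G) =
      (Q ⊔ P) ⊔ Subgroup.centralizer (Subgroup.closure ({z, a} : Set G) : Set G) := by
  apply le_antisymm
  · intro y hy
    obtain ⟨t, htQ, ht⟩ := h.exists_t
    obtain ⟨s, hsP, hs⟩ := h.exists_s
    have rt := h.tRules htQ ht
    have rs := h.sRules hsP hs
    have htX : t ∈ Q ⊔ P := (le_sup_left : Q ≤ Q ⊔ P) htQ
    have hsX : s ∈ Q ⊔ P := (le_sup_right : P ≤ Q ⊔ P) hsP
    have hyz : y * z * y⁻¹ ∈ Subgroup.closure ({z, a} : Set G) :=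
      (Subgroup.mem_normalizer_iff.mp hy z).mp z_mem_V
    have step1 : ∃ x₁ ∈ Q ⊔ P, (x₁ * y) * z = z * (x₁ * y) := by
      rcases (h.mem_V _).mp hyz with h1 | h1 | h1 | h1
      · exfalso; apply h.z_ne_one
        have h2 : y * z = y := by
          have := congrArg (· * y) h1; simpa [mul_assoc] using this
        exact mul_left_cancel (h2.trans (mul_one y).symm)
      · refine ⟨1, one_mem _, ?_⟩
        have := congrArg (· * y) h1
        simpa [mul_assoc] using this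
      · refine ⟨s * t, mul_mem hsX htX, ?_⟩
        have h2 : y * z = a * y := by
          have := congrArg (· * y) h1; simpa [mul_assoc] using this
        simp only [mul_assoc, h2, rt.all, rs.all, h.za]
      · refine ⟨s, hsX, ?_⟩
        have h2 : y * z = z * (a * y) := by
          have := congrArg (· * y) h1; simpa [mul_assoc] using this
        simp only [mul_assoc, h2, rs.all, h.za]
    obtain ⟨x₁, hx₁, hx₁z⟩ := step1
    obtain ⟨y₁, hy₁⟩ : ∃ y₁, y₁ = x₁ * y := ⟨_, rfl⟩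
    rw [← hy₁] at hx₁z
    have hy₁N : y₁ ∈ Subgroup.normalizer (Subgroup.closure ({z, a} : Set G) : Set G) := by
      rw [hy₁]; exact mul_mem (h.X_le_normalizer_V hx₁) hy
    have hy₁a : y₁ * a * y₁⁻¹ ∈ Subgroup.closure ({z, a} : Set G) :=
      (Subgroup.mem_normalizer_iff.mp hy₁N a).mp a_mem_V
    have step2 : ∃ x₂ ∈ Q ⊔ P, (x₂ * y₁) * z = z * (x₂ * y₁) ∧ (x₂ * y₁) * a = a * (x₂ * y₁) := by
      rcases (h.mem_V _).mp hy₁a with h1 | h1 | h1 | h1
      · exfalso; apply h.a_ne_one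
        have h2 : y₁ * a = y₁ := by
          have := congrArg (· * y₁) h1; simpa [mul_assoc] using this
        exact mul_left_cancel (h2.trans (mul_one y₁).symm)
      · exfalso; apply h.ne
        have h2 : y₁ * a = z * y₁ := by
          have := congrArg (· * y₁) h1; simpa [mul_assoc] using this
        exact (mul_left_cancel (h2.trans hx₁z.symm)).symm
      · refine ⟨1, one_mem _, ?_, ?_⟩
        · simpa using hx₁z
        · have := congrArg (· * y₁) h1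
          simpa [mul_assoc] using this
      · have h2 : y₁ * a = z * (a * y₁) := by
          have := congrArg (· * y₁) h1; simpa [mul_assoc] using this
        refine ⟨t, htX, ?_, ?_⟩
        · simp only [mul_assoc, hx₁z, rt.all]
        · simp only [mul_assoc, h2, rt.all, h.za]
    obtain ⟨x₂, hx₂, hc⟩ := step2
    have hcC : x₂ * y₁ ∈ Subgroup.centralizer (Subgroup.closure ({z, a} : Set G) : Set G) :=
      h.mem_centralizer_V.mpr hc
    have e : y = (x₁⁻¹ * x₂⁻¹) * (x₂ * y₁) := by rw [hy₁]; group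
    rw [e]
    exact mul_mem ((le_sup_left : Q ⊔ P ≤ _) (mul_mem (inv_mem hx₁) (inv_mem hx₂)))
      ((le_sup_right : Subgroup.centralizer _ ≤ (Q ⊔ P) ⊔ _) hcC)
  · exact sup_le h.X_le_normalizer_V (Subgroup.centralizer_le_normalizer _)

theorem X_le_normalizer_CV [Finite G] (h : Cfg Q P z a g) :
    Q ⊔ P ≤ Subgroup.normalizer
      (Subgroup.centralizer (Subgroup.closure ({z, a} : Set G) : Set G) : Set G) :=
  h.X_le_normalizer_V.trans (normalizer_le_normalizer_centralizer _)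

theorem relIndex_centralizer_V [Finite G] (h : Cfg Q P z a g) :
    (Subgroup.centralizer (Subgroup.closure ({z, a} : Set G) : Set G)).relIndex (Q ⊔ P) = 6 := by
  obtain ⟨t, htQ, ht⟩ := h.exists_t
  obtain ⟨s, hsP, hs⟩ := h.exists_s
  have h6 := four_group_relIndex (Subgroup.closure ({z, a} : Set G)) z a t s h.mem_V h.z_ne_one
    h.a_ne_one h.ne.symm h.zz h.aa h.az.symm (by rw [h.hQ.z_central t htQ]; group) ht
    (by rw [hs, h.az]) (by rw [h.hP.z_central s hsP]; group)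
  have h1 := H1.relIndex_sup_of_le_normalizer (Q ⊔ P)
    (Subgroup.centralizer (Subgroup.closure ({z, a} : Set G) : Set G)) h.X_le_normalizer_CV
  rw [← h.normalizer_V_eq, h6] at h1
  exact h1.symm

/-- `R = C_X(V)`. -/
theorem RR_eq_inf [Finite G] (h : Cfg Q P z a g) :
    RR Q P z a =
      (Q ⊔ P) ⊓ Subgroup.centralizer (Subgroup.closure ({z, a} : Set G) : Set G) := by
  obtain ⟨hn, ⟨e⟩⟩ := h.quot
  have h6 : (RR Q P z a).relIndex (Q ⊔ P) = 6 := by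
    rw [Subgroup.relIndex, Subgroup.index_eq_card, Nat.card_congr e.toEquiv, Nat.card_perm,
      Nat.card_fin]
    rfl
  have hle : RR Q P z a ≤
      (Q ⊔ P) ⊓ Subgroup.centralizer (Subgroup.closure ({z, a} : Set G) : Set G) :=
    le_inf RR_le_X h.RR_le_centralizer_V
  apply le_antisymm hle
  have hmul := Subgroup.relIndex_mul_relIndex _ _ _ hle
    (inf_le_left : (Q ⊔ P) ⊓ Subgroup.centralizer (Subgroup.closure ({z, a} : Set G) : Set G) ≤ _)
  rw [h6, Subgroup.inf_relIndex_left, h.relIndex_centralizer_V] at hmul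
  have h1 : (RR Q P z a).relIndex
      ((Q ⊔ P) ⊓ Subgroup.centralizer (Subgroup.closure ({z, a} : Set G) : Set G)) = 1 := by
    omega
  exact Subgroup.relIndex_eq_one.mp h1

theorem P0_le_normalizer_Q0 [Finite G] (h : Cfg Q P z a g) :
    P ⊓ Subgroup.centralizer ({z} : Set G) ≤
      Subgroup.normalizer ((Q ⊓ Subgroup.centralizer ({a} : Set G) : Subgroup G) : Set G) := by
  intro p hp
  apply Subgroup.mem_normalizer_fintype
  intro q hq
  have rp := h.cRules_P0 hp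
  have rq := h.cRules_Q0 hq
  rw [SetLike.mem_coe, mem_Q0]
  refine ⟨h.hQ.norm p rp.uz q (mem_Q0.mp hq).1, ?_⟩
  simp only [mul_assoc, rp.all, rq.all]

theorem RR_isPGroup [Finite G] (h : Cfg Q P z a g) : IsPGroup 2 ↥(RR Q P z a) :=
  IsPGroup.to_sup_of_normal_right' (isPGroup_of_le_ESPair h.hP _ inf_le_left)
    (isPGroup_of_le_ESPair h.hQ _ inf_le_left) h.P0_le_normalizer_Q0

/-- `R = O₂(X)`. -/
theorem RR_eq_pCore [Finite G] (h : Cfg Q P z a g) :
    RR Q P z a = (Cfsg.pCore 2 ↥(Q ⊔ P)).map (Q ⊔ P).subtype := by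
  obtain ⟨hn, ⟨e⟩⟩ := h.quot
  have : Fact (Nat.Prime 2) := ⟨Nat.prime_two⟩
  apply le_antisymm
  · have hp : IsPGroup 2 ↥((RR Q P z a).subgroupOf (Q ⊔ P)) := h.RR_isPGroup.comap_subtype
    have hle := H1.le_pCore 2 ((RR Q P z a).subgroupOf (Q ⊔ P)) hp
    intro x hx
    exact ⟨⟨x, RR_le_X hx⟩, hle (Subgroup.mem_subgroupOf.mpr hx), rfl⟩
  · have hle := le_of_quot_perm3 (Cfsg.pCore 2 ↥(Q ⊔ P)) ((RR Q P z a).subgroupOf (Q ⊔ P))
      (H1.pCore_isPGroup 2) e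
    rintro _ ⟨x, hx, rfl⟩
    exact Subgroup.mem_subgroupOf.mp (hle hx)

theorem conj_mem_X_of_comm (h : Cfg Q P z a g) {c : G} (hcz : c * z = z * c)
    (hca : c * a = a * c) {x : G} (hx : x ∈ Q ⊔ P) : c * x * c⁻¹ ∈ Q ⊔ P := by
  have hle : Q ⊔ P ≤ (Q ⊔ P).comap (MulAut.conj c).toMonoidHom := by
    apply sup_le
    · intro q hq
      rw [Subgroup.mem_comap]
      exact (le_sup_left : Q ≤ Q ⊔ P) (h.hQ.norm c hcz q hq)
    · intro p hp
      rw [Subgroup.mem_comap]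
      exact (le_sup_right : P ≤ Q ⊔ P) (h.hP.norm c hca p hp)
  exact hle hx

theorem normalizer_V_conj [Finite G] (h : Cfg Q P z a g) :
    ∀ y ∈ Subgroup.normalizer (Subgroup.closure ({z, a} : Set G) : Set G), ∀ x ∈ Q ⊔ P,
      y * x * y⁻¹ ∈ Q ⊔ P := by
  intro y hy x hx
  rw [h.normalizer_V_eq] at hy
  obtain ⟨x', hx', c, hc, rfl⟩ := mem_sup_of_le_normalizer h.X_le_normalizer_CV hy
  have hc' := h.mem_centralizer_V.mp hc
  have h1 := h.conj_mem_X_of_comm hc'.1 hc'.2 hx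
  have e : x' * c * x * (x' * c)⁻¹ = x' * (c * x * c⁻¹) * x'⁻¹ := by group
  rw [e]
  exact Subgroup.mul_mem _ (Subgroup.mul_mem _ hx' h1) (Subgroup.inv_mem _ hx')

theorem comm_mem_RR [Finite G] (h : Cfg Q P z a g) :
    ∀ x ∈ Q ⊔ P, ∀ c ∈ Subgroup.centralizer (Subgroup.closure ({z, a} : Set G) : Set G),
      x * c * x⁻¹ * c⁻¹ ∈ RR Q P z a := by
  intro x hx c hc
  rw [h.RR_eq_inf]
  have hc' := h.mem_centralizer_V.mp hc
  refine Subgroup.mem_inf.mpr ⟨?_, ?_⟩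
  · have h1 := h.conj_mem_X_of_comm hc'.1 hc'.2 (Subgroup.inv_mem _ hx)
    have e : x * c * x⁻¹ * c⁻¹ = x * (c * x⁻¹ * c⁻¹) := by group
    rw [e]; exact Subgroup.mul_mem _ hx h1
  · have h1 : x * c * x⁻¹ ∈ Subgroup.centralizer (Subgroup.closure ({z, a} : Set G) : Set G) :=
      (Subgroup.mem_normalizer_iff.mp (h.X_le_normalizer_CV hx) c).mp hc
    exact Subgroup.mul_mem _ h1 (Subgroup.inv_mem _ hc)

end Cfg

/-- The elements of `N(V)` that centralize `E` modulo `V`. -/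
def SS (V E : Subgroup G) : Subgroup G where
  carrier := {x | x ∈ Subgroup.normalizer (V : Set G) ∧ ∀ e ∈ E, x * e * x⁻¹ * e⁻¹ ∈ V}
  one_mem' := ⟨one_mem _, fun e _ => by simp⟩
  mul_mem' := by
    rintro x y ⟨hx, hx'⟩ ⟨hy, hy'⟩
    refine ⟨mul_mem hx hy, fun e he => ?_⟩
    have key : x * y * e * (x * y)⁻¹ * e⁻¹ =
        (x * (y * e * y⁻¹ * e⁻¹) * x⁻¹) * (x * e * x⁻¹ * e⁻¹) := by group
    rw [key]
    exact V.mul_mem ((Subgroup.mem_normalizer_iff.mp hx _).mp (hy' e he)) (hx' e he)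
  inv_mem' := by
    rintro x ⟨hx, hx'⟩
    refine ⟨inv_mem hx, fun e he => ?_⟩
    have key : x⁻¹ * e * x⁻¹⁻¹ * e⁻¹ = x⁻¹ * (x * e * x⁻¹ * e⁻¹)⁻¹ * x⁻¹⁻¹ := by group
    rw [key]
    exact (Subgroup.mem_normalizer_iff.mp (inv_mem hx) _).mp (V.inv_mem (hx' e he))

theorem mem_SS {V E : Subgroup G} {x : G} :
    x ∈ SS V E ↔ x ∈ Subgroup.normalizer (V : Set G) ∧ ∀ e ∈ E, x * e * x⁻¹ * e⁻¹ ∈ V :=
  Iff.rfl

namespace Cfg

variable {Q P : Subgroup G} {z a g : G}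

theorem E_le_Q0 (h : Cfg Q P z a g) : Q ⊓ P ≤ Q ⊓ Subgroup.centralizer ({a} : Set G) :=
  fun e he => mem_Q0.mpr ⟨he.1, h.hP.z_central e he.2⟩

theorem E_le_P0 (h : Cfg Q P z a g) : Q ⊓ P ≤ P ⊓ Subgroup.centralizer ({z} : Set G) :=
  fun e he => mem_Q0.mpr ⟨he.2, h.hQ.z_central e he.1⟩

theorem E_le_RR (h : Cfg Q P z a g) : Q ⊓ P ≤ RR Q P z a := h.E_le_Q0.trans Q0_le_RR

theorem inf_eq_E (h : Cfg Q P z a g) :
    (P ⊓ Subgroup.centralizer ({z} : Set G)) ⊓ (Q ⊓ Subgroup.centralizer ({a} : Set G)) =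
      Q ⊓ P := by
  apply le_antisymm
  · intro x hx
    exact ⟨hx.2.1, hx.1.1⟩
  · exact le_inf h.E_le_P0 h.E_le_Q0

theorem z_mem_E (h : Cfg Q P z a g) : z ∈ Q ⊓ P := ⟨h.hQ.z_mem, h.zP⟩

theorem a_mem_E (h : Cfg Q P z a g) : a ∈ Q ⊓ P := ⟨h.aQ, h.hP.z_mem⟩

theorem E_elementary (h : Cfg Q P z a g) : Cfsg.IsElementaryAbelian 2 (Q ⊓ P) := by
  constructor
  · apply isMulCommutative_of_comm
    intro x hx y hy
    have h1 := h.hQ.comm x hx.1 y hy.1
    have h2 := h.hP.comm x hx.2 y hy.2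
    have h3 : x * y * x⁻¹ * y⁻¹ = 1 := by
      rcases h1 with h1 | h1
      · exact h1
      · rcases h2 with h2 | h2
        · exact h2
        · exact absurd (h1.symm.trans h2) h.ne
    have := congrArg (· * y * x) h3
    simpa [mul_assoc] using this
  · intro x hx
    rw [pow_two]
    rcases h.hQ.sq x hx.1 with h1 | h1
    · exact h1
    · rcases h.hP.sq x hx.2 with h2 | h2
      · exact h2
      · exact absurd (h1.symm.trans h2) h.ne

theorem conj_mem_E (h : Cfg Q P z a g) {c : G} (hcz : c * z = z * c) (hca : c * a = a * c)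
    {e : G} (he : e ∈ Q ⊓ P) : c * e * c⁻¹ ∈ Q ⊓ P :=
  ⟨h.hQ.norm c hcz e he.1, h.hP.norm c hca e he.2⟩

theorem comm_PQ (h : Cfg Q P z a g) {p q : G}
    (hp : p ∈ P ⊓ Subgroup.centralizer ({z} : Set G))
    (hq : q ∈ Q ⊓ Subgroup.centralizer ({a} : Set G)) : p * q * p⁻¹ * q⁻¹ ∈ Q ⊓ P := by
  have rp := h.cRules_P0 hp
  have rq := h.cRules_Q0 hq
  refine Subgroup.mem_inf.mpr ⟨?_, ?_⟩
  · exact Q.mul_mem (h.hQ.norm p rp.uz q (mem_Q0.mp hq).1) (Q.inv_mem (mem_Q0.mp hq).1)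
  · have h1 := h.hP.norm q rq.ua p⁻¹ (P.inv_mem (mem_Q0.mp hp).1)
    have e : p * q * p⁻¹ * q⁻¹ = p * (q * p⁻¹ * q⁻¹) := by group
    rw [e]; exact P.mul_mem (mem_Q0.mp hp).1 h1

theorem comm_QP (h : Cfg Q P z a g) {p q : G}
    (hp : p ∈ P ⊓ Subgroup.centralizer ({z} : Set G))
    (hq : q ∈ Q ⊓ Subgroup.centralizer ({a} : Set G)) : q * p * q⁻¹ * p⁻¹ ∈ Q ⊓ P := by
  have h1 := (Q ⊓ P).inv_mem (h.comm_PQ hp hq)
  have e : (p * q * p⁻¹ * q⁻¹)⁻¹ = q * p * q⁻¹ * p⁻¹ := by group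
  rwa [e] at h1

theorem comm_QQ (h : Cfg Q P z a g) {q₁ q₂ : G}
    (h1 : q₁ ∈ Q ⊓ Subgroup.centralizer ({a} : Set G))
    (h2 : q₂ ∈ Q ⊓ Subgroup.centralizer ({a} : Set G)) : q₁ * q₂ * q₁⁻¹ * q₂⁻¹ ∈ Q ⊓ P := by
  rcases h.hQ.comm q₁ (mem_Q0.mp h1).1 q₂ (mem_Q0.mp h2).1 with h3 | h3
  · rw [h3]; exact one_mem _
  · rw [h3]; exact h.z_mem_E

theorem comm_PP (h : Cfg Q P z a g) {p₁ p₂ : G}
    (h1 : p₁ ∈ P ⊓ Subgroup.centralizer ({z} : Set G))
    (h2 : p₂ ∈ P ⊓ Subgroup.centralizer ({z} : Set G)) : p₁ * p₂ * p₁⁻¹ * p₂⁻¹ ∈ Q ⊓ P := by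
  rcases h.hP.comm p₁ (mem_Q0.mp h1).1 p₂ (mem_Q0.mp h2).1 with h3 | h3
  · rw [h3]; exact one_mem _
  · rw [h3]; exact h.a_mem_E

theorem sq_Q0 (h : Cfg Q P z a g) {q : G}
    (hq : q ∈ Q ⊓ Subgroup.centralizer ({a} : Set G)) : q * q ∈ Q ⊓ P := by
  rcases h.hQ.sq q (mem_Q0.mp hq).1 with h3 | h3
  · rw [h3]; exact one_mem _
  · rw [h3]; exact h.z_mem_E

theorem sq_P0 (h : Cfg Q P z a g) {p : G}
    (hp : p ∈ P ⊓ Subgroup.centralizer ({z} : Set G)) : p * p ∈ Q ⊓ P := by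
  rcases h.hP.sq p (mem_Q0.mp hp).1 with h3 | h3
  · rw [h3]; exact one_mem _
  · rw [h3]; exact h.a_mem_E

theorem RR_decomp [Finite G] (h : Cfg Q P z a g) {x : G} (hx : x ∈ RR Q P z a) :
    ∃ p ∈ P ⊓ Subgroup.centralizer ({z} : Set G),
      ∃ q ∈ Q ⊓ Subgroup.centralizer ({a} : Set G), p * q = x :=
  mem_sup_of_le_normalizer h.P0_le_normalizer_Q0 hx

theorem comm_RR_mem_E [Finite G] (h : Cfg Q P z a g) {x y : G} (hx : x ∈ RR Q P z a)
    (hy : y ∈ RR Q P z a) : x * y * x⁻¹ * y⁻¹ ∈ Q ⊓ P := by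
  obtain ⟨p₁, hp₁, q₁, hq₁, rfl⟩ := h.RR_decomp hx
  obtain ⟨p₂, hp₂, q₂, hq₂, rfl⟩ := h.RR_decomp hy
  have rp₁ := h.cRules_P0 hp₁
  have rp₂ := h.cRules_P0 hp₂
  have key : p₁ * q₁ * (p₂ * q₂) * (p₁ * q₁)⁻¹ * (p₂ * q₂)⁻¹ =
      p₁ * ((q₁ * p₂ * q₁⁻¹ * p₂⁻¹) * (p₂ * (q₁ * q₂ * q₁⁻¹ * q₂⁻¹) * p₂⁻¹)) * p₁⁻¹ *
        ((p₁ * p₂ * p₁⁻¹ * p₂⁻¹) * (p₂ * (p₁ * q₂ * p₁⁻¹ * q₂⁻¹) * p₂⁻¹)) := by group
  rw [key]
  exact Subgroup.mul_mem _
    (h.conj_mem_E rp₁.uz rp₁.ua (Subgroup.mul_mem _ (h.comm_QP hp₂ hq₁)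
      (h.conj_mem_E rp₂.uz rp₂.ua (h.comm_QQ hq₁ hq₂))))
    (Subgroup.mul_mem _ (h.comm_PP hp₁ hp₂) (h.conj_mem_E rp₂.uz rp₂.ua (h.comm_PQ hp₁ hq₂)))

theorem sq_RR_mem_E [Finite G] (h : Cfg Q P z a g) {x : G} (hx : x ∈ RR Q P z a) :
    x ^ 2 ∈ Q ⊓ P := by
  obtain ⟨p, hp, q, hq, rfl⟩ := h.RR_decomp hx
  have key : (p * q) ^ 2 = (p * p) * (p⁻¹ * q * p⁻¹⁻¹ * q⁻¹) * (q * q) := by
    rw [pow_two]; group
  rw [key]
  exact Subgroup.mul_mem _ (Subgroup.mul_mem _ (h.sq_P0 hp)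
    (h.comm_PQ (Subgroup.inv_mem _ hp) hq)) (h.sq_Q0 hq)

/-- A central element of `R` lies in `V`. -/
theorem center_RR (h : Cfg Q P z a g) {x : G} (hx : x ∈ RR Q P z a)
    (hc : ∀ y ∈ RR Q P z a, y * x = x * y) : x ∈ Subgroup.closure ({z, a} : Set G) := by
  obtain ⟨t, htQ, ht⟩ := h.exists_t
  have rt := h.tRules htQ ht
  have rx := h.cRules_RR hx
  have hxt : x * t * x⁻¹ ∈ Q := h.hQ.norm x rx.uz t htQ
  have hcQ : t⁻¹ * (x * t * x⁻¹) ∈ Q := Q.mul_mem (Q.inv_mem htQ) hxt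
  have hcomm : ∀ u ∈ Q, u * a = a * u →
      u * (t⁻¹ * (x * t * x⁻¹)) = (t⁻¹ * (x * t * x⁻¹)) * u := by
    intro u hu hua
    have hu0 : u ∈ Q ⊓ Subgroup.centralizer ({a} : Set G) := mem_Q0.mpr ⟨hu, hua⟩
    have ru := h.cRules_Q0 hu0
    have hw0 : t * u * t⁻¹ ∈ Q ⊓ Subgroup.centralizer ({a} : Set G) := by
      rw [mem_Q0]
      refine ⟨Q.mul_mem (Q.mul_mem htQ hu) (Q.inv_mem htQ), ?_⟩
      simp only [mul_assoc, rt.all, ru.all, h.za]
    have hxu : x * u = u * x := (hc u (Q0_le_RR hu0)).symm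
    have hxw : x * (t * u * t⁻¹) = (t * u * t⁻¹) * x := (hc _ (Q0_le_RR hw0)).symm
    have hu' : x⁻¹ * u * x = u := by rw [mul_assoc, ← hxu, inv_mul_cancel_left]
    symm
    calc t⁻¹ * (x * t * x⁻¹) * u = t⁻¹ * x * t * (x⁻¹ * u * x) * x⁻¹ := by group
      _ = t⁻¹ * (x * (t * u * t⁻¹)) * t * x⁻¹ := by rw [hu']; group
      _ = t⁻¹ * ((t * u * t⁻¹) * x) * t * x⁻¹ := by rw [hxw]
      _ = u * (t⁻¹ * (x * t * x⁻¹)) := by group
  have hd := h.hQ.dcent h.aQ h.a_ne_one h.ne.symm hcQ hcomm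
  have ht2 : x * (t * t) = (t * t) * x := by
    rcases h.hQ.sq t htQ with h1 | h1
    · rw [h1]; simp
    · rw [h1]; exact rx.uz
  generalize hcdef : t⁻¹ * (x * t * x⁻¹) = c at hd hcQ hcomm
  have hxt' : x * t = t * c * x := by rw [← hcdef]; group
  have hsq : t * c * (t * c) = t * t := by
    have h5 : x * (t * t) = t * c * (t * c) * x := by
      calc x * (t * t) = (x * t) * t := by group
        _ = (t * c * x) * t := by rw [hxt']
        _ = t * c * (x * t) := by group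
        _ = t * c * (t * c * x) := by rw [hxt']
        _ = t * c * (t * c) * x := by group
    exact mul_right_cancel (h5.symm.trans ht2)
  rcases hd with h1 | h1 | h1 | h1
  · rw [h1, mul_one] at hxt'
    have hall : ∀ q ∈ Q, q * x = x * q := by
      intro q hq
      rcases h.hQ.coset ht hq h.aQ with h2 | h2
      · exact hc q (Q0_le_RR (mem_Q0.mpr ⟨hq, h2⟩))
      · have h3 := hc (t⁻¹ * q) (Q0_le_RR (mem_Q0.mpr ⟨Q.mul_mem (Q.inv_mem htQ) hq, h2⟩))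
        calc q * x = t * ((t⁻¹ * q) * x) := by group
          _ = t * (x * (t⁻¹ * q)) := by rw [h3]
          _ = (t * x) * t⁻¹ * q := by group
          _ = (x * t) * t⁻¹ * q := by rw [hxt']
          _ = x * q := by group
    rcases h.hQ.cent x hall with h4 | h4
    · rw [h4]; exact one_mem _
    · rw [h4]; exact z_mem_V
  · rw [h1] at hxt'
    have hat : (a * x) * t = t * (a * x) := by
      simp only [mul_assoc, hxt', rt.all, h.za]
    have hall : ∀ q ∈ Q, q * (a * x) = (a * x) * q := by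
      intro q hq
      rcases h.hQ.coset ht hq h.aQ with h2 | h2
      · have h3 := hc q (Q0_le_RR (mem_Q0.mpr ⟨hq, h2⟩))
        rw [← mul_assoc, h2, mul_assoc, h3, mul_assoc]
      · have h3 := hc (t⁻¹ * q) (Q0_le_RR (mem_Q0.mpr ⟨Q.mul_mem (Q.inv_mem htQ) hq, h2⟩))
        have h4 : (t⁻¹ * q) * (a * x) = (a * x) * (t⁻¹ * q) := by
          rw [← mul_assoc, h2, mul_assoc, h3, mul_assoc]
        calc q * (a * x) = t * ((t⁻¹ * q) * (a * x)) := by group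
          _ = t * ((a * x) * (t⁻¹ * q)) := by rw [h4]
          _ = (t * (a * x)) * t⁻¹ * q := by group
          _ = ((a * x) * t) * t⁻¹ * q := by rw [hat]
          _ = (a * x) * q := by group
    rcases h.hQ.cent (a * x) hall with h4 | h4
    · have h5 : x = a := by
        calc x = a * (a * x) := by rw [h.aa']
          _ = a := by rw [h4, mul_one]
      rw [h5]; exact a_mem_V
    · have h5 : x = z * a := by
        calc x = a * (a * x) := by rw [h.aa']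
          _ = z * a := by rw [h4, h.az]
      rw [h5]; exact (h.mem_V _).mpr (Or.inr (Or.inr (Or.inr rfl)))
  · exfalso
    have hca : c = a := by
      calc c = c * a * a := by rw [mul_assoc, h.aa, mul_one]
        _ = a := by rw [h1, one_mul]
    rw [hca] at hsq
    have e : t * a * (t * a) = z * (t * t) := by simp only [mul_assoc, rt.all, h.za]
    exact h.z_ne_one (mul_right_cancel ((e.symm.trans hsq).trans (one_mul _).symm))
  · exfalso
    have hca : c = z * a := by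
      calc c = c * a * a := by rw [mul_assoc, h.aa, mul_one]
        _ = z * a := by rw [h1]
    rw [hca] at hsq
    have e : t * (z * a) * (t * (z * a)) = z * (t * t) := by simp only [mul_assoc, rt.all, h.za]
    exact h.z_ne_one (mul_right_cancel ((e.symm.trans hsq).trans (one_mul _).symm))

/-- `Z(R) = V`. -/
theorem center_eq (h : Cfg Q P z a g) :
    (Subgroup.center ↥(RR Q P z a)).map (RR Q P z a).subtype =
      Subgroup.closure ({z, a} : Set G) := by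
  apply le_antisymm
  · rintro _ ⟨x, hx, rfl⟩
    apply h.center_RR x.2
    intro y hy
    have h1 := Subgroup.mem_center_iff.mp hx ⟨y, hy⟩
    exact congrArg Subtype.val h1
  · rw [Subgroup.closure_le]
    intro v hv
    have hvR : v ∈ RR Q P z a := by
      rcases hv with h1 | h1
      · rw [h1]; exact h.z_mem_RR
      · rw [Set.mem_singleton_iff.mp h1]; exact h.a_mem_RR
    refine ⟨⟨v, hvR⟩, ?_, rfl⟩
    rw [SetLike.mem_coe, Subgroup.mem_center_iff]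
    intro y
    apply Subtype.ext
    have hy := h.RR_comm y.2
    rcases hv with h1 | h1
    · show (y : G) * v = v * y
      rw [h1]; exact hy.1
    · show (y : G) * v = v * y
      rw [Set.mem_singleton_iff.mp h1]; exact hy.2

/-- `[X, E] ≤ V`, elementwise. -/
theorem comm_X_E [Finite G] (h : Cfg Q P z a g) :
    ∀ x ∈ Q ⊔ P, ∀ e ∈ Q ⊓ P, x * e * x⁻¹ * e⁻¹ ∈ Subgroup.closure ({z, a} : Set G) := by
  have hle : Q ⊔ P ≤ SS (Subgroup.closure ({z, a} : Set G)) (Q ⊓ P) := by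
    apply sup_le
    · intro q hq
      refine mem_SS.mpr ⟨h.Q_le_normalizer_V hq, fun e he => ?_⟩
      rcases h.hQ.comm q hq e he.1 with h1 | h1
      · rw [h1]; exact one_mem _
      · rw [h1]; exact z_mem_V
    · intro p hp
      refine mem_SS.mpr ⟨h.P_le_normalizer_V hp, fun e he => ?_⟩
      rcases h.hP.comm p hp e he.2 with h1 | h1
      · rw [h1]; exact one_mem _
      · rw [h1]; exact a_mem_V
  intro x hx e he
  exact (mem_SS.mp (hle hx)).2 e he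

theorem E_le_Z2 [Finite G] (h : Cfg Q P z a g) :
    Q ⊓ P ≤ (Subgroup.upperCentralSeries ↥(RR Q P z a) 2).map (RR Q P z a).subtype := by
  intro e he
  refine ⟨⟨e, h.E_le_RR he⟩, ?_, rfl⟩
  rw [SetLike.mem_coe]
  show _ ∈ Subgroup.upperCentralSeries ↥(RR Q P z a) (1 + 1)
  rw [Subgroup.mem_upperCentralSeries_succ_iff]
  intro y
  rw [Subgroup.upperCentralSeries_one]
  have h1 : (y : G) * e * (y : G)⁻¹ * e⁻¹ ∈ Subgroup.closure ({z, a} : Set G) :=
    h.comm_X_E y (RR_le_X y.2) e he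
  have h2 : e * y * e⁻¹ * (y : G)⁻¹ ∈ Subgroup.closure ({z, a} : Set G) := by
    have h3 := Subgroup.inv_mem _ h1
    have e' : ((y : G) * e * (y : G)⁻¹ * e⁻¹)⁻¹ = e * y * e⁻¹ * (y : G)⁻¹ := by group
    rwa [e'] at h3
  rw [← h.center_eq] at h2
  obtain ⟨w, hw, hw'⟩ := h2
  have h4 : w = ⁅(⟨e, h.E_le_RR he⟩ : ↥(RR Q P z a)), y⁆ := by
    apply Subtype.ext
    rw [commutatorElement_def]
    exact hw'
  rw [← h4]; exact hw

theorem Z3_eq_top [Finite G] (h : Cfg Q P z a g) :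
    Subgroup.upperCentralSeries ↥(RR Q P z a) 3 = ⊤ := by
  rw [eq_top_iff]
  intro x _
  show x ∈ Subgroup.upperCentralSeries ↥(RR Q P z a) (2 + 1)
  rw [Subgroup.mem_upperCentralSeries_succ_iff]
  intro y
  have h1 := h.comm_RR_mem_E x.2 y.2
  obtain ⟨w, hw, hw'⟩ := h.E_le_Z2 h1
  have h4 : w = ⁅x, y⁆ := by
    apply Subtype.ext
    rw [commutatorElement_def]
    exact hw'
  rw [← h4]; exact hw

/-- The structure of `X = ⟨Q, P⟩` (first part). -/
theorem main1 [Finite G] (h : Cfg Q P z a g) (V X R : Subgroup G)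
    (hV : V = Subgroup.closure ({z, a} : Set G)) (hX : X = Q ⊔ P)
    (hR : R = (P ⊓ Subgroup.centralizer ({z} : Set G)) ⊔
      (Q ⊓ Subgroup.centralizer ({a} : Set G))) :
    R = X ⊓ Subgroup.centralizer (V : Set G) ∧
    R = (Cfsg.pCore 2 ↥X).map X.subtype ∧
    (∃ _ : (R.subgroupOf X).Normal, Nonempty (↥X ⧸ R.subgroupOf X ≃* Equiv.Perm (Fin 3))) ∧
    Subgroup.normalizer (V : Set G) =
      X ⊔ (Subgroup.centralizer ({z} : Set G) ⊓ Subgroup.centralizer (V : Set G)) ∧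
    (∀ y ∈ Subgroup.normalizer (V : Set G), ∀ x ∈ X, y * x * y⁻¹ ∈ X) ∧
    R ≤ Subgroup.centralizer ({z} : Set G) ⊓ Subgroup.centralizer (V : Set G) ∧
    (∀ x ∈ X, ∀ c ∈ Subgroup.centralizer ({z} : Set G) ⊓ Subgroup.centralizer (V : Set G),
      x * c * x⁻¹ * c⁻¹ ∈ R) ∧
    X ⊓ (Subgroup.centralizer ({z} : Set G) ⊓ Subgroup.centralizer (V : Set G)) = R := by
  subst hV hX
  have hR' : R = RR Q P z a := hR
  subst hR'
  have hCz : Subgroup.centralizer ({z} : Set G) ⊓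
      Subgroup.centralizer (Subgroup.closure ({z, a} : Set G) : Set G) =
      Subgroup.centralizer (Subgroup.closure ({z, a} : Set G) : Set G) :=
    inf_eq_right.mpr (Subgroup.centralizer_le (by
      intro v hv
      rw [Set.mem_singleton_iff.mp hv]
      exact z_mem_V))
  rw [hCz]
  exact ⟨h.RR_eq_inf, h.RR_eq_pCore, h.quot, h.normalizer_V_eq, h.normalizer_V_conj,
    h.RR_le_centralizer_V, h.comm_mem_RR, h.RR_eq_inf.symm⟩

/-- The structure of `R` (second part). -/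
theorem main2 [Finite G] (h : Cfg Q P z a g) (V X R E : Subgroup G)
    (hV : V = Subgroup.closure ({z, a} : Set G)) (hX : X = Q ⊔ P)
    (hR : R = (P ⊓ Subgroup.centralizer ({z} : Set G)) ⊔
      (Q ⊓ Subgroup.centralizer ({a} : Set G)))
    (hE : E = Q ⊓ P) :
    (Subgroup.center ↥R).map R.subtype = V ∧
    E ≤ (Subgroup.upperCentralSeries ↥R 2).map R.subtype ∧
    Subgroup.upperCentralSeries ↥R 3 = ⊤ ∧
    Cfsg.IsElementaryAbelian 2 E ∧
    (∀ x ∈ R, ∀ y ∈ R, x * y * x⁻¹ * y⁻¹ ∈ E ∧ x ^ 2 ∈ E) ∧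
    (P ⊓ Subgroup.centralizer ({z} : Set G)) ⊓ (Q ⊓ Subgroup.centralizer ({a} : Set G)) = E ∧
    ⁅X, E⁆ ≤ V := by
  subst hV hX hE
  have hR' : R = RR Q P z a := hR
  subst hR'
  refine ⟨h.center_eq, h.E_le_Z2, h.Z3_eq_top, h.E_elementary,
    fun x hx y hy => ⟨h.comm_RR_mem_E hx hy, h.sq_RR_mem_E hx⟩, h.inf_eq_E, ?_⟩
  rw [Subgroup.commutator_le]
  intro x hx e he
  rw [commutatorElement_def]
  exact h.comm_X_E x hx e he

end Cfg

/-- The configuration arising from a large extraspecial subgroup and a conjugate of its central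
involution inside it. -/
theorem cfg_of_hyp [Finite G] (Q : Subgroup G) (hQ : Cfsg.IsLargeExtraspecial Q) (z : G)
    (hz : ((Subgroup.center ↥Q).map Q.subtype) = Subgroup.zpowers z) (hz2 : orderOf z = 2)
    (w : ℕ) (hw : 2 ≤ w) (hcard : Nat.card ↥Q = 2 ^ (2 * w + 1)) (g : G)
    (hgH : g ∉ Subgroup.centralizer ({z} : Set G)) (hgQ : g * z * g⁻¹ ∈ Q) :
    Cfg Q (Q.map (MulAut.conj g).toMonoidHom) z (g * z * g⁻¹) g := by
  obtain ⟨z', hE, hZ⟩ := ESPair.of_hyp Q hQ.1 hQ.2.1 hQ.2.2.1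
  have hz1 : z ≠ 1 := by
    intro h1
    rw [h1, orderOf_one] at hz2
    omega
  have hzz' : z = z' := by
    have h1 : z ∈ (Subgroup.center ↥Q).map Q.subtype := by
      rw [hz]; exact Subgroup.mem_zpowers z
    rcases (hZ z).mp h1 with h2 | h2
    · exact absurd h2 hz1
    · exact h2
  subst hzz'
  have hne : g * z * g⁻¹ ≠ z := by
    intro hc
    apply hgH
    rw [Subgroup.mem_centralizer_singleton_iff]
    have := congrArg (· * g) hc
    simpa [mul_assoc] using this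
  have h32 : 32 ≤ Nat.card ↥Q := by
    rw [hcard]
    calc 32 = 2 ^ 5 := by norm_num
      _ ≤ 2 ^ (2 * w + 1) := Nat.pow_le_pow_right (by norm_num) (by omega)
  have hzP := hE.mem_conj h32 g hgQ hne
  exact ⟨hE, hE.conj g, hgQ, hzP, hne.symm, rfl, rfl⟩

end Cfsg.Agent.H28.LES
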