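import Mathlib
import Cfsg.Agent.H85.McLDefs
import Cfsg.Agent.H45.SLGen

/-!
# A group containing all transvections contains `SL(V)` (S5075-GENSL, helper28)
-/

set_option autoImplicit false

namespace Cfsg.Agent.H28.McL

open Module Cfsg.Agent.H85.McL

variable {p : ℕ} [Fact p.Prime] {V : Type*} [AddCommGroup V] [Module (ZMod p) V]

/-- **S5075-GENSL.** -/
theorem sl_le [Finite V] (G : Subgroup (V ≃ₗ[ZMod p] V))
    (h : ∀ a φ, a ≠ 0 → φ ≠ 0 → φ a = 0 → Root G a φ) (f : V ≃ₗ[ZMod p] V)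
    (hf : LinearMap.det (f : V →ₗ[ZMod p] V) = 1) : f ∈ G := by
  classical
  have hfinM : Module.Finite (ZMod p) V := Module.Finite.of_finite
  obtain ⟨n, ⟨b⟩⟩ : ∃ n : ℕ, Nonempty (Basis (Fin n) (ZMod p) V) :=
    ⟨_, ⟨Module.finBasis (ZMod p) V⟩⟩
  -- every element of `SL_n` is the matrix of an element of `G`
  have key : ∀ g : Matrix.SpecialLinearGroup (Fin n) (ZMod p),
      g ∈ Cfsg.Agent.H45.elemSubgroup (Fin n) (ZMod p) →
      ∃ u ∈ G, LinearMap.toMatrix b b (u : V →ₗ[ZMod p] V) = g.1 := by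
    intro g hg
    unfold Cfsg.Agent.H45.elemSubgroup at hg
    induction hg using Subgroup.closure_induction with
    | mem g hg =>
      obtain ⟨i, j, hij, c, rfl⟩ := hg
      by_cases hc : c = 0
      · refine ⟨1, G.one_mem, ?_⟩
        subst hc
        rw [Matrix.SpecialLinearGroup.transvection]
        simp [Matrix.transvection]
      · have hr : Root G (b i) (c • b.coord j) := by
          apply h
          · exact b.ne_zero i
          · refine smul_ne_zero hc ?_
            intro h0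
            have := congrArg (fun φ : Dual (ZMod p) V => φ (b j)) h0
            simp at this
          · simp [hij]
        obtain ⟨-, -, -, u, hu, hux⟩ := hr
        refine ⟨u, hu, ?_⟩
        ext k l
        rw [LinearMap.toMatrix_apply, LinearEquiv.coe_coe, hux]
        rw [Matrix.SpecialLinearGroup.transvection]
        simp only [Matrix.transvection, Matrix.add_apply, Matrix.one_apply, Matrix.single_apply,
          LinearMap.smul_apply, Basis.coord_apply, Basis.repr_self, smul_eq_mul, map_add,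
          map_smul, Finsupp.coe_add, Finsupp.coe_smul, Pi.add_apply, Pi.smul_apply,
          Finsupp.single_apply]
        by_cases hkl : k = l <;> by_cases hjl : j = l <;> by_cases hik : i = k <;>
          simp [hkl, hjl, hik, eq_comm]
    | one =>
      refine ⟨1, G.one_mem, ?_⟩
      simp
    | mul g g' _ _ ih ih' =>
      obtain ⟨u, hu, hum⟩ := ih
      obtain ⟨u', hu', hum'⟩ := ih'
      refine ⟨u * u', G.mul_mem hu hu', ?_⟩
      have e : ((u * u' : V ≃ₗ[ZMod p] V) : V →ₗ[ZMod p] V) =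
          (u : V →ₗ[ZMod p] V) ∘ₗ (u' : V →ₗ[ZMod p] V) := rfl
      rw [e, LinearMap.toMatrix_comp b b b, hum, hum']
      rfl
    | inv g _ ih =>
      obtain ⟨u, hu, hum⟩ := ih
      refine ⟨u⁻¹, G.inv_mem hu, ?_⟩
      have e : ((u⁻¹ : V ≃ₗ[ZMod p] V) : V →ₗ[ZMod p] V) ∘ₗ (u : V →ₗ[ZMod p] V) =
          LinearMap.id := by
        ext x
        simp
      have h1 : LinearMap.toMatrix b b ((u⁻¹ : V ≃ₗ[ZMod p] V) : V →ₗ[ZMod p] V) * g.1 = 1 := by
        rw [← hum, ← LinearMap.toMatrix_comp b b b, e, LinearMap.toMatrix_id]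
      have h2 : g.1 * (g⁻¹).1 = 1 := by
        have h3 : ((g * g⁻¹ : Matrix.SpecialLinearGroup (Fin n) (ZMod p)) :
            Matrix (Fin n) (Fin n) (ZMod p)) = 1 := by
          rw [mul_inv_cancel]
          rfl
        rwa [Matrix.SpecialLinearGroup.coe_mul] at h3
      calc LinearMap.toMatrix b b ((u⁻¹ : V ≃ₗ[ZMod p] V) : V →ₗ[ZMod p] V)
          = LinearMap.toMatrix b b ((u⁻¹ : V ≃ₗ[ZMod p] V) : V →ₗ[ZMod p] V) *
              (g.1 * (g⁻¹).1) := by rw [h2, mul_one]
        _ = (g⁻¹).1 := by rw [← mul_assoc, h1, one_mul]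
  have hdet : (LinearMap.toMatrix b b (f : V →ₗ[ZMod p] V)).det = 1 := by
    rw [LinearMap.det_toMatrix]
    exact hf
  obtain ⟨g0, hg0⟩ : ∃ g0 : Matrix.SpecialLinearGroup (Fin n) (ZMod p),
      g0.1 = LinearMap.toMatrix b b (f : V →ₗ[ZMod p] V) := ⟨⟨_, hdet⟩, rfl⟩
  have hmem : g0 ∈ Cfsg.Agent.H45.elemSubgroup (Fin n) (ZMod p) := by
    rw [Cfsg.Agent.H45.elemSubgroup_eq_top]
    exact Subgroup.mem_top _
  obtain ⟨u, hu, hum⟩ := key _ hmem
  have hfu : (u : V →ₗ[ZMod p] V) = (f : V →ₗ[ZMod p] V) :=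
    (LinearMap.toMatrix b b).injective (hum.trans hg0)
  have : u = f := LinearEquiv.toLinearMap_injective hfu
  rw [← this]
  exact hu

end Cfsg.Agent.H28.McL
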