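import Mathlib
import Cfsg.Prelude.Def_Solvable
import Cfsg.Agent.H85.McLDefs
import Cfsg.Agent.H5.BaerSuzuki

/-!
# Every root has an opposite root when `O_p = 1` (S5075-OPP, helper28)
-/

set_option autoImplicit false

namespace Cfsg.Agent.H28.McL

open Module Cfsg.Agent.H85.McL

variable {p : ℕ} [Fact p.Prime] {V : Type*} [AddCommGroup V] [Module (ZMod p) V]

/-- Elements of the group generated by two transvections `(a, φ)`, `(b, ψ)` with `ψ a = 0`
have a Heisenberg normal form. -/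
theorem heis_form {a b : V} {φ ψ : Dual (ZMod p) V} (hφa : φ a = 0) (hψb : ψ b = 0)
    (hψa : ψ a = 0) {t s : V ≃ₗ[ZMod p] V} (ht : ∀ x, t x = x + φ x • a)
    (hs : ∀ x, s x = x + ψ x • b) :
    ∀ u ∈ Subgroup.closure ({t, s} : Set (V ≃ₗ[ZMod p] V)), ∃ α β γ : ZMod p,
      ∀ x, u x = x + (α * φ x + γ * ψ x) • a + (β * ψ x) • b := by
  intro u hu
  induction hu using Subgroup.closure_induction with
  | mem u hu =>
    rcases hu with rfl | rfl
    · refine ⟨1, 0, 0, fun x => ?_⟩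
      rw [ht]
      module
    · refine ⟨0, 1, 0, fun x => ?_⟩
      rw [hs]
      module
  | one =>
    refine ⟨0, 0, 0, fun x => ?_⟩
    rw [LinearEquiv.coe_one, id_eq]
    module
  | mul u u' _ _ ih ih' =>
    obtain ⟨α, β, γ, h⟩ := ih
    obtain ⟨α', β', γ', h'⟩ := ih'
    refine ⟨α + α', β + β', γ + γ' + α * β' * φ b, fun x => ?_⟩
    rw [LinearEquiv.mul_apply, h, h']
    simp only [map_add, map_smul, smul_eq_mul, hφa, hψb, hψa, mul_zero, add_zero]
    module
  | inv u _ ih =>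
    obtain ⟨α, β, γ, h⟩ := ih
    refine ⟨-α, -β, -γ + α * β * φ b, fun x => ?_⟩
    have e : u⁻¹ x = u.symm x := rfl
    rw [e, LinearEquiv.symm_apply_eq, h]
    simp only [map_add, map_smul, smul_eq_mul, hφa, hψb, hψa, mul_zero, add_zero]
    module

theorem heis_pow {a b : V} {φ ψ : Dual (ZMod p) V} (hφa : φ a = 0) (hψb : ψ b = 0)
    (hψa : ψ a = 0) {u : V ≃ₗ[ZMod p] V} {α β γ : ZMod p}
    (h : ∀ x, u x = x + (α * φ x + γ * ψ x) • a + (β * ψ x) • b) (n : ℕ) (x : V) :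
    (u ^ n) x = x + ((n : ZMod p) * α * φ x +
      ((n : ZMod p) * γ + (n.choose 2 : ZMod p) * α * β * φ b) * ψ x) • a +
      ((n : ZMod p) * β * ψ x) • b := by
  induction n generalizing x with
  | zero =>
    simp
  | succ n ih =>
    rw [pow_succ, LinearEquiv.mul_apply, ih, h]
    have hc : ((n + 1).choose 2 : ZMod p) = (n : ZMod p) + (n.choose 2 : ZMod p) := by
      rw [Nat.choose_succ_succ' n 1, Nat.choose_one_right]
      push_cast
      rfl
    rw [hc]
    simp only [map_add, map_smul, smul_eq_mul, hφa, hψb, hψa, mul_zero, add_zero]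
    push_cast
    module

/-- The group generated by two transvections `(a, φ)`, `(b, ψ)` with `ψ a = 0` has exponent `p`
(`p` odd). -/
theorem heis_pow_p (hp2 : p ≠ 2) {a b : V} {φ ψ : Dual (ZMod p) V} (hφa : φ a = 0)
    (hψb : ψ b = 0) (hψa : ψ a = 0) {t s : V ≃ₗ[ZMod p] V} (ht : ∀ x, t x = x + φ x • a)
    (hs : ∀ x, s x = x + ψ x • b) :
    ∀ u ∈ Subgroup.closure ({t, s} : Set (V ≃ₗ[ZMod p] V)), u ^ p = 1 := by
  intro u hu
  obtain ⟨α, β, γ, h⟩ := heis_form hφa hψb hψa ht hs u hu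
  have hpp : p.Prime := Fact.out
  have h2p : 2 < p := lt_of_le_of_ne hpp.two_le (Ne.symm hp2)
  have hch : ((p.choose 2 : ℕ) : ZMod p) = 0 :=
    (ZMod.natCast_eq_zero_iff _ _).2 (hpp.dvd_choose_self (by norm_num) h2p)
  ext x
  rw [heis_pow hφa hψb hψa h p x, hch, ZMod.natCast_self]
  simp

/-- **S5075-OPP.** -/
theorem hasOpp_of_pCore [Finite V] (hp2 : p ≠ 2) (G : Subgroup (V ≃ₗ[ZMod p] V))
    (hO : Cfsg.pCore p ↥G = ⊥) : HasOpp G := by
  classical
  intro a φ hr
  by_contra hno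
  push Not at hno
  obtain ⟨ha, hφ, hφa, t, htG, ht⟩ := hr
  have hfin : Finite (V ≃ₗ[ZMod p] V) :=
    Finite.of_injective (fun f : V ≃ₗ[ZMod p] V => (f : V → V)) DFunLike.coe_injective
  have hfinG : Finite ↥G := inferInstance
  -- the exponent-`p` property for all conjugates
  have hexp : ∀ g ∈ G, ∀ u ∈ Subgroup.closure ({t, g * t * g⁻¹} : Set (V ≃ₗ[ZMod p] V)),
      u ^ p = 1 := by
    intro g hg
    have hroot : Root G (g a) (φ ∘ₗ (g.symm : V →ₗ[ZMod p] V)) :=
      Root.map ⟨ha, hφ, hφa, t, htG, ht⟩ hg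
    have hs : ∀ x, (g * t * g⁻¹) x = x + (φ ∘ₗ (g.symm : V →ₗ[ZMod p] V)) x • g a := by
      intro x
      have e : g⁻¹ x = g.symm x := rfl
      rw [LinearEquiv.mul_apply, LinearEquiv.mul_apply, e, ht, map_add, map_smul,
        LinearEquiv.apply_symm_apply]
      rfl
    have hψb : (φ ∘ₗ (g.symm : V →ₗ[ZMod p] V)) (g a) = 0 := hroot.2.2.1
    by_cases hψa : (φ ∘ₗ (g.symm : V →ₗ[ZMod p] V)) a = 0
    · exact heis_pow_p hp2 hφa hψb hψa ht hs
    · have hφb : φ (g a) = 0 := hno _ _ hroot hψa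
      have := heis_pow_p hp2 hψb hφa hφb hs ht
      rw [Set.pair_comm]
      exact this
  -- Baer–Suzuki
  let t' : ↥G := ⟨t, htG⟩
  have hX : IsPGroup p (Subgroup.zpowers t') := by
    intro u
    refine ⟨1, ?_⟩
    rw [pow_one]
    have h1 : ((u : ↥G) : V ≃ₗ[ZMod p] V) ∈
        Subgroup.closure ({t, 1 * t * 1⁻¹} : Set (V ≃ₗ[ZMod p] V)) := by
      obtain ⟨k, hk⟩ := Subgroup.mem_zpowers_iff.1 u.2
      rw [← hk]
      have : ((t' ^ k : ↥G) : V ≃ₗ[ZMod p] V) = t ^ k := rfl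
      rw [this]
      exact Subgroup.zpow_mem _ (Subgroup.subset_closure (Set.mem_insert _ _)) k
    have h2 := hexp 1 G.one_mem _ h1
    apply Subtype.ext
    apply Subtype.ext
    exact h2
  have hpair : ∀ g : ↥G, IsPGroup p
      ↥(Subgroup.zpowers t' ⊔ (Subgroup.zpowers t').map (MulAut.conj g).toMonoidHom) := by
    intro g
    have hle : Subgroup.zpowers t' ⊔ (Subgroup.zpowers t').map (MulAut.conj g).toMonoidHom ≤
        (Subgroup.closure ({t, (g : V ≃ₗ[ZMod p] V) * t * (g : V ≃ₗ[ZMod p] V)⁻¹} :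
          Set (V ≃ₗ[ZMod p] V))).comap G.subtype := by
      apply sup_le
      · rw [Subgroup.zpowers_le]
        exact Subgroup.subset_closure (Set.mem_insert _ _)
      · rw [Subgroup.map_le_iff_le_comap, Subgroup.zpowers_le]
        exact Subgroup.subset_closure (Set.mem_insert_of_mem _ rfl)
    intro u
    refine ⟨1, ?_⟩
    rw [pow_one]
    have h2 := hexp g g.2 _ (hle u.2)
    apply Subtype.ext
    apply Subtype.ext
    exact h2
  obtain ⟨N, hN, hNp, hXN⟩ := Cfsg.Agent.H5.baer_suzuki (Subgroup.zpowers t') hX hpair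
  have hNle : N ≤ Cfsg.pCore p ↥G := le_sSup ⟨hN, hNp⟩
  rw [hO] at hNle
  have ht1 : t' = 1 := (Subgroup.mem_bot).1 (hNle (hXN (Subgroup.mem_zpowers t')))
  have ht1' : t = 1 := congrArg Subtype.val ht1
  -- contradiction: `t ≠ 1`
  obtain ⟨x, hx⟩ : ∃ x, φ x ≠ 0 := by
    by_contra hall
    push Not at hall
    exact hφ (LinearMap.ext hall)
  have h3 := ht x
  rw [ht1', LinearEquiv.coe_one, id_eq] at h3
  have h4 : φ x • a = 0 := by
    have := h3
    rwa [left_eq_add] at this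
  rcases smul_eq_zero.1 h4 with h5 | h5
  · exact hx h5
  · exact ha h5

end Cfsg.Agent.H28.McL
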