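import Cfsg.Agent.H87.PrimeIdx
import Cfsg.Agent.H87.CentricExt
import Cfsg.Agent.H87.BCExt

/-!
# Every coset of `K` in `Aut_F(T)` contains the restriction of an automorphism of `S`
(S5243-SURJ, helper28)
-/

set_option autoImplicit false

namespace Cfsg.Agent.H28.Oliver

open Cfsg Cfsg.FusionSystem Cfsg.Agent.H86

variable {Ω : Type*} [Group Ω] {S : Subgroup Ω}

/-- **S5243-SURJ.** -/
theorem exists_aut_top [Finite S] {p : ℕ} [Fact p.Prime] (hS : IsPGroup p S) {F : FusionSystem S}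
    (hF : F.IsSaturated p) {T : Subgroup Ω} (hT : F.StronglyClosed T) {K : Subgroup (MulAut T)}
    (hKn : ∀ a ∈ F.autGroup T, ∀ k ∈ K, a * k * a⁻¹ ∈ K)
    (hKp : ∀ a ∈ F.autGroup T, ∀ n : ℕ, a ^ (p ^ n) ∈ K → a ∈ K) {a : Ω → Ω} (ha : Mor F T a)
    (haT : imgS T a = T) :
    ∃ α, Mor F S α ∧ imgS S α = S ∧ ∃ k ∈ K, ∀ t ∈ T, α t = a (autFun T k t) := by
  classical
  have hTS : T ≤ S := hT.1
  have : Finite T := finite_of_le hTS
  have hsc := (stronglyClosed_iff.1 hT).2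
  -- `T` is fully automized and receptive
  obtain ⟨Q, hconj, hfa, hrec⟩ := hF T hTS
  have hQT : Q = T := by
    obtain ⟨f, hf, rfl⟩ := isConj_iff.1 hconj
    exact imgS_eq_of_maps hf (hsc T f le_rfl hf)
  rw [hQT] at hfa hrec
  obtain ⟨R, hR⟩ := hfa.2
  have : Finite (MulAut T) := inferInstance
  have : Finite (F.autGroup T) := inferInstance
  have hyF : mkAut ha haT ∈ F.autGroup T := mkAut_mem ha haT
  obtain ⟨n, hn, m, hm, hynm⟩ :=
    Cfsg.Agent.H87.exists_mul_normalizer_sylow R (⟨mkAut ha haT, hyF⟩ : F.autGroup T)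
  -- `n ∈ K`
  have hnK : (n : MulAut T) ∈ K := by
    have hle : Subgroup.closure {α : F.autGroup T | ∃ k : ℕ, orderOf α = p ^ k} ≤
        K.comap (F.autGroup T).subtype := by
      rw [Subgroup.closure_le]
      rintro α ⟨k, hk⟩
      show (α : MulAut T) ∈ K
      apply hKp _ α.2 k
      have h1 : α ^ (p ^ k) = 1 := by
        rw [← hk]
        exact pow_orderOf_eq_one α
      have h2 : (α : MulAut T) ^ (p ^ k) = 1 := by
        have := congrArg Subtype.val h1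
        simpa using this
      rw [h2]
      exact K.one_mem
    exact hle hn
  -- the extension of `m`
  obtain ⟨μ, hμ⟩ : ∃ μ : MulAut T, μ = (m : MulAut T) := ⟨_, rfl⟩
  have hμF : μ ∈ F.autGroup T := hμ ▸ m.2
  have hμm : Mor F T (autFun T μ) := (mem_autGroup_iff hTS μ).1 hμF
  have hconjT : ∀ g ∈ S, ∀ x ∈ T, g * x * g⁻¹ ∈ T :=
    fun g hg x hx => hsc T _ le_rfl (Mor.conj F hTS hg) x hx
  have hnormT : ∀ g ∈ S, g ∈ Subgroup.normalizer (T : Set Ω) := by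
    intro g hg
    rw [Subgroup.mem_normalizer_iff]
    intro x
    refine ⟨hconjT g hg x, fun hx => ?_⟩
    have := hconjT g⁻¹ (S.inv_mem hg) _ hx
    simpa [mul_assoc] using this
  have hext : ∀ g ∈ S, g ∈ S ∧ g ∈ Subgroup.normalizer (T : Set Ω) ∧
      ∃ h ∈ S, ∀ x ∈ T, autFun T μ (g * x * g⁻¹) = h * autFun T μ x * h⁻¹ := by
    intro g hg
    refine ⟨hg, hnormT g hg, ?_⟩
    obtain ⟨γ, hγ⟩ := exists_conjAut (hnormT g hg)
    have hγS : γ ∈ autInducedBy S T := (mem_autInducedBy_iff S T γ).2 ⟨g, hg, hγ⟩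
    have hγF : γ ∈ F.autGroup T := autInducedBy_le_autGroup F hTS hγS
    have hγR : (⟨γ, hγF⟩ : F.autGroup T) ∈ (R : Subgroup (F.autGroup T)) := by
      rw [hR]
      exact hγS
    have h1 : m * ⟨γ, hγF⟩ * m⁻¹ ∈ (R : Subgroup (F.autGroup T)) :=
      (Subgroup.mem_normalizer_iff.1 hm _).1 hγR
    rw [hR] at h1
    have h1' : μ * γ * μ⁻¹ ∈ autInducedBy S T := by
      rw [hμ]
      exact h1
    obtain ⟨h, hhS, hh⟩ := (mem_autInducedBy_iff S T _).1 h1'
    refine ⟨h, hhS, fun x hx => ?_⟩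
    have h2 := hh (μ ⟨x, hx⟩)
    have h3 : (μ * γ * μ⁻¹) (μ ⟨x, hx⟩) = μ (γ ⟨x, hx⟩) := by
      simp [MulAut.mul_apply]
    rw [h3] at h2
    have hmem : g * x * g⁻¹ ∈ T := hconjT g hg x hx
    have h4 : γ ⟨x, hx⟩ = ⟨g * x * g⁻¹, hmem⟩ := Subtype.ext (hγ ⟨x, hx⟩)
    rw [h4] at h2
    rw [autFun_of_mem _ hmem, autFun_of_mem _ hx]
    exact h2
  obtain ⟨α, hα, hαeq⟩ := receptive_extend hrec hμm (imgS_autFun hμm) hTS hext
  refine ⟨α, hα, imgS_eq_of_maps hα (fun x hx => hα.mem hx), ?_⟩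
  refine ⟨(mkAut ha haT)⁻¹ * (n : MulAut T)⁻¹ * mkAut ha haT, ?_, fun t ht => ?_⟩
  · have := hKn (mkAut ha haT)⁻¹ ((F.autGroup T).inv_mem hyF) _ (K.inv_mem hnK)
    simpa using this
  · rw [hαeq t ht]
    have hμeq : μ = mkAut ha haT * ((mkAut ha haT)⁻¹ * (n : MulAut T)⁻¹ * mkAut ha haT) := by
      have h1 : mkAut ha haT = (n : MulAut T) * μ := by
        rw [hμ]
        exact congrArg Subtype.val hynm
      have h2 : μ = (n : MulAut T)⁻¹ * mkAut ha haT := by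
        rw [h1]
        group
      rw [h2]
      group
    rw [hμeq, autFun_mul _ _ ht, autFun_mkAut ha haT (autFun_mem _ ht)]

end Cfsg.Agent.H28.Oliver
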