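import Mathlib
import Cfsg.Prelude.Def_Blocks
import Cfsg.Prelude.Def_Characters
import Cfsg.Agent.S0907
import Cfsg.Agent.H21.ResidueTrick

/-!
# S0977-DIV (helper28): `|Sylow q|` divides the `q`-principal-block part of the column of a
`q`-regular element.
-/

set_option autoImplicit false

namespace Cfsg.Agent.H28.Ord4320

open Cfsg
open scoped ComplexConjugate

/-- **S0977-DIV.** -/
theorem sylow_dvd_block_inter {G : Type*} [Group G] [Finite G] (q : ℕ) [Fact q.Prime]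
    (M : Ideal AlgInt) (hM : IsPModular q M) (x : G) (hx : ¬ q ∣ orderOf x)
    (B : Finset (IrrCharacter G)) (ε : IrrCharacter G → ℤ)
    (hin : ∀ ψ ∈ B, (ψ : G → ℂ) x = (ε ψ : ℂ))
    (hout : ∀ ψ : IrrCharacter G, ψ ∉ B → (ψ : G → ℂ) x = 0)
    (Q : Sylow q G) :
    ∃ T : Finset (IrrCharacter G), (∀ ψ, ψ ∈ T ↔ ψ ∈ B ∧ ψ ∈ principalBlock M G) ∧
      (Nat.card (Q : Subgroup G) : ℤ) ∣ ∑ ψ ∈ T, ε ψ * (charDegree (ψ : G → ℂ) : ℤ) := by
  classical
  have hfinIrr : Finite (IrrCharacter G) := Cfsg.Agent.H4.finite_irr G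
  have hfin : (principalBlock M G).Finite := Set.toFinite _
  obtain ⟨T, hTdef⟩ : ∃ T : Finset (IrrCharacter G),
      T = B.filter (fun ψ => ψ ∈ principalBlock M G) := ⟨_, rfl⟩
  have hT : ∀ ψ, ψ ∈ T ↔ ψ ∈ B ∧ ψ ∈ principalBlock M G := by
    intro ψ
    rw [hTdef, Finset.mem_filter]
  let _ : Fintype (Q : Subgroup G) := Fintype.ofFinite _
  have hm : ∀ ψ : IrrCharacter G, ∃ d : ℕ,
      ∑ y : (Q : Subgroup G), (ψ : G → ℂ) (y : G) = (Nat.card (Q : Subgroup G) : ℂ) * d := by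
    intro ψ
    obtain ⟨d, hd⟩ := Cfsg.Agent.H4.classInner_isCharacter_nat
      (Cfsg.Agent.H4.isCharacter_restrict (Q : Subgroup G)
        (Cfsg.Agent.H4.isCharacter_of_isIrrCharacter ψ.2))
      (Cfsg.Agent.H4.isCharacter_of_isIrrCharacter
        (Cfsg.Agent.H4.isIrrCharacter_one (G := (Q : Subgroup G))))
    unfold classInner at hd
    refine ⟨d, ?_⟩
    have hQ0 : (Nat.card (Q : Subgroup G) : ℂ) ≠ 0 := by
      exact_mod_cast (Nat.card_pos (α := (Q : Subgroup G))).ne'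
    have hd' : (Nat.card (Q : Subgroup G) : ℂ)⁻¹ *
        ∑ g : (Q : Subgroup G), (ψ : G → ℂ) (g : G) = d := by
      simpa using hd
    rw [← hd']
    field_simp
  have hB : IsPBlock M (principalBlock M G) :=
    ⟨⟨fun _ => 1, Cfsg.Agent.H4.isIrrCharacter_one⟩, rfl⟩
  have hwbo : ∀ y ∈ (Q : Subgroup G), y ≠ 1 →
      ∑ ψ ∈ T, (ε ψ : ℂ) * conj ((ψ : G → ℂ) y) = 0 := by
    intro y hy hy1
    have hqy : q ∣ orderOf y := by
      obtain ⟨k, hk⟩ := (IsPGroup.iff_orderOf.1 Q.isPGroup') ⟨y, hy⟩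
      rw [Subgroup.orderOf_mk] at hk
      rw [hk]
      have hk0 : k ≠ 0 := by
        rintro rfl
        rw [pow_zero, orderOf_eq_one_iff] at hk
        exact hy1 hk
      exact dvd_pow_self q hk0
    have h0 := Cfsg.Agent.S0907.result q M hM (principalBlock M G) hB x y hx hqy
    rw [finsum_mem_eq_finite_toFinset_sum _ hfin] at h0
    rw [← h0]
    have hsub : T ⊆ hfin.toFinset := by
      intro ψ hψ
      rw [Set.Finite.mem_toFinset]
      exact ((hT ψ).1 hψ).2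
    rw [← Finset.sum_subset hsub]
    · apply Finset.sum_congr rfl
      intro ψ hψ
      rw [hin ψ ((hT ψ).1 hψ).1]
    · intro ψ hψ hψT
      have hnB : ψ ∉ B := fun hB' =>
        hψT ((hT ψ).2 ⟨hB', (Set.Finite.mem_toFinset hfin).1 hψ⟩)
      rw [hout ψ hnB, zero_mul]
  have hsum : ∑ y : (Q : Subgroup G), ∑ ψ ∈ T, (ε ψ : ℂ) * conj ((ψ : G → ℂ) (y : G)) =
      ∑ ψ ∈ T, (ε ψ : ℂ) * (charDegree (ψ : G → ℂ) : ℂ) := by
    rw [← Finset.add_sum_erase Finset.univ _ (Finset.mem_univ (1 : (Q : Subgroup G)))]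
    rw [Finset.sum_eq_zero (s := Finset.univ.erase (1 : (Q : Subgroup G))), add_zero]
    · apply Finset.sum_congr rfl
      intro ψ _
      rw [Subgroup.coe_one, (Cfsg.Agent.H81.irr_charDegree ψ).1, Complex.conj_natCast]
    · intro y hy
      rw [Finset.mem_erase] at hy
      exact hwbo y y.2 (fun h => hy.1 (Subtype.ext h))
  rw [Finset.sum_comm] at hsum
  choose m hm using hm
  have hsum2 : ∑ ψ ∈ T, (ε ψ : ℂ) * (charDegree (ψ : G → ℂ) : ℂ) =
      (Nat.card (Q : Subgroup G) : ℂ) * ∑ ψ ∈ T, (ε ψ : ℂ) * (m ψ : ℂ) := by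
    rw [← hsum, Finset.mul_sum]
    apply Finset.sum_congr rfl
    intro ψ _
    rw [← Finset.mul_sum, ← map_sum, hm ψ]
    simp only [map_mul, map_natCast]
    ring
  refine ⟨T, hT, ∑ ψ ∈ T, ε ψ * (m ψ : ℤ), ?_⟩
  exact_mod_cast hsum2

end Cfsg.Agent.H28.Ord4320
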