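import Mathlib
import Cfsg.Prelude.Def_Blocks
import Cfsg.Prelude.Def_Characters
import Cfsg.Agent.H21.ResidueTrick

/-!
# S0977-INV4 (helper28): a degree-4 irreducible character of a non-abelian simple group
vanishes on involutions.
-/

set_option autoImplicit false

namespace Cfsg.Agent.H28.Ord4320

open Cfsg
open scoped ComplexConjugate
open Polynomial

theorem sign_multiset (R : Multiset ℂ) (h : ∀ μ ∈ R, μ = 1 ∨ μ = -1) :
    ∃ k : ℕ, k ≤ Multiset.card R ∧ R.prod = (-1) ^ k ∧
      R.sum = (Multiset.card R : ℂ) - 2 * k ∧ (k = Multiset.card R → ∀ μ ∈ R, μ = -1) := by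
  induction R using Multiset.induction with
  | empty => exact ⟨0, le_rfl, by simp, by simp, by simp⟩
  | cons a R ih =>
    obtain ⟨k, hk, hp, hs, hall⟩ := ih (fun μ hμ => h μ (Multiset.mem_cons_of_mem hμ))
    rcases h a (Multiset.mem_cons_self a R) with rfl | rfl
    · refine ⟨k, by rw [Multiset.card_cons]; omega, by rw [Multiset.prod_cons, hp, one_mul],
        by rw [Multiset.sum_cons, hs, Multiset.card_cons]; push_cast; ring, ?_⟩
      intro hk'
      rw [Multiset.card_cons] at hk'
      omega
    · refine ⟨k + 1, by rw [Multiset.card_cons]; omega,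
        by rw [Multiset.prod_cons, hp, pow_succ]; ring,
        by rw [Multiset.sum_cons, hs, Multiset.card_cons]; push_cast; ring, ?_⟩
      intro hk' μ hμ
      rw [Multiset.card_cons] at hk'
      rcases Multiset.mem_cons.1 hμ with rfl | hμ'
      · rfl
      · exact hall (by omega) μ hμ'

theorem invol_trace (A : Matrix (Fin 4) (Fin 4) ℂ) (hA : A * A = 1) (hdet : A.det = 1) :
    A.trace = 0 ∨ A.trace = 4 ∨ A = -1 := by
  have hsplit := IsAlgClosed.splits A.charpoly
  have hcard : Multiset.card A.charpoly.roots = 4 := by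
    rw [← hsplit.natDegree_eq_card_roots, Matrix.charpoly_natDegree_eq_dim]
    simp
  have hroot : ∀ μ ∈ A.charpoly.roots, μ = 1 ∨ μ = -1 := by
    intro μ hμ
    have hr : A.charpoly.IsRoot μ := (Polynomial.mem_roots (A.charpoly_monic.ne_zero)).1 hμ
    have h0 : (Matrix.scalar (Fin 4) μ - A).det = 0 := by
      rw [← Matrix.eval_charpoly]
      exact hr
    have hsc : Matrix.scalar (Fin 4) μ = μ • (1 : Matrix (Fin 4) (Fin 4) ℂ) := by
      ext i j
      simp [Matrix.scalar_apply, Matrix.diagonal_apply, Matrix.one_apply]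
    rw [hsc] at h0
    have hprod : (μ • (1 : Matrix (Fin 4) (Fin 4) ℂ) - A) * (μ • (1 : Matrix (Fin 4) (Fin 4) ℂ) + A)
        = (μ ^ 2 - 1) • (1 : Matrix (Fin 4) (Fin 4) ℂ) := by
      calc (μ • (1 : Matrix (Fin 4) (Fin 4) ℂ) - A) * (μ • (1 : Matrix (Fin 4) (Fin 4) ℂ) + A)
          = (μ * μ) • (1 : Matrix (Fin 4) (Fin 4) ℂ) - A * A := by
            simp only [sub_mul, mul_add, smul_mul_assoc, mul_smul_comm, one_mul, mul_one]
            module
        _ = (μ ^ 2 - 1) • (1 : Matrix (Fin 4) (Fin 4) ℂ) := by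
            rw [hA, sub_smul, one_smul, pow_two]
    have hdet2 := congrArg Matrix.det hprod
    rw [Matrix.det_mul, h0, zero_mul, Matrix.det_smul, Matrix.det_one, mul_one] at hdet2
    have h1 : μ ^ 2 - 1 = 0 := by
      have := hdet2.symm
      exact pow_eq_zero_iff (by simp) |>.1 this
    have h2 : (μ - 1) * (μ + 1) = 0 := by linear_combination h1
    rcases mul_eq_zero.1 h2 with h | h
    · left; linear_combination h
    · right; linear_combination h
  obtain ⟨k, hk, hp, hs, hall⟩ := sign_multiset _ hroot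
  rw [hcard] at hk hs hall
  have hdet' : (-1 : ℂ) ^ k = 1 := by
    rw [← hp, ← Matrix.det_eq_prod_roots_charpoly, hdet]
  have htr : A.trace = 4 - 2 * k := by
    rw [Matrix.trace_eq_sum_roots_charpoly, hs]
    norm_num
  interval_cases k
  · right; left; rw [htr]; norm_num
  · exfalso; norm_num at hdet'
  · left; rw [htr]; norm_num
  · exfalso; norm_num at hdet'
  · right; right
    have hroots : A.charpoly.roots = Multiset.replicate 4 (-1) :=
      Multiset.eq_replicate.2 ⟨hcard, hall rfl⟩
    have hcp : A.charpoly = (X - C (-1 : ℂ)) ^ 4 := by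
      rw [hsplit.eq_prod_roots_of_monic A.charpoly_monic, hroots]
      simp
      ring
    have hCH := Matrix.aeval_self_charpoly A
    rw [hcp] at hCH
    have h4 : (A + 1) ^ 4 = 0 := by
      simpa using hCH
    have h2 : (A + 1) * (A + 1) = (2 : ℂ) • (A + 1) := by
      rw [mul_add, add_mul, add_mul, hA, two_smul]
      simp only [one_mul, mul_one]
      abel
    have h8 : (A + 1) ^ 4 = (8 : ℂ) • (A + 1) := by
      have e : (A + 1) ^ 4 = ((A + 1) * (A + 1)) * ((A + 1) * (A + 1)) := by
        rw [pow_succ, pow_succ, pow_succ, pow_one, mul_assoc]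
      rw [e, h2, smul_mul_assoc, mul_smul_comm, h2, smul_smul, smul_smul]
      norm_num
    rw [h8] at h4
    have h5 : A + 1 = 0 := by
      rcases smul_eq_zero.1 h4 with h | h
      · norm_num at h
      · exact h
    exact eq_neg_of_add_eq_zero_left h5

/-- **S0977-INV4.** -/
theorem invol_deg_four {G : Type*} [Group G] [Finite G] [IsSimpleGroup G]
    (hna : ∃ u v : G, u * v ≠ v * u) (χ : IrrCharacter G) (h4 : (χ : G → ℂ) 1 = 4)
    (t : G) (ht : orderOf t = 2) : (χ : G → ℂ) t = 0 := by
  classical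
  obtain ⟨n, ρ, hirr, hχ⟩ := χ.2
  have hn : n = 4 := by
    have h1 : (χ : G → ℂ) 1 = (n : ℂ) := by
      rw [← hχ, Representation.char_one, Module.finrank_fin_fun]
    rw [h4] at h1
    exact_mod_cast h1.symm
  subst hn
  have ht1 : t ≠ 1 := by
    intro h
    rw [h, orderOf_one] at ht
    omega
  have htt : t * t = 1 := by
    have := pow_orderOf_eq_one t
    rw [ht, pow_two] at this
    exact this
  -- the determinant is trivial
  have hdet : ∀ g : G, LinearMap.det (ρ g) = 1 := by
    obtain ⟨D, hD⟩ : ∃ D : G →* ℂ, ∀ g, D g = LinearMap.det (ρ g) :=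
      ⟨LinearMap.det.comp ρ, fun g => rfl⟩
    rcases (MonoidHom.normal_ker D.toHomUnits).eq_bot_or_eq_top with hb | htop
    · exfalso
      obtain ⟨u, v, huv⟩ := hna
      apply huv
      have hinj : Function.Injective D.toHomUnits := (MonoidHom.ker_eq_bot_iff _).1 hb
      apply hinj
      rw [map_mul, map_mul, mul_comm]
    · intro g
      have hg : g ∈ D.toHomUnits.ker := by
        rw [htop]
        exact Subgroup.mem_top g
      have h1 : D.toHomUnits g = 1 := hg
      have h2 := congrArg (fun u : ℂˣ => (u : ℂ)) h1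
      rw [← hD]
      simpa [MonoidHom.coe_toHomUnits] using h2
  obtain ⟨A, hAdef⟩ : ∃ A : Matrix (Fin 4) (Fin 4) ℂ, A = LinearMap.toMatrix' (ρ t) := ⟨_, rfl⟩
  have hAA : A * A = 1 := by
    rw [hAdef, ← LinearMap.toMatrix'_mul, ← map_mul, htt, map_one, LinearMap.toMatrix'_one]
  have hAdet : A.det = 1 := by
    rw [hAdef, LinearMap.det_toMatrix']
    exact hdet t
  have hAtr : A.trace = (χ : G → ℂ) t := by
    rw [← hχ]
    show _ = LinearMap.trace ℂ _ (ρ t)
    rw [LinearMap.trace_eq_matrix_trace ℂ (Pi.basisFun ℂ (Fin 4)),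
      LinearMap.toMatrix_eq_toMatrix', hAdef]
  have hχ1 : (χ : G → ℂ) 1 ≠ 1 := by
    rw [h4]
    norm_num
  rcases invol_trace A hAA hAdet with h | h | h
  · rw [← hAtr]
    exact h
  · exfalso
    exact Cfsg.Agent.H21.ResidueTrick.irr_apply_ne_degree χ hχ1 t ht1 (by rw [← hAtr, h, h4])
  · exfalso
    have hρt : ρ t = -1 := by
      apply LinearMap.toMatrix'.injective
      rw [← hAdef, h]
      simp
    have htinv : t⁻¹ = t := inv_eq_of_mul_eq_one_right htt
    have hcent : ∀ g : G, t * g * t⁻¹ * g⁻¹ = 1 := by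
      intro g
      by_contra hne
      apply Cfsg.Agent.H21.ResidueTrick.irr_apply_ne_degree χ hχ1 _ hne
      rw [← hχ]
      show LinearMap.trace ℂ _ (ρ (t * g * t⁻¹ * g⁻¹)) = LinearMap.trace ℂ _ (ρ 1)
      congr 1
      rw [map_mul, map_mul, map_mul, htinv, hρt, map_one]
      have h1 : ρ g * ρ g⁻¹ = 1 := by rw [← map_mul, mul_inv_cancel, map_one]
      apply LinearMap.ext
      intro v
      have h2 : ρ g (ρ g⁻¹ v) = v := by
        simp
      simp [Module.End.mul_apply, h2]
    obtain ⟨u, v, huv⟩ := hna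
    have hc : t ∈ Subgroup.center G := by
      rw [Subgroup.mem_center_iff]
      intro g
      have h1 := hcent g
      have h2 : t * g = g * t := by
        calc t * g = (t * g * t⁻¹ * g⁻¹) * g * t := by group
          _ = g * t := by rw [h1, one_mul]
      exact h2.symm
    have hZ : Subgroup.center G = ⊤ := by
      rcases (inferInstance : (Subgroup.center G).Normal).eq_bot_or_eq_top with hb | h
      · exfalso
        rw [hb, Subgroup.mem_bot] at hc
        exact ht1 hc
      · exact h
    apply huv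
    have hu : u ∈ Subgroup.center G := by
      rw [hZ]
      exact Subgroup.mem_top u
    exact (Subgroup.mem_center_iff.1 hu v).symm

end Cfsg.Agent.H28.Ord4320
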