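import Cfsg.Agent.H28.PLocal2
import Cfsg.Agent.H27.PComp2
import Cfsg.Agent.H29.Transport

/-!
# `p`-constraint passes to subnormal subgroups and to centralizers of `p`-subgroups
-/

namespace Cfsg.Agent.H28

open Cfsg

universe u

section finite

variable {G : Type u} [Group G] [Finite G]

/-- `p`-constraint is invariant under isomorphism. -/
theorem isPConstrained_of_mulEquiv {A B : Type u} [Group A] [Group B] [Finite A] [Finite B]
    (p : ℕ) [Fact p.Prime] (e : A ≃* B) (h : IsPConstrained p A) : IsPConstrained p B := by
  rw [isPConstrained_iff_pLayer_eq_bot] at h ⊢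
  rw [← H29.pLayer_map_equiv p e, h, Subgroup.map_bot]

/-- A subnormal subgroup of a `p`-constrained group is `p`-constrained. -/
theorem isPConstrained_of_isSubnormal (p : ℕ) [Fact p.Prime] (h : IsPConstrained p G)
    {K : Subgroup G} (hK : K.IsSubnormal) : IsPConstrained p ↥K := by
  have hE := layer_eq_bot_of_isPConstrained p h
  have hKb : (K.map (QuotientGroup.mk' (pPrimeCore p G))).IsSubnormal :=
    hK.map (QuotientGroup.mk'_surjective _)
  have hEK : layer ↥(K.map (QuotientGroup.mk' (pPrimeCore p G))) = ⊥ := by
    rw [layer_eq_bot_iff] at hE ⊢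
    intro C hC
    exact hE _ (H27.isComponent_map_subtype hKb hC)
  exact isPConstrained_of_layer_eq_bot p
    (layer_eq_bot_of_mulEquiv (H27.subnormalQuotEquiv p hK) hEK)

/-- In a `p`-constrained group, normalizers and centralizers of `p`-subgroups are
`p`-constrained. -/
theorem isPConstrained_normalizer_centralizer (p : ℕ) [Fact p.Prime] (h : IsPConstrained p G)
    (P : Subgroup G) (hP : IsPGroup p P) :
    IsPConstrained p ↥(Subgroup.normalizer (P : Set G)) ∧
      IsPConstrained p ↥(Subgroup.centralizer (P : Set G)) := by
  have hN : IsPConstrained p ↥(Subgroup.normalizer (P : Set G)) :=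
    isPConstrained_of_layer_eq_bot p (normalizer_of_isPConstrained p h P hP).1
  refine ⟨hN, ?_⟩
  have hCN : Subgroup.centralizer (P : Set G) ≤ Subgroup.normalizer (P : Set G) :=
    Subgroup.centralizer_le_normalizer _
  have hn : ((Subgroup.centralizer (P : Set G)).subgroupOf (Subgroup.normalizer (P : Set G))).Normal :=
    (Subgroup.normal_subgroupOf_iff_le_normalizer hCN).2 (normalizer_le_normalizer_centralizer P)
  have h1 := isPConstrained_of_isSubnormal p hN (Subgroup.Normal.isSubnormal hn)
  exact isPConstrained_of_mulEquiv p (Subgroup.subgroupOfEquivOfLe hCN) h1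

end finite

end Cfsg.Agent.H28
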