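import Mathlib
import Cfsg.Prelude.Def_Characters
import Cfsg.Prelude.Def_Blocks
import Cfsg.Agent.H21.BRDefs
import Cfsg.Agent.S4441
import Cfsg.Agent.S0910
import Cfsg.Agent.H78.DefectZero
import Cfsg.Agent.H21.E2Block
import Cfsg.Agent.H21.E2Wbo
import Cfsg.Agent.H21.SimpleTools
import Cfsg.Agent.H81.BlockDeg
import Cfsg.Agent.H81.Reg
import Cfsg.Agent.H4.IrrCount
import Cfsg.Agent.H2.PrqDefs

/-!
# S0998-PAR (helper28, for helper2): parity analysis of the principal `p`-block of a simple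
group of order `2 ^ b * p * r`, `5 ≤ r < p`.

The non-principal non-exceptional characters of the principal block have even degree, the
exceptional degree is `r`, and the degree equation at `1` gives the divisibility statement.
-/

set_option autoImplicit false
set_option linter.style.haveILetI false

namespace Cfsg.Agent.H28.Prq

open Cfsg Cfsg.Agent.H21.BR

universe u

/-- An odd divisor `d ≥ 2` of `2 ^ b * r`, `r` prime, is `r`. -/
theorem odd_dvd_eq {r b d : ℕ} (hr : r.Prime) (hd2 : 2 ≤ d) (hodd : Odd d)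
    (hd : d ∣ 2 ^ b * r) : d = r := by
  have hcop : Nat.Coprime d (2 ^ b) := Nat.Coprime.pow_right b (Nat.coprime_two_right.mpr hodd)
  have h1 : d ∣ r := hcop.dvd_of_dvd_mul_left hd
  rcases (Nat.dvd_prime hr).1 h1 with h | h
  · omega
  · exact h

theorem par : Cfsg.Agent.H2.Prq.StmtPar.{u} := by
  intro G _ _ _ hG p r b _ hr hr5 hrp hcard P hP e he
  classical
  have hp : p.Prime := Fact.out
  have hp2 : p ≠ 2 := by omega
  have hna : ∃ u v : G, u * v ≠ v * u := by
    by_contra h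
    push Not at h
    apply hG
    letI : CommGroup G := { ‹Group G› with mul_comm := h }
    exact IsSimpleGroup.isCyclic
  have hGc : ¬ IsMulCommutative G := by
    intro hc
    obtain ⟨u, v, huv⟩ := hna
    exact huv (hc.is_comm.comm u v)
  obtain ⟨d, hd, hd1, hddvd, -⟩ := Cfsg.Agent.H21.simple_sylow_prime_card_NC hGc P hP
  rw [he] at hd
  have hedvd : e ∣ p - 1 := by rw [← hd]; exact hddvd
  clear hd hd1 hddvd d
  have he0 : 0 < e := Nat.pos_of_dvd_of_pos hedvd (by omega)
  have helt : e < p := by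
    have := Nat.le_of_dvd (by omega) hedvd
    omega
  let _ : Fintype G := Fintype.ofFinite G
  have := Cfsg.Agent.H4.finite_irr G
  obtain ⟨M, hM⟩ := Cfsg.Agent.H78.exists_isPModular p hp
  obtain ⟨X, Y, hB, hdisj, hX, hY, εX, ε, hXp, hε, hYdeg, hYeq, hYsum⟩ :=
    Cfsg.Agent.S4441.result p M hM hp2 P hP e he
  rw [Nat.card_coe_set_eq] at hX hY
  have hXfin : X.Finite := Set.toFinite _
  have hYfin : Y.Finite := Set.toFinite _
  have hval1 : ∀ ζ : IrrCharacter G, (ζ : G → ℂ) 1 = (charDegree (ζ : G → ℂ) : ℂ) :=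
    fun ζ => (Cfsg.Agent.H81.irr_charDegree ζ).1
  have hpos : ∀ ζ : IrrCharacter G, 0 < charDegree (ζ : G → ℂ) :=
    fun ζ => (Cfsg.Agent.H81.irr_charDegree ζ).2
  have h0B : one G ∈ principalBlock M G := Cfsg.Agent.H81.mem_blockOf_self hM (one G)
  have hdeg0 : charDegree ((one G : IrrCharacter G) : G → ℂ) = 1 := by
    have := hval1 (one G)
    rw [Cfsg.Agent.H21.E2Block.triv_apply] at this
    exact_mod_cast this.symm
  have hXB : ∀ χ ∈ X, χ ∈ principalBlock M G := fun χ hχ => by rw [hB]; exact Or.inl hχ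
  have hYB : ∀ χ ∈ Y, χ ∈ principalBlock M G := fun χ hχ => by rw [hB]; exact Or.inr hχ
  -- nontrivial members of the principal block have degree at least 2
  have hge2 : ∀ χ ∈ principalBlock M G, χ ≠ one G → 2 ≤ charDegree (χ : G → ℂ) := by
    intro χ hχ hne
    have h1 : charDegree (χ : G → ℂ) ≠ 1 := by
      intro h1
      have hdeg : (χ : G → ℂ) 1 = ((p : ℕ) : ℂ) ^ 0 := by rw [hval1, h1]; simp
      have := Cfsg.Agent.S0910.result p M hM hna χ hχ 0 hdeg
      exact hne (Subtype.ext this)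
    have := hpos χ
    omega
  have hreg1 : ¬ p ∣ orderOf (1 : G) := by
    rw [orderOf_one]; exact hp.not_dvd_one
  -- degrees prime to `p` divide `2 ^ b * r`
  have hdvd : ∀ ζ : IrrCharacter G, ¬ p ∣ charDegree (ζ : G → ℂ) →
      charDegree (ζ : G → ℂ) ∣ 2 ^ b * r := by
    intro ζ hζ
    have h1 := Cfsg.Agent.H81.irr_charDegree_dvd ζ
    rw [hcard] at h1
    have h2 : Nat.Coprime (charDegree (ζ : G → ℂ)) p :=
      Nat.Coprime.symm ((Nat.Prime.coprime_iff_not_dvd hp).2 hζ)
    have h3 : 2 ^ b * p * r = p * (2 ^ b * r) := by ring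
    rw [h3] at h1
    exact h2.dvd_of_dvd_mul_left h1
  -- members of `X` have degree prime to `p`
  have hXnd : ∀ χ ∈ X, ¬ p ∣ charDegree (χ : G → ℂ) := by
    intro χ hχ hdv
    obtain ⟨h1, h2, -⟩ := hXp χ hχ
    have h3 : (p : ℤ) ∣ (charDegree (χ : G → ℂ) : ℤ) := by exact_mod_cast hdv
    have h4 : (p : ℤ) ∣ εX χ := by
      have h5 := dvd_add h2.dvd h3
      simpa using h5
    have h6 : (p : ℤ) ∣ 1 := by
      rcases h1 with h1 | h1
      · rwa [h1] at h4
      · rw [h1] at h4; exact (dvd_neg).1 h4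
    have h7 : p ∣ 1 := by exact_mod_cast h6
    exact hp.not_dvd_one h7
  have hrodd : Odd r := hr.odd_of_ne_two (by omega)
  have hpodd : Odd p := hp.odd_of_ne_two hp2
  -- nontrivial members of `X` have even degree
  have hXeven : ∀ χ ∈ X, χ ≠ one G → Even (charDegree (χ : G → ℂ)) := by
    intro χ hχ hne
    by_contra hev
    have hodd : Odd (charDegree (χ : G → ℂ)) := Nat.not_even_iff_odd.1 hev
    have h2 := hge2 χ (hXB χ hχ) hne
    have h3 := odd_dvd_eq hr h2 hodd (hdvd χ (hXnd χ hχ))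
    obtain ⟨h4, h5, -⟩ := hXp χ hχ
    rw [h3] at h5
    rcases h4 with h4 | h4
    · rw [h4] at h5
      have h6 := h5.symm.dvd
      have h7 : p ∣ r - 1 := by
        have h8 : ((r - 1 : ℕ) : ℤ) = (r : ℤ) - 1 := by omega
        rw [← h8] at h6
        exact_mod_cast h6
      have := Nat.le_of_dvd (by omega) h7
      omega
    · rw [h4] at h5
      have h6 := h5.symm.dvd
      have h7 : p ∣ r + 1 := by
        have h8 : ((r + 1 : ℕ) : ℤ) = (r : ℤ) - (-1) := by push_cast; ring
        rw [← h8] at h6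
        exact_mod_cast h6
      have h8 := Nat.le_of_dvd (by omega) h7
      have h9 : r + 1 = p := by omega
      obtain ⟨k, hk⟩ := hrodd
      obtain ⟨l, hl⟩ := hpodd
      omega
  have hsumeven : ∀ S : Finset (IrrCharacter G), (∀ χ ∈ S, χ ∈ X ∧ χ ≠ one G) →
      (2 : ℤ) ∣ ∑ χ ∈ S, εX χ * (charDegree (χ : G → ℂ) : ℤ) := by
    intro S hS
    apply Finset.dvd_sum
    intro χ hχ
    obtain ⟨h1, h2⟩ := hS χ hχ
    have h3 := hXeven χ h1 h2
    have h4 : (2 : ℤ) ∣ (charDegree (χ : G → ℂ) : ℤ) := by exact_mod_cast h3.two_dvd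
    exact Dvd.dvd.mul_left h4 _
  -- the degree equation
  have hrel : ∀ θ ∈ Y, ε * (charDegree (θ : G → ℂ) : ℤ) =
      ∑ χ ∈ hXfin.toFinset, εX χ * (charDegree (χ : G → ℂ) : ℤ) := by
    intro θ hθ
    have h1 := hYsum θ hθ 1 hreg1
    rw [finsum_mem_eq_finite_toFinset_sum _ hXfin] at h1
    simp only [hval1] at h1
    exact_mod_cast h1
  -- the trivial character lies in `X`
  have h0X : one G ∈ X := by
    by_contra h0X
    have h0Y : one G ∈ Y := by
      rw [hB] at h0B
      rcases h0B with h | h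
      · exact absurd h h0X
      · exact h
    have h1 := hrel (one G) h0Y
    rw [hdeg0] at h1
    have h2 := hsumeven hXfin.toFinset (fun χ hχ => by
      rw [Set.Finite.mem_toFinset] at hχ
      exact ⟨hχ, fun h => h0X (h ▸ hχ)⟩)
    rw [← h1] at h2
    obtain ⟨k, hk⟩ := h2
    push_cast at hk
    rcases hε with h | h
    · rw [h] at hk; omega
    · rw [h] at hk; omega
  have hs0 : εX (one G) = 1 := by
    obtain ⟨h1, h2, -⟩ := hXp _ h0X
    rw [hdeg0] at h2
    have h3 := h2.dvd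
    rcases h1 with h1 | h1
    · exact h1
    · exfalso
      rw [h1] at h3
      have h4 : (p : ℤ) ∣ 2 := by
        have : (-1 : ℤ) - ((1 : ℕ) : ℤ) = -2 := by norm_num
        rw [this] at h3
        exact (dvd_neg).1 h3
      have h5 : p ∣ 2 := by exact_mod_cast h4
      have := Nat.le_of_dvd (by norm_num) h5
      omega
  -- an exceptional character
  have hYne : Y.Nonempty := by
    have h1 : 0 < (p - 1) / e := Nat.div_pos (Nat.le_of_dvd (by omega) hedvd) he0
    rw [← hY] at h1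
    exact (Set.ncard_pos hYfin).1 h1
  obtain ⟨θ, hθ⟩ := hYne
  have hθne : θ ≠ one G := fun h => Set.disjoint_left.1 hdisj h0X (h ▸ hθ)
  have hf2 := hge2 θ (hYB θ hθ) hθne
  have h0X' : one G ∈ hXfin.toFinset := by rw [Set.Finite.mem_toFinset]; exact h0X
  have hsplit : ε * (charDegree (θ : G → ℂ) : ℤ) =
      1 + ∑ χ ∈ hXfin.toFinset.erase (one G), εX χ * (charDegree (χ : G → ℂ) : ℤ) := by
    rw [hrel θ hθ, ← Finset.add_sum_erase _ _ h0X', hs0, hdeg0]
    simp
  have herase : ∀ χ ∈ hXfin.toFinset.erase (one G), χ ∈ X ∧ χ ≠ one G := by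
    intro χ hχ
    rw [Finset.mem_erase, Set.Finite.mem_toFinset] at hχ
    exact ⟨hχ.2, hχ.1⟩
  have h2sum := hsumeven _ herase
  have hfodd : Odd (charDegree (θ : G → ℂ)) := by
    obtain ⟨k, hk⟩ := h2sum
    rw [hk] at hsplit
    rw [Nat.odd_iff]
    rcases hε with h | h
    · rw [h] at hsplit; omega
    · rw [h] at hsplit; omega
  have hfnd : ¬ p ∣ charDegree (θ : G → ℂ) := by
    intro hdv
    have h1 := hYdeg θ hθ
    have h3 : (p : ℤ) ∣ (charDegree (θ : G → ℂ) : ℤ) := by exact_mod_cast hdv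
    have h4 : (p : ℤ) ∣ ε * (e : ℤ) := by
      have h5 := dvd_add h1.dvd h3
      simpa using h5
    have h6 : (p : ℤ) ∣ (e : ℤ) := by
      rcases hε with h | h
      · rw [h] at h4; simpa using h4
      · rw [h] at h4; simpa using h4
    have h7 : p ∣ e := by exact_mod_cast h6
    have := Nat.le_of_dvd he0 h7
    omega
  have hfr : charDegree (θ : G → ℂ) = r := odd_dvd_eq hr hf2 hfodd (hdvd θ hfnd)
  refine ⟨ε, hε, ?_, ?_⟩
  · have h1 := hYdeg θ hθ
    rw [hfr] at h1
    exact h1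
  · intro D hD
    rw [hfr] at hsplit
    have h1 : ε * (r : ℤ) - 1 =
        ∑ χ ∈ hXfin.toFinset.erase (one G), εX χ * (charDegree (χ : G → ℂ) : ℤ) := by
      rw [hsplit]; ring
    rw [h1]
    apply Finset.dvd_sum
    intro χ hχ
    obtain ⟨h2, h3⟩ := herase χ hχ
    have h4 : D ∣ charDegree (χ : G → ℂ) := by
      apply hD _ (hge2 χ (hXB χ h2) h3) (hdvd χ (hXnd χ h2))
      obtain ⟨h5, h6, -⟩ := hXp χ h2
      rcases h5 with h5 | h5
      · left; rw [h5] at h6; exact h6
      · right; rw [h5] at h6; exact h6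
    have h5 : (D : ℤ) ∣ (charDegree (χ : G → ℂ) : ℤ) := by exact_mod_cast h4
    exact Dvd.dvd.mul_left h5 _

end Cfsg.Agent.H28.Prq
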