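import Cfsg.Agent.H87.RedDefs
import Cfsg.Agent.H86.SuperSolFus

/-!
# The subgroup acting on `T` through `Aut_E(T)` is `T C_S(T)` (S5202-ACTB, helper28)
-/

set_option autoImplicit false

namespace Cfsg.Agent.H28.Red

open Cfsg Cfsg.FusionSystem Cfsg.Agent.H86 Cfsg.Agent.H87

universe u

variable {Ω : Type u} [Group Ω] {S T : Subgroup Ω}

/-- **S5202-ACTB.** -/
theorem actSub_autGroup [Finite S] {p : ℕ} [Fact p.Prime] (hS : IsPGroup p S)
    {T : Subgroup Ω} (hTS : T ≤ S) {E : FusionSystem T} (hE : E.IsSaturated p) :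
    actSub S T (E.autGroup T) = T ⊔ centralizerIn S T := by
  have hTfin : Finite T :=
    Finite.of_injective (Subgroup.inclusion hTS) (Subgroup.inclusion_injective hTS)
  apply le_antisymm
  · rintro x ⟨hxS, k, hk, hkx⟩
    -- `Inn T` is a Sylow `p`-subgroup of `Aut_E(T)`
    obtain ⟨Q, hTQ, hQa, -⟩ := hE T le_rfl
    have hQT : Q = T :=
      Subgroup.eq_of_le_of_card_ge (isConj_le_right hTQ) (le_of_eq (isConj_card hTQ).symm)
    rw [hQT] at hQa
    obtain ⟨R, hR⟩ := hQa.2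
    rw [autInducedBy_self] at hR
    have hn : ((Inn T).subgroupOf (E.autGroup T)).Normal := inn_subgroupOf_normal E T
    have hRn : (R : Subgroup (E.autGroup T)).Normal := by
      rw [hR]
      exact hn
    -- `k` lies in a `p`-subgroup of `Aut_E(T)`
    have hkA : k ∈ autInducedBy S T := (mem_autInducedBy_iff S T k).2 ⟨x, hxS, hkx⟩
    have hAp : IsPGroup p ((autInducedBy S T).subgroupOf (E.autGroup T)) :=
      (autInducedBy_isPGroup hS T).comap_subtype
    obtain ⟨Q', hQ'⟩ := hAp.exists_le_sylow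
    have huniq : Unique (Sylow p (E.autGroup T)) := Sylow.unique_of_normal R hRn
    have hQR : Q' = R := Subsingleton.elim _ _
    have hkR : (⟨k, hk⟩ : E.autGroup T) ∈ (R : Subgroup (E.autGroup T)) := by
      rw [← hQR]
      apply hQ'
      rw [Subgroup.mem_subgroupOf]
      exact hkA
    rw [hR, Subgroup.mem_subgroupOf] at hkR
    obtain ⟨t₀, ht₀, hkt⟩ := (mem_inn_iff k).1 hkR
    have hc : t₀⁻¹ * x ∈ centralizerIn S T := by
      refine ⟨S.mul_mem (S.inv_mem (hTS ht₀)) hxS, ?_⟩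
      show t₀⁻¹ * x ∈ Subgroup.centralizer (T : Set Ω)
      rw [Subgroup.mem_centralizer_iff]
      intro t ht
      have h1 := hkx ⟨t, ht⟩
      rw [hkt ⟨t, ht⟩] at h1
      have h2 : t₀ * t * t₀⁻¹ = x * t * x⁻¹ := h1
      calc t * (t₀⁻¹ * x) = t₀⁻¹ * (t₀ * t * t₀⁻¹) * x := by group
        _ = t₀⁻¹ * (x * t * x⁻¹) * x := by rw [h2]
        _ = t₀⁻¹ * x * t := by group
    have hx : x = t₀ * (t₀⁻¹ * x) := by group
    rw [hx]
    exact Subgroup.mul_mem_sup ht₀ hc
  · rw [sup_le_iff]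
    constructor
    · intro t ht
      refine ⟨hTS ht, MulAut.conj (⟨t, ht⟩ : T), ?_, fun s => ?_⟩
      · apply inn_le_autGroup E le_rfl
        exact ⟨⟨t, ht⟩, rfl⟩
      · simp [MulAut.conj_apply]
    · intro c hc
      refine ⟨hc.1, 1, (E.autGroup T).one_mem, fun s => ?_⟩
      have h1 := (Subgroup.mem_centralizer_iff.1 hc.2) (s : Ω) s.2
      show (s : Ω) = c * s * c⁻¹
      rw [← h1]
      group

end Cfsg.Agent.H28.Red
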