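import Cfsg.Agent.H87.RedDefs
import Cfsg.Agent.H86.SuperSolFus

/-!
# A normal subsystem stays normal in a subsystem of `p`-power index over a subgroup containing
`T C_S(T)` (S5202-NORPPOW, helper28)
-/

set_option autoImplicit false

namespace Cfsg.Agent.H28.Red

open Cfsg Cfsg.FusionSystem Cfsg.Agent.H86 Cfsg.Agent.H87

universe u

variable {Ω : Type u} [Group Ω] {S T : Subgroup Ω}

/-- `β` on `Q` extends `α` on `T` and moves `C` inside cosets of `Z(T)`. -/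
def ExtRel (T C Q : Subgroup Ω) (β : MulAut Q) (α : MulAut T) : Prop :=
  (∀ t : T, autFun Q β t = ((α t : T) : Ω)) ∧
    ∀ c ∈ C, c⁻¹ * autFun Q β c ∈ T ⊓ Subgroup.centralizer (T : Set Ω)

theorem aut_center {T : Subgroup Ω} (α : MulAut T) {z : Ω}
    (hz : z ∈ T ⊓ Subgroup.centralizer (T : Set Ω)) :
    ((α ⟨z, hz.1⟩ : T) : Ω) ∈ T ⊓ Subgroup.centralizer (T : Set Ω) := by
  refine ⟨(α ⟨z, hz.1⟩).2, ?_⟩
  show ((α ⟨z, hz.1⟩ : T) : Ω) ∈ Subgroup.centralizer (T : Set Ω)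
  rw [Subgroup.mem_centralizer_iff]
  intro y hy
  obtain ⟨y', hy'⟩ := α.surjective ⟨y, hy⟩
  have h1 : (y' : Ω) * z = z * (y' : Ω) := (Subgroup.mem_centralizer_iff.1 hz.2) y' y'.2
  have h2 : α y' * α ⟨z, hz.1⟩ = α ⟨z, hz.1⟩ * α y' := by
    rw [← map_mul, ← map_mul]
    congr 1
    exact Subtype.ext h1
  have h3 := congrArg Subtype.val h2
  rw [hy'] at h3
  exact h3

theorem extRel_one {T C Q : Subgroup Ω} (hTQ : T ≤ Q) (hCQ : C ≤ Q) : ExtRel T C Q 1 1 := by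
  refine ⟨fun t => ?_, fun c hc => ?_⟩
  · rw [autFun_one (hTQ t.2)]
    rfl
  · rw [autFun_one (hCQ hc), inv_mul_cancel]
    exact Subgroup.one_mem _

theorem extRel_mul {T C Q : Subgroup Ω} (hTQ : T ≤ Q) (hCQ : C ≤ Q) {β₁ β₂ : MulAut Q}
    {α₁ α₂ : MulAut T} (h1 : ExtRel T C Q β₁ α₁) (h2 : ExtRel T C Q β₂ α₂) :
    ExtRel T C Q (β₁ * β₂) (α₁ * α₂) := by
  refine ⟨fun t => ?_, fun c hc => ?_⟩
  · rw [autFun_mul _ _ (hTQ t.2), h2.1 t, h1.1 (α₂ t)]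
    rfl
  · rw [autFun_mul _ _ (hCQ hc)]
    obtain ⟨z, hz⟩ : ∃ z, z = c⁻¹ * autFun Q β₂ c := ⟨_, rfl⟩
    have hzZ : z ∈ T ⊓ Subgroup.centralizer (T : Set Ω) := by
      rw [hz]
      exact h2.2 c hc
    have hb : autFun Q β₂ c = c * z := by
      rw [hz]
      group
    rw [hb, autFun_map_mul β₁ (hCQ hc) (hTQ hzZ.1)]
    have h3 : autFun Q β₁ z = ((α₁ ⟨z, hzZ.1⟩ : T) : Ω) := h1.1 ⟨z, hzZ.1⟩
    rw [h3]
    have h4 := h1.2 c hc
    have h5 := aut_center α₁ hzZ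
    have e : c⁻¹ * (autFun Q β₁ c * ((α₁ ⟨z, hzZ.1⟩ : T) : Ω)) =
        (c⁻¹ * autFun Q β₁ c) * ((α₁ ⟨z, hzZ.1⟩ : T) : Ω) := by group
    rw [e]
    exact Subgroup.mul_mem _ h4 h5

theorem extRel_pow {T C Q : Subgroup Ω} (hTQ : T ≤ Q) (hCQ : C ≤ Q) {β : MulAut Q}
    {α : MulAut T} (h : ExtRel T C Q β α) (i : ℕ) : ExtRel T C Q (β ^ i) (α ^ i) := by
  induction i with
  | zero =>
    rw [pow_zero, pow_zero]
    exact extRel_one hTQ hCQ
  | succ i ih =>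
    rw [pow_succ, pow_succ]
    exact extRel_mul hTQ hCQ ih h

theorem extRel_conj {T C Q : Subgroup Ω} (hTQ : T ≤ Q) (hCQ : C ≤ Q)
    (hC : ∀ c ∈ C, ∀ t ∈ T, t * c = c * t) {t₀ : Ω} (ht₀ : t₀ ∈ T) :
    ExtRel T C Q (MulAut.conj (⟨t₀, hTQ ht₀⟩ : Q)) (MulAut.conj (⟨t₀, ht₀⟩ : T)) := by
  refine ⟨fun t => ?_, fun c hc => ?_⟩
  · rw [autFun_of_mem _ (hTQ t.2)]
    rfl
  · rw [autFun_of_mem _ (hCQ hc)]
    have h1 : (((MulAut.conj (⟨t₀, hTQ ht₀⟩ : Q)) ⟨c, hCQ hc⟩ : Q) : Ω) = t₀ * c * t₀⁻¹ := rfl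
    rw [h1, hC c hc t₀ ht₀]
    have e : c⁻¹ * (c * t₀ * t₀⁻¹) = 1 := by group
    rw [e]
    exact Subgroup.one_mem _

/-- In a saturated fusion system over the finite `p`-group `T`, the `p`-elements of `Aut_E(T)`
are inner. -/
theorem mem_inn_of_pow [Finite T] {p : ℕ} [Fact p.Prime] {E : FusionSystem T}
    (hE : E.IsSaturated p) {α : MulAut T} (hα : α ∈ E.autGroup T) {e : ℕ}
    (hpow : α ^ p ^ e = 1) : α ∈ Inn T := by
  obtain ⟨Q, hTQ, hQa, -⟩ := hE T le_rfl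
  have hQT : Q = T :=
    Subgroup.eq_of_le_of_card_ge (isConj_le_right hTQ) (le_of_eq (isConj_card hTQ).symm)
  rw [hQT] at hQa
  obtain ⟨R, hR⟩ := hQa.2
  rw [autInducedBy_self] at hR
  have hn : ((Inn T).subgroupOf (E.autGroup T)).Normal := inn_subgroupOf_normal E T
  have hRn : (R : Subgroup (E.autGroup T)).Normal := by
    rw [hR]
    exact hn
  have hZp : IsPGroup p (Subgroup.zpowers (⟨α, hα⟩ : E.autGroup T)) := by
    rintro ⟨x, hx⟩
    obtain ⟨i, hi⟩ := Subgroup.mem_zpowers_iff.1 hx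
    refine ⟨e, Subtype.ext ?_⟩
    show x ^ p ^ e = 1
    have h1 : (⟨α, hα⟩ : E.autGroup T) ^ p ^ e = 1 := Subtype.ext hpow
    rw [← hi, ← zpow_natCast, ← zpow_mul, mul_comm, zpow_mul, zpow_natCast, h1, one_zpow]
  obtain ⟨Q', hQ'⟩ := hZp.exists_le_sylow
  have huniq : Unique (Sylow p (E.autGroup T)) := Sylow.unique_of_normal R hRn
  have hQR : Q' = R := Subsingleton.elim _ _
  have hkR : (⟨α, hα⟩ : E.autGroup T) ∈ (R : Subgroup (E.autGroup T)) := by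
    rw [← hQR]
    exact hQ' (Subgroup.mem_zpowers _)
  rw [hR, Subgroup.mem_subgroupOf] at hkR
  exact hkR

/-- **S5202-NORPPOW.** -/
theorem normal_in_pPow [Finite S] {p : ℕ} [Fact p.Prime] (hS : IsPGroup p S)
    {F : FusionSystem S} (hF : F.IsSaturated p) {T : Subgroup Ω} {E : FusionSystem T}
    (hE : E.IsNormalIn F p) {S'' : Subgroup Ω} {F'' : FusionSystem S''}
    (hF'' : F''.IsSaturated p) (hidx : F''.HasPPowerIndexIn F p) (hS''S : S'' ≤ S)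
    (hC : T ⊔ centralizerIn S T ≤ S'') : E.IsNormalIn F'' p := by
  have hp : p.Prime := Fact.out
  obtain ⟨⟨hEsat, -, hEinv⟩, hext⟩ := hE
  have hT : F.StronglyClosed T := hEinv.2.1
  have hTS : T ≤ S := hT.1
  have hTS'' : T ≤ S'' := le_sup_left.trans hC
  have hfinT : Finite T := finite_of_le hTS
  have hfinS'' : Finite S'' := finite_of_le hS''S
  have hpT : IsPGroup p T := hS.to_le hTS
  have hpS'' : IsPGroup p S'' := hS.to_le hS''S
  have hEF'' : E.IsSubsystemOf F'' :=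
    Cfsg.Agent.H88.subsystem_of_pPowerIndex hpT E hEsat hEinv.1 hTS F'' hTS'' hidx
  have hT'' : F''.StronglyClosed T :=
    ⟨hTS'', fun R hR φ hφ x => hT.2 R hR φ (hidx.1 R hφ) x⟩
  have hinv'' : E.IsInvariantIn F'' := by
    rw [invariant_iff_strongInv hpS'' hF'' hEF'' hT'']
    have hSI : StrongInv E F := (invariant_iff_strongInv hS hF hEinv.1 hT).1 hEinv
    intro P Q f g hPQ hQT hf hfQ hg
    exact hSI P Q f g hPQ hQT hf hfQ (mor_of_subsystem hidx.1 hg)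
  refine ⟨⟨hEsat, hF'', hinv''⟩, ?_⟩
  have hceq : centralizerIn S'' T = centralizerIn S T := by
    apply le_antisymm
    · intro x hx
      exact ⟨hS''S hx.1, hx.2⟩
    · intro x hx
      exact ⟨hC (Subgroup.mem_sup_right hx), hx.2⟩
  suffices aux : ∀ (C' : Subgroup Ω), C' = centralizerIn S T → ∀ α ∈ E.autGroup T,
      ∃ β ∈ F''.autGroup (T ⊔ C'),
        (∀ (x : T) (hx : (x : Ω) ∈ T ⊔ C'), ((β ⟨x, hx⟩ : ↥(T ⊔ C')) : Ω) = ((α x : T) : Ω)) ∧
        ∀ c : ↥(T ⊔ C'), (c : Ω) ∈ C' →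
          (c : Ω)⁻¹ * ((β c : ↥(T ⊔ C')) : Ω) ∈ T ⊓ Subgroup.centralizer (T : Set Ω) by
    intro α hα
    obtain ⟨β, hβ, h1, h2⟩ := aux (centralizerIn S'' T) hceq α hα
    exact ⟨β, hβ, fun x => h1 x _, h2⟩
  intro C' hC'
  subst hC'
  have hTQ : T ≤ T ⊔ centralizerIn S T := le_sup_left
  have hCQ : centralizerIn S T ≤ T ⊔ centralizerIn S T := le_sup_right
  have hQS : T ⊔ centralizerIn S T ≤ S := hC.trans hS''S
  have hfinQ : Finite (T ⊔ centralizerIn S T : Subgroup Ω) := finite_of_le hQS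
  have hcomm : ∀ c ∈ centralizerIn S T, ∀ t ∈ T, t * c = c * t :=
    fun c hc t ht => (mem_centralizerIn_iff.1 hc).2 t ht
  -- inner automorphisms
  have hinner : ∀ t₀ : T, ∃ β ∈ F''.autGroup (T ⊔ centralizerIn S T),
      ExtRel T (centralizerIn S T) (T ⊔ centralizerIn S T) β (MulAut.conj t₀) := by
    intro t₀
    refine ⟨MulAut.conj (⟨t₀, hTQ t₀.2⟩ : (T ⊔ centralizerIn S T : Subgroup Ω)), ?_, ?_⟩
    · exact inn_le_autGroup F'' hC ⟨_, rfl⟩
    · exact extRel_conj hTQ hCQ hcomm t₀.2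
  -- automorphisms of order prime to `p`
  have hcoprime : ∀ α' ∈ E.autGroup T, (orderOf α').Coprime p →
      ∃ β ∈ F''.autGroup (T ⊔ centralizerIn S T),
        ExtRel T (centralizerIn S T) (T ⊔ centralizerIn S T) β α' := by
    intro α' hα' hcop
    obtain ⟨β₀, hβ₀, h1, h2⟩ := hext α' hα'
    have hrel₀ : ExtRel T (centralizerIn S T) (T ⊔ centralizerIn S T) β₀ α' := by
      refine ⟨fun t => ?_, fun c hc => ?_⟩
      · rw [autFun_of_mem β₀ (hTQ t.2)]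
        exact h1 t
      · rw [autFun_of_mem β₀ (hCQ hc)]
        exact h2 ⟨c, hCQ hc⟩ hc
    obtain ⟨e, n', hn', ho⟩ := Nat.exists_eq_pow_mul_and_not_dvd (orderOf_pos β₀).ne' p
      hp.ne_one
    have hm : 0 < orderOf α' := orderOf_pos α'
    obtain ⟨j, hj⟩ : ∃ j : ℕ, j = (p ^ e) ^ (orderOf α').totient := ⟨_, rfl⟩
    have hk1 : j ≡ 1 [MOD orderOf α'] := by
      rw [hj]
      exact Nat.ModEq.pow_totient (Nat.Coprime.pow_left e hcop.symm)
    have hpowα : α' ^ j = α' := (pow_eq_pow_iff_modEq.2 hk1).trans (pow_one α')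
    have hβmem : β₀ ^ j ∈ F.autGroup (T ⊔ centralizerIn S T) := pow_mem hβ₀ _
    have hβn : (β₀ ^ j) ^ n' = 1 := by
      rw [← pow_mul]
      apply orderOf_dvd_iff_pow_eq_one.1
      rw [ho, hj]
      obtain ⟨i, hi⟩ := Nat.exists_eq_succ_of_ne_zero (Nat.totient_pos.2 hm).ne'
      rw [hi, pow_succ]
      exact ⟨(p ^ e) ^ i, by ring⟩
    have hβcop : Nat.Coprime (orderOf (β₀ ^ j)) p :=
      Nat.Coprime.coprime_dvd_left (orderOf_dvd_of_pow_eq_one hβn)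
        ((Nat.Prime.coprime_iff_not_dvd hp).2 hn').symm
    have hres : (⟨β₀ ^ j, hβmem⟩ : F.autGroup (T ⊔ centralizerIn S T)) ∈
        pResidual p (F.autGroup (T ⊔ centralizerIn S T)) := by
      apply Subgroup.subset_closure
      show Nat.Coprime (orderOf (⟨β₀ ^ j, hβmem⟩ : F.autGroup (T ⊔ centralizerIn S T))) p
      rw [Subgroup.orderOf_mk]
      exact hβcop
    have hβ'' : β₀ ^ j ∈ F''.autGroup (T ⊔ centralizerIn S T) :=
      hidx.2.2 (T ⊔ centralizerIn S T) hC ⟨_, hres, rfl⟩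
    refine ⟨β₀ ^ j, hβ'', ?_⟩
    have h3 := extRel_pow hTQ hCQ hrel₀ j
    rw [hpowα] at h3
    exact h3
  -- the general case
  have key : ∀ α ∈ E.autGroup T, ∃ β ∈ F''.autGroup (T ⊔ centralizerIn S T),
      ExtRel T (centralizerIn S T) (T ⊔ centralizerIn S T) β α := by
    intro α hα
    obtain ⟨e, n', hn', ho⟩ := Nat.exists_eq_pow_mul_and_not_dvd (orderOf_pos α).ne' p
      hp.ne_one
    have hn'pos : 0 < n' := by
      rcases Nat.eq_zero_or_pos n' with h0 | h0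
      · rw [h0, mul_zero] at ho
        exact absurd ho (orderOf_pos α).ne'
      · exact h0
    have hcopn : Nat.Coprime (p ^ e) n' :=
      Nat.Coprime.pow_left e ((Nat.Prime.coprime_iff_not_dvd hp).2 hn')
    obtain ⟨a, ha⟩ : ∃ a : ℕ, a = (p ^ e) ^ n'.totient := ⟨_, rfl⟩
    have ha1 : a ≡ 1 [MOD n'] := by
      rw [ha]
      exact Nat.ModEq.pow_totient hcopn
    have hpe : p ^ e ∣ a := by
      obtain ⟨i, hi⟩ := Nat.exists_eq_succ_of_ne_zero (Nat.totient_pos.2 hn'pos).ne'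
      rw [ha, hi, pow_succ]
      exact ⟨(p ^ e) ^ i, by ring⟩
    -- the `p'`-part
    have h2mem : α ^ a ∈ E.autGroup T := pow_mem hα _
    have h2n : (α ^ a) ^ n' = 1 := by
      rw [← pow_mul]
      apply orderOf_dvd_iff_pow_eq_one.1
      rw [ho]
      exact Nat.mul_dvd_mul_right hpe n'
    have h2cop : Nat.Coprime (orderOf (α ^ a)) p :=
      Nat.Coprime.coprime_dvd_left (orderOf_dvd_of_pow_eq_one h2n)
        ((Nat.Prime.coprime_iff_not_dvd hp).2 hn').symm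
    -- the `p`-part
    have h1mem : α * (α ^ a)⁻¹ ∈ E.autGroup T := mul_mem hα (inv_mem h2mem)
    have h1pow : (α * (α ^ a)⁻¹) ^ p ^ e = 1 := by
      have hc : Commute α (α ^ a)⁻¹ := ((Commute.refl α).pow_right a).inv_right
      rw [hc.mul_pow, inv_pow, ← pow_mul]
      have h3 : α ^ p ^ e = α ^ (a * p ^ e) := by
        rw [pow_eq_pow_iff_modEq, ho]
        have h4 := Nat.ModEq.mul_right' (p ^ e) ha1
        rw [one_mul] at h4
        rw [mul_comm (p ^ e) n']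
        exact h4.symm
      rw [h3, mul_inv_cancel]
    have h1inn : α * (α ^ a)⁻¹ ∈ Inn T := mem_inn_of_pow hEsat h1mem h1pow
    obtain ⟨t₀, ht₀⟩ := h1inn
    obtain ⟨β₁, hβ₁, hrel₁⟩ := hinner t₀
    obtain ⟨β₂, hβ₂, hrel₂⟩ := hcoprime (α ^ a) h2mem h2cop
    refine ⟨β₁ * β₂, mul_mem hβ₁ hβ₂, ?_⟩
    have h5 := extRel_mul hTQ hCQ hrel₁ hrel₂
    have h6 : MulAut.conj t₀ * α ^ a = α := by
      have h7 : MulAut.conj t₀ = α * (α ^ a)⁻¹ := ht₀
      rw [h7, inv_mul_cancel_right]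
    rw [h6] at h5
    exact h5
  intro α hα
  obtain ⟨β, hβ, hrel⟩ := key α hα
  refine ⟨β, hβ, fun x hx => ?_, fun c hc => ?_⟩
  · have h1 := hrel.1 x
    rw [autFun_of_mem β hx] at h1
    exact h1
  · have h1 := hrel.2 c hc
    rw [autFun_apply β c] at h1
    exact h1

end Cfsg.Agent.H28.Red
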