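import Cfsg.Agent.H87.RedDefs

/-!
# The subgroup acting on `T` through a normal subgroup `K ≥ Inn(T)` of `Aut_F(T)` is strongly
closed (S5202-PUIGSC, helper28)
-/

set_option autoImplicit false

namespace Cfsg.Agent.H28.Red

open Cfsg Cfsg.FusionSystem Cfsg.Agent.H86 Cfsg.Agent.H87

universe u

variable {Ω : Type u} [Group Ω] {S T : Subgroup Ω}

/-- **S5202-PUIGSC.** -/
theorem actSub_stronglyClosed [Finite S] {p : ℕ} [Fact p.Prime] (hS : IsPGroup p S)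
    {F : FusionSystem S} (hF : F.IsSaturated p) {T : Subgroup Ω} (hT : F.StronglyClosed T)
    {K : Subgroup (MulAut T)} (hInn : ∀ t : T, MulAut.conj t ∈ K)
    (hKn : ∀ a ∈ F.autGroup T, ∀ k ∈ K, a * k * a⁻¹ ∈ K) :
    F.StronglyClosed (actSub S T K) := by
  rw [stronglyClosed_iff]
  refine ⟨actSub_le S T K, ?_⟩
  intro R f hR hf x hx
  obtain ⟨hxS, k, hk, hkx⟩ := hR hx
  obtain ⟨f', hf', hmod⟩ := Cfsg.Agent.H88.exists_extension_mod hS hF hT hf
  have hTle : T ≤ R ⊔ T := le_sup_right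
  have hRle : R ≤ R ⊔ T := le_sup_left
  have hfT : Mor F T f' := hf'.restrict hTle
  have himg : imgS T f' = T := Cfsg.Agent.H88.imgS_stronglyClosed hT hf' hTle
  obtain ⟨a, ha⟩ : ∃ a : MulAut T, a = mkAut hfT himg := ⟨_, rfl⟩
  have haF : a ∈ F.autGroup T := by
    rw [ha]
    exact mkAut_mem hfT himg
  have haapp : ∀ s : T, ((a s : T) : Ω) = f' s := by
    intro s
    rw [ha]
    exact mkAut_apply hfT himg s
  have hxRT : x ∈ R ⊔ T := hRle hx
  -- conjugation by `f' x` on `T` is `a * k * a⁻¹`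
  have hconj : ∀ t : T, (((a * k * a⁻¹) t : T) : Ω) = f' x * t * (f' x)⁻¹ := by
    intro t
    obtain ⟨s, hs⟩ : ∃ s : T, s = a⁻¹ t := ⟨_, rfl⟩
    have hast : a s = t := by
      rw [hs, MulAut.apply_inv_self]
    have h1 : (a * k * a⁻¹) t = a (k s) := by
      rw [hs]
      rfl
    rw [h1, haapp, hkx s]
    have hsRT : (s : Ω) ∈ R ⊔ T := hTle s.2
    rw [hf'.map_mul ((R ⊔ T).mul_mem hxRT hsRT) ((R ⊔ T).inv_mem hxRT),
      hf'.map_mul hxRT hsRT, hf'.map_inv hxRT, ← haapp s, hast]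
  obtain ⟨u, hu⟩ : ∃ u : Ω, u = (f x)⁻¹ * f' x := ⟨_, rfl⟩
  have huT : u ∈ T := by
    rw [hu]
    exact hmod x hx
  have hfx : f x = f' x * u⁻¹ := by
    rw [hu]
    group
  refine ⟨hf.mem hx, (a * k * a⁻¹) * MulAut.conj ((⟨u, huT⟩ : T)⁻¹), ?_, ?_⟩
  · exact K.mul_mem (hKn a haF k hk) (hInn _)
  · intro t
    rw [MulAut.mul_apply, hconj, hfx]
    simp only [MulAut.conj_apply, Subgroup.coe_mul, Subgroup.coe_inv, inv_inv]
    group

end Cfsg.Agent.H28.Red
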