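import Mathlib
import Cfsg.Prelude.Def_LocalEven
import Cfsg.Agent.H5.BaerSuzuki
import Cfsg.Agent.H12.S4InvB
import Cfsg.Agent.H12.S4InvC

/-!
# A transvection on an abelian normal subgroup with trivial `O₂` forces an `S₄`-section

Piece `S4T` of the team project for S2799 (helper28).
-/

set_option autoImplicit false

universe u

namespace Cfsg.Agent.H28.S4T

open Cfsg

/-- Two involutions whose product has fourth power one generate a group of exponent four. -/
theorem closure_pair_pow_four {A : Type*} [Group A] (x y : A) (hx : x * x = 1) (hy : y * y = 1)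
    (h4 : (x * y) ^ 4 = 1) : ∀ z ∈ Subgroup.closure ({x, y} : Set A), z ^ 4 = 1 := by
  have hxi : x⁻¹ = x := inv_eq_of_mul_eq_one_right hx
  have hyi : y⁻¹ = y := inv_eq_of_mul_eq_one_right hy
  have hconj : ∀ i : ℕ, x * (x * y) ^ i = (y * x) ^ i * x := by
    intro i
    induction i with
    | zero => simp
    | succ n ih =>
      rw [pow_succ, ← mul_assoc, ih, pow_succ]
      simp only [mul_assoc]
      rw [← mul_assoc x x y, hx, one_mul, mul_one]
  have hxyyx : x * y * (y * x) = 1 := by
    rw [mul_assoc, ← mul_assoc y y x, hy, one_mul, hx]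
  have hinv : ∀ i : ℕ, (x * y) ^ i * (y * x) ^ i = 1 := by
    intro i
    induction i with
    | zero => simp
    | succ n ih =>
      rw [pow_succ, pow_succ', mul_assoc, ← mul_assoc (x * y) (y * x), hxyyx, one_mul, ih]
  have hc3 : (x * y) ^ 3 = y * x := by
    have h : (x * y) ^ 3 * (x * y) = 1 := by rw [← pow_succ]; exact h4
    have h' := eq_inv_of_mul_eq_one_left h
    rw [h', mul_inv_rev, hxi, hyi]
  have step : ∀ w g : A, g ∈ ({x, y} : Set A) →
      (∃ i : ℕ, w = (x * y) ^ i ∨ w = (x * y) ^ i * x) →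
      ∃ i : ℕ, w * g = (x * y) ^ i ∨ w * g = (x * y) ^ i * x := by
    rintro w g hg ⟨i, hi | hi⟩
    · rcases hg with rfl | hg
      · exact ⟨i, Or.inr (by rw [hi])⟩
      · have hg' : g = y := hg
        subst hg'
        refine ⟨i + 3, Or.inr ?_⟩
        rw [hi, pow_add, hc3, mul_assoc, mul_assoc, hx, mul_one]
    · rcases hg with rfl | hg
      · exact ⟨i, Or.inl (by rw [hi, mul_assoc, hx, mul_one])⟩
      · have hg' : g = y := hg
        subst hg'
        exact ⟨i + 1, Or.inl (by rw [hi, mul_assoc, pow_succ])⟩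
  have key : ∀ z ∈ Subgroup.closure ({x, y} : Set A),
      ∃ i : ℕ, z = (x * y) ^ i ∨ z = (x * y) ^ i * x := by
    intro z hz
    induction hz using Subgroup.closure_induction_right with
    | one => exact ⟨0, Or.inl (by simp)⟩
    | mul_right w hw g hg ih => exact step w g hg ih
    | mul_inv_cancel w hw g hg ih =>
      have hgi : g⁻¹ = g := by
        rcases hg with rfl | hg
        · exact hxi
        · have hg' : g = y := hg
          subst hg'
          exact hyi
      rw [hgi]
      exact step w g hg ih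
  intro z hz
  obtain ⟨i, hi | hi⟩ := key z hz
  · rw [hi, ← pow_mul, mul_comm, pow_mul, h4, one_pow]
  · have hzz : z * z = 1 := by
      rw [hi]
      calc (x * y) ^ i * x * ((x * y) ^ i * x)
          = (x * y) ^ i * (x * (x * y) ^ i) * x := by simp only [mul_assoc]
        _ = 1 := by
          rw [hconj i]
          simp only [mul_assoc]
          rw [hx, mul_one, hinv]
    have : z ^ 4 = (z * z) ^ 2 := by rw [← pow_two, ← pow_mul]
    rw [this, hzz, one_pow]

/-- Two "transvections" `x`, `y` of an abelian group with centres `e`, `e'`, where `y` fixes `e`: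
the product `x y` has fourth power one. -/
theorem t4 {V : Type*} [Group V] (hc : ∀ a b : V, a * b = b * a) (x y : V ≃* V) (e e' : V)
    (hee : e * e = 1) (hee' : e' * e' = 1)
    (hx : ∀ v, x v = v ∨ x v = v * e) (hy : ∀ v, y v = v ∨ y v = v * e')
    (hxe : x e = e) (hye' : y e' = e') (hye : y e = e) :
    ∀ v, x (y (x (y (x (y (x (y v))))))) = v := by
  have hlc : ∀ a b c : V, a * (b * c) = b * (a * c) := fun a b c => by
    rw [← mul_assoc, hc a b, mul_assoc]
  have he2 : ∀ w : V, e * (e * w) = w := fun w => by rw [← mul_assoc, hee, one_mul]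
  have he2' : ∀ w : V, e' * (e' * w) = w := fun w => by rw [← mul_assoc, hee', one_mul]
  have hxe' : x e' = e' ∨ x e' = e' * e := hx e'
  have hA : ∀ v, x (y v) = v ∨ x (y v) = v * e ∨ x (y v) = v * e' ∨ x (y v) = v * (e * e') := by
    intro v
    rcases hy v with h | h <;> rcases hx v with h1 | h1 <;> rcases hxe' with h2 | h2 <;>
      simp [h, h1, h2, map_mul, mul_assoc, hc, hlc, he2, he2', hee, hee']
  have hze : x (y e) = e := by rw [hye, hxe]
  have hC : ∀ v, x (y (x (y v))) = v ∨ x (y (x (y v))) = v * e := by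
    intro v
    rcases hA v with h | h | h | h <;> rcases hxe' with h2 | h2 <;>
      simp [h, h2, map_mul, hye, hxe, hye', mul_assoc, hc, hlc, he2, he2', hee, hee']
  intro v
  rcases hC v with h | h
  · rw [h]; exact h
  · rw [h, map_mul, map_mul, map_mul, map_mul, h, hze, hze, mul_assoc, hee, mul_one]

/-- Baer–Suzuki for a transvection: either the transvection lies in a normal `2`-subgroup of
`K`, or some conjugate generates with it a group inducing `S₃` on the span of the two centres. -/
theorem exists_nonFused {V : Type*} [Group V] [Finite V] (hc : ∀ a b : V, a * b = b * a)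
    (K : Subgroup (MulAut V)) (x : MulAut V) (hxK : x ∈ K) (e : V) (he1 : e ≠ 1)
    (hee : e * e = 1) (hx : ∀ v, x v = v ∨ x v = v * e)
    (hno : ¬ ∃ N : Subgroup K, N.Normal ∧ IsPGroup 2 N ∧ (⟨x, hxK⟩ : K) ∈ N) :
    ∃ g ∈ K, x (g e) = g e * e ∧ (g * x * g⁻¹) e = e * g e := by
  classical
  haveI : Fact (Nat.Prime 2) := ⟨Nat.prime_two⟩
  by_contra hcon
  apply hno
  have hxe : x e = e := by
    rcases hx e with h | h
    · exact h
    · exfalso
      apply he1
      rw [hee] at h
      exact x.injective (h.trans (map_one x).symm)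
  have hxx : ∀ v, x (x v) = v := by
    intro v
    rcases hx v with h | h
    · rw [h, h]
    · rw [h, map_mul, h, hxe, mul_assoc, hee, mul_one]
  set xK : K := ⟨x, hxK⟩ with hxKdef
  have hxKsq : xK * xK = 1 := by
    apply Subtype.ext
    apply MulEquiv.ext
    intro v
    exact hxx v
  have hpg : ∀ g : K, ∀ z ∈ Subgroup.closure ({xK, g * xK * g⁻¹} : Set K), z ^ 4 = 1 := by
    intro g
    set yK : K := g * xK * g⁻¹ with hyKdef
    have hyKsq : yK * yK = 1 := by
      rw [hyKdef]
      calc g * xK * g⁻¹ * (g * xK * g⁻¹) = g * (xK * xK) * g⁻¹ := by group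
        _ = 1 := by rw [hxKsq]; group
    set y : MulAut V := (g : MulAut V) * x * (g : MulAut V)⁻¹ with hydef
    set e' : V := (g : MulAut V) e with he'def
    have hee' : e' * e' = 1 := by rw [he'def, ← map_mul, hee, map_one]
    have hyv : ∀ v, y v = (g : MulAut V) (x ((g : MulAut V)⁻¹ v)) := fun v => rfl
    have hy : ∀ v, y v = v ∨ y v = v * e' := by
      intro v
      rcases hx ((g : MulAut V)⁻¹ v) with h | h
      · left
        rw [hyv, h]
        exact MulAut.apply_inv_self V (g : MulAut V) v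
      · right
        rw [hyv, h, map_mul (g : MulAut V) _ _, MulAut.apply_inv_self V]
    have hye' : y e' = e' := by
      rw [hyv, he'def, MulAut.inv_apply_self V, hxe]
    have h4 : (xK * yK) ^ 4 = 1 ∨ (yK * xK) ^ 4 = 1 := by
      by_cases h1 : y e = e
      · left
        apply Subtype.ext
        apply MulEquiv.ext
        intro v
        exact t4 hc x y e e' hee hee' hx hy hxe hye' h1 v
      · by_cases h2 : x e' = e'
        · right
          apply Subtype.ext
          apply MulEquiv.ext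
          intro v
          exact t4 hc y x e' e hee' hee hy hx hye' hxe h2 v
        · exfalso
          apply hcon
          refine ⟨g, g.2, ?_, ?_⟩
          · rcases hx e' with h | h
            · exact absurd h h2
            · exact h
          · rcases hy e with h | h
            · exact absurd h h1
            · rw [h, hc]
    rcases h4 with h4 | h4
    · exact closure_pair_pow_four xK yK hxKsq hyKsq h4
    · intro z hz
      rw [Set.pair_comm] at hz
      exact closure_pair_pow_four yK xK hyKsq hxKsq h4 z hz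
  have hX : IsPGroup 2 (Subgroup.zpowers xK) := by
    have hle : Subgroup.zpowers xK ≤ Subgroup.closure ({xK, 1 * xK * 1⁻¹} : Set K) := by
      rw [Subgroup.zpowers_le]
      exact Subgroup.subset_closure (by simp)
    rintro ⟨z, hz⟩
    refine ⟨2, ?_⟩
    apply Subtype.ext
    exact hpg 1 z (hle hz)
  obtain ⟨N, hN, hN2, hXN⟩ := H5.baer_suzuki (p := 2) (Subgroup.zpowers xK) hX (by
    intro g
    have hle : Subgroup.zpowers xK ⊔ (Subgroup.zpowers xK).map (MulAut.conj g).toMonoidHom ≤
        Subgroup.closure ({xK, g * xK * g⁻¹} : Set K) := by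
      apply sup_le
      · rw [Subgroup.zpowers_le]
        exact Subgroup.subset_closure (by simp)
      · rw [MonoidHom.map_zpowers, Subgroup.zpowers_le]
        exact Subgroup.subset_closure (by simp [MulAut.conj_apply])
    rintro ⟨z, hz⟩
    refine ⟨2, ?_⟩
    apply Subtype.ext
    exact hpg g z (hle hz))
  exact ⟨N, hN, hN2, hXN (Subgroup.mem_zpowers xK)⟩

theorem mem_centralizer_closure_pair {G : Type*} [Group G] (z e e' : G)
    (h1 : z * e * z⁻¹ = e) (h2 : z * e' * z⁻¹ = e') :
    z ∈ Subgroup.centralizer ((Subgroup.closure ({e, e'} : Set G) : Subgroup G) : Set G) := by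
  rw [Subgroup.mem_centralizer_iff]
  intro w hw
  have hw' : w ∈ Subgroup.closure ({e, e'} : Set G) := hw
  induction hw' using Subgroup.closure_induction with
  | mem s hs =>
    rcases hs with rfl | hs
    · rw [mul_inv_eq_iff_eq_mul] at h1
      exact h1.symm
    · have hs' : s = e' := hs
      subst hs'
      rw [mul_inv_eq_iff_eq_mul] at h2
      exact h2.symm
  | one => simp
  | mul u v hu hv ihu ihv =>
    rw [mul_assoc, ihv hv, ← mul_assoc, ihu hu, mul_assoc]
  | inv u hu ih =>
    have h := ih hu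
    rw [inv_mul_eq_iff_eq_mul, ← mul_assoc, h, mul_assoc, mul_inv_cancel, mul_one]

theorem conj_mem_closure_pair {G : Type*} [Group G] (z e e' : G)
    (h1 : z * e * z⁻¹ ∈ Subgroup.closure ({e, e'} : Set G))
    (h2 : z * e' * z⁻¹ ∈ Subgroup.closure ({e, e'} : Set G)) :
    ∀ w ∈ Subgroup.closure ({e, e'} : Set G), z * w * z⁻¹ ∈ Subgroup.closure ({e, e'} : Set G) := by
  intro w hw
  induction hw using Subgroup.closure_induction with
  | mem s hs =>
    rcases hs with rfl | hs
    · exact h1
    · have hs' : s = e' := hs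
      subst hs'
      exact h2
  | one => simp
  | mul u v hu hv ihu ihv =>
    have : z * (u * v) * z⁻¹ = (z * u * z⁻¹) * (z * v * z⁻¹) := by group
    rw [this]
    exact mul_mem ihu ihv
  | inv u hu ih =>
    have : z * u⁻¹ * z⁻¹ = (z * u * z⁻¹)⁻¹ := by group
    rw [this]
    exact inv_mem ih

/-- **Piece S4T of S2799.** A transvection on an abelian normal subgroup `V` of `H`, with
`O₂(H/C_H(V)) = 1`, forces a section of `G` isomorphic to `S₄`. -/
theorem involves_S4_of_transvection {G : Type u} [Group G] [Finite G] (H V : Subgroup G)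
    (hVH : V ≤ H) (hVc : ∀ a ∈ V, ∀ b ∈ V, a * b = b * a)
    (hHV : ∀ h ∈ H, ∀ v ∈ V, h * v * h⁻¹ ∈ V)
    (a e : G) (haH : a ∈ H) (heV : e ∈ V) (he1 : e ≠ 1) (hee : e * e = 1)
    (hae : ∀ v ∈ V, a * v * a⁻¹ = v ∨ a * v * a⁻¹ = v * e)
    (hna : ∃ v ∈ V, a * v * a⁻¹ ≠ v)
    (hO2 : ∀ Q : Subgroup G, Q ≤ H → (∀ h ∈ H, ∀ q ∈ Q, h * q * h⁻¹ ∈ Q) →
      (∀ q ∈ Q, ∃ k : ℕ, ∀ v ∈ V, q ^ (2 ^ k) * v * (q ^ (2 ^ k))⁻¹ = v) →
      ∀ q ∈ Q, ∀ v ∈ V, q * v * q⁻¹ = v) :
    Involves (Equiv.Perm (Fin 4)) G := by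
  classical
  -- the conjugation action of `H` on `V`
  let act : H → MulAut V := fun h =>
    { toFun := fun v => ⟨h * v * h⁻¹, hHV h h.2 v v.2⟩
      invFun := fun v => ⟨h⁻¹ * v * h, by simpa using hHV h⁻¹ (inv_mem h.2) v v.2⟩
      left_inv := fun v => Subtype.ext (by simp [mul_assoc])
      right_inv := fun v => Subtype.ext (by simp [mul_assoc])
      map_mul' := fun v w => Subtype.ext (by simp [mul_assoc]) }
  let φ : H →* MulAut V := MonoidHom.mk' act (fun h k => by
    apply MulEquiv.ext
    intro v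
    apply Subtype.ext
    simp [act, mul_assoc])
  have hφ : ∀ (h : H) (v : V), ((φ h v : V) : G) = h * v * h⁻¹ := fun h v => rfl
  have hc : ∀ v w : V, v * w = w * v := fun v w => Subtype.ext (hVc v v.2 w w.2)
  set K : Subgroup (MulAut V) := φ.range with hK
  set x : MulAut V := φ ⟨a, haH⟩ with hxdef
  have hxK : x ∈ K := ⟨_, rfl⟩
  set eV : V := ⟨e, heV⟩ with heVdef
  have heV1 : eV ≠ 1 := fun h => he1 (congrArg Subtype.val h)
  have heVee : eV * eV = 1 := Subtype.ext hee
  have hxv : ∀ v : V, x v = v ∨ x v = v * eV := by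
    intro v
    rcases hae v v.2 with h | h
    · left; exact Subtype.ext h
    · right; exact Subtype.ext h
  have hno : ¬ ∃ N : Subgroup K, N.Normal ∧ IsPGroup 2 N ∧ (⟨x, hxK⟩ : K) ∈ N := by
    rintro ⟨N, hN, hN2, hxN⟩
    set M : Subgroup (MulAut V) := N.map K.subtype with hM
    have hMnorm : ∀ k ∈ K, ∀ m ∈ M, k * m * k⁻¹ ∈ M := by
      rintro k hk _ ⟨n, hn, rfl⟩
      exact ⟨⟨k, hk⟩ * n * ⟨k, hk⟩⁻¹, hN.conj_mem n hn ⟨k, hk⟩, rfl⟩
    have hM2 : ∀ m ∈ M, ∃ j : ℕ, m ^ (2 ^ j) = 1 := by
      rintro _ ⟨n, hn, rfl⟩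
      obtain ⟨j, hj⟩ := hN2 ⟨n, hn⟩
      refine ⟨j, ?_⟩
      have hj' : n ^ (2 ^ j) = 1 := by
        have := congrArg Subtype.val hj
        simpa using this
      rw [← map_pow, hj', map_one]
    have hxM : x ∈ M := ⟨⟨x, hxK⟩, hxN, rfl⟩
    set Q : Subgroup G := (M.comap φ).map H.subtype with hQ
    obtain ⟨v, hvV, hv⟩ := hna
    apply hv
    refine hO2 Q ?_ ?_ ?_ a ?_ v hvV
    · rintro _ ⟨h, _, rfl⟩
      exact h.2
    · rintro h hh _ ⟨q, hq, rfl⟩
      refine ⟨⟨h, hh⟩ * q * ⟨h, hh⟩⁻¹, ?_, rfl⟩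
      show φ (⟨h, hh⟩ * q * ⟨h, hh⟩⁻¹) ∈ M
      rw [map_mul, map_mul, map_inv]
      exact hMnorm _ ⟨_, rfl⟩ _ hq
    · rintro _ ⟨q, hq, rfl⟩
      obtain ⟨j, hj⟩ := hM2 _ hq
      refine ⟨j, fun v hv => ?_⟩
      have h1 : φ (q ^ (2 ^ j)) = 1 := by rw [map_pow, hj]
      have h2 := hφ (q ^ (2 ^ j)) ⟨v, hv⟩
      rw [h1] at h2
      simpa using h2.symm
    · exact ⟨⟨a, haH⟩, hxM, rfl⟩
  obtain ⟨g, ⟨h0, rfl⟩, hg1, hg2⟩ := exists_nonFused hc K x hxK eV heV1 heVee hxv hno
  -- back in `G`
  set e' : G := h0 * e * (h0 : G)⁻¹ with he'def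
  set b : G := h0 * a * (h0 : G)⁻¹ with hbdef
  have he'V : e' ∈ V := hHV h0 h0.2 e heV
  have k1 : a * e' * a⁻¹ = e' * e := congrArg Subtype.val hg1
  have k2 : b * e * b⁻¹ = e * e' := by
    rw [← map_inv, ← map_mul, ← map_mul] at hg2
    exact congrArg Subtype.val hg2
  have k3 : a * e * a⁻¹ = e := by
    rcases hae e heV with h | h
    · exact h
    · exfalso
      apply he1
      rw [hee] at h
      have : a * e = a := by rw [mul_inv_eq_one] at h; exact h
      exact mul_eq_left.mp this
  have k4 : b * e' * b⁻¹ = e' := by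
    rw [hbdef, he'def]
    calc h0 * a * (h0 : G)⁻¹ * (h0 * e * (h0 : G)⁻¹) * (h0 * a * (h0 : G)⁻¹)⁻¹
        = h0 * (a * e * a⁻¹) * (h0 : G)⁻¹ := by group
      _ = h0 * e * (h0 : G)⁻¹ := by rw [k3]
  have hcomm : e * e' = e' * e := hVc e heV e' he'V
  have he'e' : e' * e' = 1 := by
    rw [he'def]
    calc h0 * e * (h0 : G)⁻¹ * (h0 * e * (h0 : G)⁻¹) = h0 * (e * e) * (h0 : G)⁻¹ := by group
      _ = 1 := by rw [hee]; group
  have he'ne : e' ≠ e := by
    intro h
    rw [h, k3, hee] at k1
    exact he1 k1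
  set F : Subgroup G := Subgroup.closure ({e, e'} : Set G) with hF
  have heF : e ∈ F := Subgroup.subset_closure (by simp)
  have he'F : e' ∈ F := Subgroup.subset_closure (by simp)
  have hFV : F ≤ V := by
    rw [hF, Subgroup.closure_le]
    rintro s (rfl | hs)
    · exact heV
    · have hs' : s = e' := hs
      subst hs'
      exact he'V
  have hF2 : ∀ w ∈ F, w * w = 1 := by
    intro w hw
    induction hw using Subgroup.closure_induction with
    | mem s hs =>
      rcases hs with rfl | hs
      · exact hee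
      · have hs' : s = e' := hs
        subst hs'
        exact he'e'
    | one => simp
    | mul u v hu hv ihu ihv =>
      have hvu := hVc v (hFV hv) u (hFV hu)
      calc u * v * (u * v) = u * (v * u) * v := by group
        _ = u * (u * v) * v := by rw [hvu]
        _ = (u * u) * (v * v) := by group
        _ = 1 := by rw [ihu, ihv, one_mul]
    | inv u hu ih =>
      calc u⁻¹ * u⁻¹ = (u * u)⁻¹ := by group
        _ = 1 := by rw [ih, inv_one]
  have hFp : IsPGroup 2 F := by
    rintro ⟨w, hw⟩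
    refine ⟨1, ?_⟩
    apply Subtype.ext
    simpa [pow_two] using hF2 w hw
  -- conjugation formulas
  clear_value e' b
  have A1 : MulAut.conj a e = e := k3
  have A2 : MulAut.conj a e' = e' * e := k1
  have B1 : MulAut.conj b e = e * e' := k2
  have B2 : MulAut.conj b e' = e' := k4
  have AA1 : MulAut.conj (a * a) e = e := by
    rw [map_mul, MulAut.mul_apply, A1, A1]
  have AA2 : MulAut.conj (a * a) e' = e' := by
    rw [map_mul, MulAut.mul_apply, A2, map_mul, A2, A1, mul_assoc, hee, mul_one]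
  have BB1 : MulAut.conj (b * b) e = e := by
    rw [map_mul, MulAut.mul_apply, B1, map_mul, B1, B2, mul_assoc, he'e', mul_one]
  have BB2 : MulAut.conj (b * b) e' = e' := by
    rw [map_mul, MulAut.mul_apply, B2, B2]
  have AB1 : MulAut.conj (a * b) e = e' := by
    rw [map_mul, MulAut.mul_apply, B1, map_mul, A1, A2, ← mul_assoc, hcomm, mul_assoc, hee,
      mul_one]
  have AB2 : MulAut.conj (a * b) e' = e' * e := by
    rw [map_mul, MulAut.mul_apply, B2, A2]
  have AB3 : MulAut.conj (a * b) (e' * e) = e := by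
    rw [map_mul, AB2, AB1, mul_assoc, hcomm, ← mul_assoc, he'e', one_mul]
  have ABC1 : MulAut.conj ((a * b) ^ 3) e = e := by
    rw [map_pow, pow_succ, pow_succ, pow_one, MulAut.mul_apply, MulAut.mul_apply, AB1, AB2, AB3]
  have ABC2 : MulAut.conj ((a * b) ^ 3) e' = e' := by
    rw [map_pow, pow_succ, pow_succ, pow_one, MulAut.mul_apply, MulAut.mul_apply, AB2, AB3, AB1]
  have haN : a ∈ Subgroup.normalizer (F : Set G) :=
    H12.s4i_mem_normalizer F a (conj_mem_closure_pair a e e' (by
      have : a * e * a⁻¹ = e := k3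
      rw [this]; exact heF) (by
      rw [k1]; exact mul_mem he'F heF))
  have hbN : b ∈ Subgroup.normalizer (F : Set G) :=
    H12.s4i_mem_normalizer F b (conj_mem_closure_pair b e e' (by
      rw [k2]; exact mul_mem heF he'F) (by
      rw [k4]; exact he'F))
  have C1 : a * a ∈ Subgroup.centralizer (F : Set G) := mem_centralizer_closure_pair _ e e' AA1 AA2
  have C2 : b * b ∈ Subgroup.centralizer (F : Set G) := mem_centralizer_closure_pair _ e e' BB1 BB2
  have C3 : (a * b) ^ 3 ∈ Subgroup.centralizer (F : Set G) :=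
    mem_centralizer_closure_pair _ e e' ABC1 ABC2
  have C4 : a * b ∉ Subgroup.centralizer (F : Set G) := by
    intro h
    rw [Subgroup.mem_centralizer_iff] at h
    have h' := h e heF
    have h'' : MulAut.conj (a * b) e = e := by
      rw [MulAut.conj_apply, ← h', mul_assoc, mul_inv_cancel, mul_one]
    rw [AB1] at h''
    exact he'ne h''
  apply H12.s4i_backward F hFp
  set N := Subgroup.normalizer (F : Set G) with hNdef
  set C := Subgroup.centralizer (F : Set G) with hCdef
  set π := QuotientGroup.mk' (C.subgroupOf N) with hπdef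
  have hπ : ∀ n : N, π n = 1 ↔ (n : G) ∈ C := fun n =>
    (QuotientGroup.eq_one_iff n).trans Subgroup.mem_subgroupOf
  set A := π ⟨a, haN⟩ with hAdef
  set B := π ⟨b, hbN⟩ with hBdef
  have hAA : A * A = 1 := by
    rw [hAdef, ← map_mul, hπ]
    exact C1
  have hBB : B * B = 1 := by
    rw [hBdef, ← map_mul, hπ]
    exact C2
  have hAB3 : (A * B) ^ 3 = 1 := by
    rw [hAdef, hBdef, ← map_mul, ← map_pow, hπ]
    exact C3
  have hAB1 : A * B ≠ 1 := by
    rw [hAdef, hBdef, ← map_mul, Ne, hπ]
    exact C4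
  have hBi : B⁻¹ = B := inv_eq_of_mul_eq_one_right hBB
  exact H12.s4i_involves_S3_of_inverted A (A * B) hAA hAB1 hAB3 (by
    rw [mul_inv_rev, ← mul_assoc, hAA, one_mul, hBi])

end Cfsg.Agent.H28.S4T
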