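import Mathlib
import Cfsg.Agent.H98.SLkDefs
import Cfsg.Agent.H36.GLkPoly1
import Cfsg.Agent.H28.GLkPoly2

/-!
# Rescaling the constant coefficient of the first non-trivial coordinate (S2479-ORB, helper28)
-/

set_option autoImplicit false

namespace Cfsg.Agent.H28.SLk

open Polynomial DirectSum
open Cfsg.Agent.H98.GLk Cfsg.Agent.H98.SLk

/-- Rescale the constant coefficient of the `j`-th coordinate by `a`. -/
noncomputable def resc {F : Type*} [Field F] {n : ℕ} (j : Fin n) (a : F) (g : Fin n → F[X]) :
    Fin n → F[X] :=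
  Function.update g j (g j + C ((a - 1) * (g j).coeff 0))

theorem resc_of_ne {F : Type*} [Field F] {n : ℕ} (j : Fin n) (a : F) (g : Fin n → F[X])
    {i : Fin n} (h : i ≠ j) : resc j a g i = g i :=
  Function.update_of_ne h _ _

theorem resc_self {F : Type*} [Field F] {n : ℕ} (j : Fin n) (a : F) (g : Fin n → F[X]) :
    resc j a g j = g j + C ((a - 1) * (g j).coeff 0) :=
  Function.update_self _ _ _

theorem resc_coeff_zero {F : Type*} [Field F] {n : ℕ} (j : Fin n) (a : F) (g : Fin n → F[X]) :
    (resc j a g j).coeff 0 = a * (g j).coeff 0 := by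
  rw [resc_self, coeff_add, coeff_C_zero]
  ring

theorem resc_natDegree {F : Type*} [Field F] {n : ℕ} (j : Fin n) (a : F) (g : Fin n → F[X])
    (i : Fin n) : (resc j a g i).natDegree = (g i).natDegree := by
  by_cases h : i = j
  · subst h
    rw [resc_self, natDegree_add_C]
  · rw [resc_of_ne j a g h]

theorem resc_resc {F : Type*} [Field F] {n : ℕ} (j : Fin n) (g : Fin n → F[X]) (a b : F)
    (hab : b * a = 1) : resc j b (resc j a g) = g := by
  funext i
  by_cases h : i = j
  · subst h
    rw [resc_self, resc_coeff_zero, resc_self, add_assoc, ← C_add]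
    have h1 : (a - 1) * (g i).coeff 0 + (b - 1) * (a * (g i).coeff 0) = 0 := by
      have h2 : (b - 1) * (a * (g i).coeff 0) = (b * a - a) * (g i).coeff 0 := by ring
      rw [h2, hab]
      ring
    rw [h1, C_0, add_zero]
  · rw [resc_of_ne _ _ _ h, resc_of_ne _ _ _ h]

theorem cdet_resc {F : Type*} [Field F] {n : ℕ} (j : Fin n) (a : F) (g : Fin n → F[X]) :
    cdet (resc j a g) = a ^ (j.val + 1) * cdet g := by
  classical
  rw [cdet_def, cdet_def, ← Finset.mul_prod_erase Finset.univ _ (Finset.mem_univ j),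
    ← Finset.mul_prod_erase Finset.univ _ (Finset.mem_univ j)]
  have h1 : ∏ x ∈ Finset.univ.erase j,
      ((-1) ^ (resc j a g x).natDegree * (resc j a g x).coeff 0) ^ (x.val + 1) =
      ∏ x ∈ Finset.univ.erase j, ((-1) ^ (g x).natDegree * (g x).coeff 0) ^ (x.val + 1) := by
    apply Finset.prod_congr rfl
    intro x hx
    rw [resc_of_ne j a g (Finset.ne_of_mem_erase hx)]
  rw [h1, resc_natDegree, resc_coeff_zero, ← mul_assoc (a ^ (j.val + 1)), ← mul_pow]
  congr 2
  ring

theorem resc_mem_ConfAt {F : Type*} [Field F] {n : ℕ} (j : Fin n) (a : Fˣ) (g : Fin n → F[X])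
    (hg : g ∈ ConfAt F n j) : resc j (a : F) g ∈ ConfAt F n j := by
  obtain ⟨⟨hg1, hg2⟩, hg3, hg4⟩ := hg
  have hdeg : 1 ≤ (g j).natDegree := by
    by_contra hcon
    apply hg4
    exact (Monic.natDegree_eq_zero (hg1 j).1).mp (by omega)
  refine ⟨⟨?_, ?_⟩, ?_, ?_⟩
  · intro e
    by_cases he : e = j
    · subst he
      constructor
      · rw [resc_self]
        apply (hg1 e).1.add_of_left
        calc (C ((↑a - 1) * (g e).coeff 0)).degree ≤ 0 := degree_C_le
          _ < (g e).degree := by
            rw [degree_eq_natDegree (hg1 e).1.ne_zero]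
            exact_mod_cast hdeg
      · rw [resc_coeff_zero]
        exact mul_ne_zero a.ne_zero (hg1 e).2
    · rw [resc_of_ne j _ g he]
      exact hg1 e
  · refine Eq.trans ?_ hg2
    apply Finset.sum_congr rfl
    intro e _
    rw [resc_natDegree]
  · intro i hi
    rw [resc_of_ne j _ g (by intro h; rw [h] at hi; exact lt_irrefl _ hi)]
    exact hg3 i hi
  · intro h1
    have h2 := resc_natDegree j (a : F) g j
    rw [h1, natDegree_one] at h2
    omega

/-- **S2479-ORB.** -/
theorem card_cdet_one_le {F : Type*} [Field F] [Fintype F] (n : ℕ) (j : Fin n) :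
    (Fintype.card F - 1) * {g | g ∈ ConfAt F n j ∧ cdet g = 1}.ncard ≤
      min (j.val + 1) (Fintype.card F - 1) * (ConfAt F n j).ncard := by
  classical
  have hConf : (Conf F n n).Finite :=
    (Cfsg.Agent.H28.GLk.conf_finite_ncard_le
      (fun m => Cfsg.Agent.H36.GLk.card_monic_coeff_zero_ne m) n n).1
  have hP : (ConfAt F n j).Finite := hConf.subset (fun g hg => hg.1)
  have hN : {g | g ∈ ConfAt F n j ∧ cdet g = 1}.Finite := hP.subset (fun g hg => hg.1)
  rw [Set.ncard_eq_toFinset_card _ hP, Set.ncard_eq_toFinset_card _ hN]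
  obtain ⟨s, hs⟩ : ∃ s : Finset (Fˣ × (Fin n → F[X])), s = Finset.univ ×ˢ hN.toFinset :=
    ⟨_, rfl⟩
  obtain ⟨f, hf⟩ : ∃ f : Fˣ × (Fin n → F[X]) → (Fin n → F[X]),
      f = fun x => resc j (x.1 : F) x.2 := ⟨_, rfl⟩
  have hcard_s : s.card = (Fintype.card F - 1) * hN.toFinset.card := by
    rw [hs, Finset.card_product, Finset.card_univ, Fintype.card_units]
  have himg : s.image f ⊆ hP.toFinset := by
    intro g' hg'
    rw [Finset.mem_image] at hg'
    obtain ⟨x, hx, rfl⟩ := hg'
    rw [hs, Finset.mem_product, Set.Finite.mem_toFinset] at hx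
    rw [Set.Finite.mem_toFinset, hf]
    exact resc_mem_ConfAt j x.1 x.2 hx.2.1
  have hfib : ∀ g' ∈ s.image f,
      (s.filter fun x => f x = g').card ≤ min (j.val + 1) (Fintype.card F - 1) := by
    intro g' _
    have hinj : Set.InjOn Prod.fst
        ((s.filter fun x => f x = g') : Set (Fˣ × (Fin n → F[X]))) := by
      intro x hx y hy hxy
      rw [Finset.mem_coe, Finset.mem_filter] at hx hy
      have h1 : x.2 = resc j ((x.1⁻¹ : Fˣ) : F) g' := by
        rw [← hx.2, hf]
        exact (resc_resc j x.2 (x.1 : F) _ (by simp)).symm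
      have h2 : y.2 = resc j ((y.1⁻¹ : Fˣ) : F) g' := by
        rw [← hy.2, hf]
        exact (resc_resc j y.2 (y.1 : F) _ (by simp)).symm
      apply Prod.ext hxy
      rw [h1, h2, hxy]
    rw [← Finset.card_image_of_injOn hinj]
    have hsub : (s.filter fun x => f x = g').image Prod.fst ⊆
        Finset.univ.filter (fun a : Fˣ => (a : F) ^ (j.val + 1) = cdet g') := by
      intro a ha
      rw [Finset.mem_image] at ha
      obtain ⟨x, hx, rfl⟩ := ha
      rw [Finset.mem_filter] at hx
      rw [Finset.mem_filter]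
      refine ⟨Finset.mem_univ _, ?_⟩
      rw [← hx.2, hf]
      show _ = cdet (resc j (x.1 : F) x.2)
      rw [cdet_resc]
      have h3 : cdet x.2 = 1 := by
        have h4 := hx.1
        rw [hs, Finset.mem_product, Set.Finite.mem_toFinset] at h4
        exact h4.2.2
      rw [h3, mul_one]
    refine le_trans (Finset.card_le_card hsub) (le_min ?_ ?_)
    · have h5 : (Finset.univ.filter (fun a : Fˣ => (a : F) ^ (j.val + 1) = cdet g')).card ≤
          (nthRoots (j.val + 1) (cdet g')).toFinset.card := by
        apply Finset.card_le_card_of_injOn (fun a : Fˣ => (a : F))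
        · intro a ha
          rw [Finset.mem_coe, Finset.mem_filter] at ha
          rw [Finset.mem_coe, Multiset.mem_toFinset, mem_nthRoots (Nat.succ_pos _)]
          exact ha.2
        · intro a _ b _ hab
          exact Units.ext hab
      exact le_trans h5 (le_trans (Multiset.toFinset_card_le _) (card_nthRoots _ _))
    · rw [← Fintype.card_units]
      exact Finset.card_le_univ _
  calc (Fintype.card F - 1) * hN.toFinset.card = s.card := hcard_s.symm
    _ ≤ min (j.val + 1) (Fintype.card F - 1) * (s.image f).card :=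
        Finset.card_le_mul_card_image s _ hfib
    _ ≤ min (j.val + 1) (Fintype.card F - 1) * hP.toFinset.card :=
        Nat.mul_le_mul_left _ (Finset.card_le_card himg)

end Cfsg.Agent.H28.SLk
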