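import Mathlib
import Cfsg.Agent.H98.SLkDefs
import Cfsg.Agent.H36.GLkPoly1
import Cfsg.Agent.H28.GLkPoly2

/-!
# The configurations trivial below `j` are at most `cfgB` in number (S2479-POLY, helper28)
-/

set_option autoImplicit false

namespace Cfsg.Agent.H28.SLk

open Polynomial DirectSum
open Cfsg.Agent.H98.GLk Cfsg.Agent.H98.SLk

/-- Tuples `(h_s, …, h_(s+L-1))` of monic polynomials with non-zero constant coefficient and
`∑ e * deg h_e = n`. -/
def ConfB (F : Type*) [Field F] (L s n : ℕ) : Set (Fin L → F[X]) :=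
  {h | (∀ i, (h i).Monic ∧ (h i).coeff 0 ≠ 0) ∧
    ∑ i : Fin L, (s + i.val) * (h i).natDegree = n}

theorem confB_finite_ncard_le {F : Type*} [Field F] [Fintype F] (L s n : ℕ) (hs : 1 ≤ s) :
    (ConfB F L s n).Finite ∧ (ConfB F L s n).ncard ≤ cfgB (Fintype.card F) L s n := by
  classical
  have hc : ∀ m : ℕ, Nat.card {g : F[X] // g.Monic ∧ g.natDegree = m ∧ g.coeff 0 ≠ 0} =
      cm (Fintype.card F) m := fun m => Cfsg.Agent.H36.GLk.card_monic_coeff_zero_ne m
  have hq : 1 < Fintype.card F := Fintype.one_lt_card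
  have hPfin : ∀ m : ℕ, Set.Finite {g : F[X] | g.Monic ∧ g.natDegree = m ∧ g.coeff 0 ≠ 0} := by
    intro m
    have h1 : Nat.card {g : F[X] // g.Monic ∧ g.natDegree = m ∧ g.coeff 0 ≠ 0} ≠ 0 := by
      rw [hc m]
      exact (Cfsg.Agent.H28.GLk.cm_pos hq m).ne'
    exact Nat.finite_of_card_ne_zero h1
  have hPcard : ∀ m : ℕ, (hPfin m).toFinset.card = cm (Fintype.card F) m := by
    intro m
    rw [← Set.ncard_eq_toFinset_card _ (hPfin m), ← Nat.card_coe_set_eq]
    exact hc m
  induction L generalizing s n with
  | zero =>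
    have hsub : (ConfB F 0 s n).Subsingleton := Set.subsingleton_of_subsingleton
    refine ⟨hsub.finite, ?_⟩
    rw [cfgB_zero]
    split_ifs with h
    · exact Set.ncard_le_one_of_subsingleton _
    · have hempty : ConfB F 0 s n = ∅ := by
        ext g
        simp only [Set.mem_empty_iff_false, iff_false]
        intro hg
        apply h
        have := hg.2
        simpa using this.symm
      rw [hempty, Set.ncard_empty]
  | succ L ih =>
    have hs1 : 1 ≤ s + 1 := by omega
    set T : Finset (Fin (L + 1) → F[X]) :=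
      (Finset.range (n / s + 1)).biUnion (fun m =>
        ((hPfin m).toFinset ×ˢ (ih (s + 1) (n - s * m) hs1).1.toFinset).image
          (fun x => (Fin.cons x.1 x.2 : Fin (L + 1) → F[X]))) with hT
    have hsub : ConfB F (L + 1) s n ⊆ (T : Set (Fin (L + 1) → F[X])) := by
      intro g hg
      obtain ⟨hg1, hg2⟩ := hg
      rw [Fin.sum_univ_succ] at hg2
      simp only [Fin.val_zero, Fin.val_succ, add_zero] at hg2
      have hm : (g 0).natDegree ≤ n / s := by
        rw [Nat.le_div_iff_mul_le (by omega : 0 < s)]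
        rw [mul_comm]
        omega
      rw [Finset.mem_coe, hT, Finset.mem_biUnion]
      refine ⟨(g 0).natDegree, Finset.mem_range.2 (by omega), ?_⟩
      rw [Finset.mem_image]
      refine ⟨(g 0, Fin.tail g), ?_, Fin.cons_self_tail g⟩
      rw [Finset.mem_product]
      constructor
      · rw [Set.Finite.mem_toFinset]
        exact ⟨(hg1 _).1, rfl, (hg1 _).2⟩
      · rw [Set.Finite.mem_toFinset]
        refine ⟨fun e => hg1 _, ?_⟩
        have h1 : ∀ e : Fin L, (Fin.tail g e) = g e.succ := fun e => rfl
        simp only [h1]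
        have h2 : ∑ x : Fin L, (s + 1 + x.val) * (g x.succ).natDegree =
            ∑ x : Fin L, (s + (x.val + 1)) * (g x.succ).natDegree := by
          apply Finset.sum_congr rfl
          intro x _
          rw [add_assoc, add_comm 1 x.val]
        rw [h2]
        omega
    refine ⟨T.finite_toSet.subset hsub, ?_⟩
    calc (ConfB F (L + 1) s n).ncard ≤ (T : Set (Fin (L + 1) → F[X])).ncard :=
          Set.ncard_le_ncard hsub T.finite_toSet
      _ = T.card := Set.ncard_coe_finset T
      _ ≤ ∑ m ∈ Finset.range (n / s + 1),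
            (((hPfin m).toFinset ×ˢ (ih (s + 1) (n - s * m) hs1).1.toFinset).image
              (fun x => (Fin.cons x.1 x.2 : Fin (L + 1) → F[X]))).card := Finset.card_biUnion_le
      _ ≤ ∑ m ∈ Finset.range (n / s + 1),
            cm (Fintype.card F) m * cfgB (Fintype.card F) L (s + 1) (n - s * m) := by
          apply Finset.sum_le_sum
          intro m _
          refine le_trans Finset.card_image_le ?_
          rw [Finset.card_product, hPcard m]
          apply Nat.mul_le_mul_left
          rw [← Set.ncard_eq_toFinset_card _ (ih (s + 1) (n - s * m) hs1).1]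
          exact (ih (s + 1) (n - s * m) hs1).2
      _ = cfgB (Fintype.card F) (L + 1) s n := (cfgB_succ _ _ _ _).symm

/-- **S2479-POLY.** -/
theorem confFrom_ncard_le {F : Type*} [Field F] [Fintype F] (n j : ℕ) :
    (ConfFrom F n j).ncard ≤ cfgB (Fintype.card F) (n - j) (j + 1) n := by
  classical
  obtain ⟨hfin, hle⟩ := confB_finite_ncard_le (F := F) (n - j) (j + 1) n (by omega)
  refine le_trans ?_ hle
  -- the restriction map
  have hφ : ∀ i : Fin (n - j), j + i.val < n := fun i => by have := i.2; omega
  let ρ : (Fin n → F[X]) → (Fin (n - j) → F[X]) := fun g i => g ⟨j + i.val, hφ i⟩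
  refine Set.ncard_le_ncard_of_injOn ρ ?_ ?_ hfin
  · intro g hg
    obtain ⟨⟨hg1, hg2⟩, hg3⟩ := hg
    refine ⟨fun i => hg1 _, ?_⟩
    refine Eq.trans ?_ hg2
    let φ : Fin (n - j) ↪ Fin n :=
      ⟨fun i => ⟨j + i.val, hφ i⟩, fun a b hab => by
        have := congrArg Fin.val hab
        simp only at this
        exact Fin.ext (by omega)⟩
    have h1 : ∑ i : Fin (n - j), (j + 1 + i.val) * (ρ g i).natDegree =
        ∑ e ∈ Finset.univ.map φ, (e.val + 1) * (g e).natDegree := by
      rw [Finset.sum_map]
      apply Finset.sum_congr rfl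
      intro i _
      show (j + 1 + i.val) * (g ⟨j + i.val, hφ i⟩).natDegree =
        (j + i.val + 1) * (g ⟨j + i.val, hφ i⟩).natDegree
      congr 1
      omega
    rw [h1]
    apply Finset.sum_subset (Finset.subset_univ _)
    intro e _ he
    have hej : e.val < j := by
      by_contra hcon
      apply he
      rw [Finset.mem_map]
      refine ⟨⟨e.val - j, by have := e.2; omega⟩, Finset.mem_univ _, ?_⟩
      apply Fin.ext
      show j + (e.val - j) = e.val
      omega
    rw [hg3 e hej, natDegree_one, mul_zero]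
  · intro g hg g' hg' hgg
    funext e
    by_cases hej : e.val < j
    · rw [hg.2 e hej, hg'.2 e hej]
    · have h1 := congrFun hgg ⟨e.val - j, by have := e.2; omega⟩
      have h2 : (⟨j + (e.val - j), hφ ⟨e.val - j, by have := e.2; omega⟩⟩ : Fin n) = e :=
        Fin.ext (by show j + (e.val - j) = e.val; omega)
      have h3 : ρ g ⟨e.val - j, by have := e.2; omega⟩ = g e := by
        show g ⟨j + (e.val - j), _⟩ = g e
        rw [h2]
      have h4 : ρ g' ⟨e.val - j, by have := e.2; omega⟩ = g' e := by
        show g' ⟨j + (e.val - j), _⟩ = g' e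
        rw [h2]
      rw [← h3, ← h4, h1]

end Cfsg.Agent.H28.SLk
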