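import Mathlib
import Cfsg.Agent.S5086

/-!
# helper28: a resistance criterion for 2-groups of class two with central involutions

If every element of order at most two of `S` is central in `S`, every central element of `S`
has order at most two and all commutators of `S` are central, then `S` is normal in every
saturated fusion system over `S` (via `S5086`: `S` lies in every centric radical subgroup).
-/

set_option autoImplicit false
open Cfsg

namespace Cfsg.Agent.H28.SuzRes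

/-- The stability group of the chain `1 ≤ Ω₁ ≤ P` where `Ω₁` is the set of elements squaring
to one (assumed pairwise commuting). -/
def stab (P : Type*) [Group P]
    (hc : ∀ a b : P, a * a = 1 → b * b = 1 → a * b = b * a) : Subgroup (MulAut P) where
  carrier := {β | (∀ y : P, y * y = 1 → β y = y) ∧ ∀ y : P, (β y * y⁻¹) * (β y * y⁻¹) = 1}
  one_mem' := by
    refine ⟨fun y _ => rfl, fun y => ?_⟩
    simp
  mul_mem' := by
    rintro β γ ⟨hβ1, hβ2⟩ ⟨hγ1, hγ2⟩
    refine ⟨fun y hy => ?_, fun y => ?_⟩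
    · show β (γ y) = y
      rw [hγ1 y hy, hβ1 y hy]
    · show (β (γ y) * y⁻¹) * (β (γ y) * y⁻¹) = 1
      have h1 := hβ2 (γ y)
      have h2 := hγ2 y
      have h3 := hc _ _ h1 h2
      have e : β (γ y) * y⁻¹ = (β (γ y) * (γ y)⁻¹) * (γ y * y⁻¹) := by group
      rw [e]
      calc (β (γ y) * (γ y)⁻¹) * (γ y * y⁻¹) * ((β (γ y) * (γ y)⁻¹) * (γ y * y⁻¹))
          = (β (γ y) * (γ y)⁻¹) * ((γ y * y⁻¹) * (β (γ y) * (γ y)⁻¹)) * (γ y * y⁻¹) := by group
        _ = (β (γ y) * (γ y)⁻¹) * ((β (γ y) * (γ y)⁻¹) * (γ y * y⁻¹)) * (γ y * y⁻¹) := by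
            rw [h3]
        _ = ((β (γ y) * (γ y)⁻¹) * (β (γ y) * (γ y)⁻¹)) * ((γ y * y⁻¹) * (γ y * y⁻¹)) := by
            group
        _ = 1 := by rw [h1, h2, one_mul]
  inv_mem' := by
    rintro β ⟨hβ1, hβ2⟩
    refine ⟨fun y hy => ?_, fun y => ?_⟩
    · have h := hβ1 y hy
      calc β⁻¹ y = β⁻¹ (β y) := by rw [h]
        _ = y := by simp
    · have h := hβ2 (β⁻¹ y)
      have e : β (β⁻¹ y) = y := by simp
      rw [e] at h
      -- h : (y * (β⁻¹ y)⁻¹) * (y * (β⁻¹ y)⁻¹) = 1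
      have h' : (y * (β⁻¹ y)⁻¹)⁻¹ * (y * (β⁻¹ y)⁻¹)⁻¹ = 1 := by
        rw [← mul_inv_rev, h, inv_one]
      have e2 : β⁻¹ y * y⁻¹ = (y * (β⁻¹ y)⁻¹)⁻¹ := by group
      rw [e2]; exact h'

theorem stab_sq {P : Type*} [Group P]
    (hc : ∀ a b : P, a * a = 1 → b * b = 1 → a * b = b * a) {β : MulAut P}
    (hβ : β ∈ stab P hc) : β * β = 1 := by
  obtain ⟨h1, h2⟩ := hβ
  ext y
  show β (β y) = y
  have e : β y = (β y * y⁻¹) * y := by group
  have h3 : β (β y * y⁻¹) = β y * y⁻¹ := h1 _ (h2 y)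
  calc β (β y) = β ((β y * y⁻¹) * y) := by rw [← e]
    _ = β (β y * y⁻¹) * β y := map_mul _ _ _
    _ = (β y * y⁻¹) * ((β y * y⁻¹) * y) := by rw [h3, ← e]
    _ = ((β y * y⁻¹) * (β y * y⁻¹)) * y := by group
    _ = y := by rw [h2 y, one_mul]

theorem stab_normal {P : Type*} [Group P]
    (hc : ∀ a b : P, a * a = 1 → b * b = 1 → a * b = b * a) : (stab P hc).Normal := by
  constructor
  rintro β ⟨h1, h2⟩ γ
  refine ⟨fun y hy => ?_, fun y => ?_⟩
  · show γ (β (γ⁻¹ y)) = y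
    have hy' : γ⁻¹ y * γ⁻¹ y = 1 := by rw [← map_mul, hy, map_one]
    rw [h1 _ hy']
    simp
  · show (γ (β (γ⁻¹ y)) * y⁻¹) * (γ (β (γ⁻¹ y)) * y⁻¹) = 1
    have h := h2 (γ⁻¹ y)
    have e : γ (β (γ⁻¹ y)) * y⁻¹ = γ (β (γ⁻¹ y) * (γ⁻¹ y)⁻¹) := by
      rw [map_mul, map_inv]
      simp
    rw [e, ← map_mul, h, map_one]

theorem stab_isPGroup {P : Type*} [Group P]
    (hc : ∀ a b : P, a * a = 1 → b * b = 1 → a * b = b * a) {H : Subgroup (MulAut P)} :
    IsPGroup 2 ((stab P hc).subgroupOf H) := by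
  intro g
  refine ⟨1, ?_⟩
  apply Subtype.ext
  apply Subtype.ext
  have hg : ((g : H) : MulAut P) ∈ stab P hc := g.2
  have := stab_sq hc hg
  simpa [pow_two] using this

/-- **Resistance criterion.** -/
theorem resistant {Ω : Type*} [Group Ω] {S : Subgroup Ω} [Finite S] (hS : IsPGroup 2 S)
    (F : FusionSystem S) (hF : F.IsSaturated 2)
    (hinv : ∀ x ∈ S, x * x = 1 → ∀ y ∈ S, x * y = y * x)
    (hcl : ∀ x ∈ S, ∀ y ∈ S, ∀ z ∈ S, (x * y * x⁻¹ * y⁻¹) * z = z * (x * y * x⁻¹ * y⁻¹))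
    (hsq : ∀ z ∈ S, (∀ y ∈ S, z * y = y * z) → z * z = 1) : F.IsNormal S := by
  haveI : Fact (Nat.Prime 2) := ⟨Nat.prime_two⟩
  rw [Cfsg.Agent.S5086.result 2 hS F hF S]
  refine ⟨⟨le_rfl, fun R _ φ hφ x => (F.le_of_mem hφ).2 x⟩, ?_⟩
  intro P hcen hrad
  obtain ⟨hPS, hcent⟩ := hcen
  obtain ⟨_, hrad⟩ := hrad
  have hCP : FusionSystem.centralizerIn S P ≤ P := by
    apply hcent P
    refine ⟨conjHom P 1, F.conj_mem hPS S.one_mem, ?_⟩
    ext y
    constructor
    · rintro ⟨z, rfl⟩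
      simp [conjHom]
    · intro hy
      exact ⟨⟨y, hy⟩, by simp [conjHom]⟩
  have hZP : ∀ z ∈ S, (∀ y ∈ S, z * y = y * z) → z ∈ P := by
    intro z hz hzc
    apply hCP
    refine ⟨hz, Subgroup.mem_centralizer_iff.mpr ?_⟩
    intro y hy
    exact (hzc y (hPS hy)).symm
  intro x hx
  have hcomm_mem : ∀ y ∈ P, x * y * x⁻¹ * y⁻¹ ∈ S := fun y hy =>
    S.mul_mem (S.mul_mem (S.mul_mem hx (hPS hy)) (S.inv_mem hx)) (S.inv_mem (hPS hy))
  have hnorm : ∀ y ∈ P, x * y * x⁻¹ ∈ P := by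
    intro y hy
    have h1 : x * y * x⁻¹ * y⁻¹ ∈ P :=
      hZP _ (hcomm_mem y hy) (fun z hz => hcl x hx y (hPS hy) z hz)
    have e : x * y * x⁻¹ = (x * y * x⁻¹ * y⁻¹) * y := by group
    rw [e]; exact P.mul_mem h1 hy
  haveI : Finite ↥P := Finite.of_injective (Subgroup.inclusion hPS) (Subgroup.inclusion_injective hPS)
  -- the automorphism of `P` induced by `x`
  let a₀ : P →* P := (conjHom P x).codRestrict P (fun y => by
    show x * (y : Ω) * x⁻¹ ∈ P
    exact hnorm y y.2)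
  have ha₀ : ∀ y : P, ((a₀ y : P) : Ω) = x * y * x⁻¹ := fun y => rfl
  have hinj : Function.Injective a₀ := by
    intro y z hyz
    have h := congrArg (fun w : P => (w : Ω)) hyz
    simp only [ha₀] at h
    apply Subtype.ext
    have h2 : x⁻¹ * (x * (y : Ω) * x⁻¹) * x = x⁻¹ * (x * (z : Ω) * x⁻¹) * x := by rw [h]
    simpa [mul_assoc] using h2
  let α : MulAut P := MulEquiv.ofBijective a₀ ⟨hinj, Finite.injective_iff_surjective.mp hinj⟩
  have hα : ∀ y : P, ((α y : P) : Ω) = x * y * x⁻¹ := fun y => rfl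
  have hαF : α ∈ F.autGroup P := by
    apply Subgroup.subset_closure
    show P.subtype.comp α.toMonoidHom ∈ F.Hom P
    have e : P.subtype.comp α.toMonoidHom = conjHom P x := by
      ext y
      rfl
    rw [e]
    exact F.conj_mem hPS hx
  -- elements of `P` squaring to one commute
  have hc : ∀ a b : P, a * a = 1 → b * b = 1 → a * b = b * a := by
    intro a b ha _
    apply Subtype.ext
    have ha' : (a : Ω) * (a : Ω) = 1 := by
      have := congrArg (fun w : P => (w : Ω)) ha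
      simpa using this
    exact hinv a (hPS a.2) ha' b (hPS b.2)
  have hαA : α ∈ stab P hc := by
    refine ⟨fun y hy => ?_, fun y => ?_⟩
    · apply Subtype.ext
      rw [hα]
      have hy' : (y : Ω) * (y : Ω) = 1 := by
        have := congrArg (fun w : P => (w : Ω)) hy
        simpa using this
      have h1 := hinv y (hPS y.2) hy' x hx
      -- h1 : y * x = x * y
      calc x * (y : Ω) * x⁻¹ = ((y : Ω) * x) * x⁻¹ := by rw [h1]
        _ = y := by group
    · apply Subtype.ext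
      show ((α y : P) : Ω) * ((y : P) : Ω)⁻¹ * (((α y : P) : Ω) * ((y : P) : Ω)⁻¹) = 1
      rw [hα]
      exact hsq _ (hcomm_mem y y.2) (fun z hz => hcl x hx y (hPS y.2) z hz)
  have hnA : ((stab P hc).subgroupOf (F.autGroup P)).Normal := by
    haveI := stab_normal hc
    infer_instance
  have hle : (stab P hc).subgroupOf (F.autGroup P) ≤ pCore 2 (F.autGroup P) :=
    le_sSup ⟨hnA, stab_isPGroup hc⟩
  have hmem : α ∈ (pCore 2 (F.autGroup P)).map (F.autGroup P).subtype :=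
    ⟨⟨α, hαF⟩, hle (Subgroup.mem_subgroupOf.mpr hαA), rfl⟩
  rw [hrad] at hmem
  obtain ⟨g, hg⟩ := hmem
  -- `g⁻¹ x` centralizes `P`
  have hgx : ∀ y : P, (g : Ω) * y * (g : Ω)⁻¹ = x * y * x⁻¹ := by
    intro y
    have h := congrArg (fun β : MulAut P => ((β y : P) : Ω)) hg
    simpa [hα] using h
  have hcz : (g : Ω)⁻¹ * x ∈ FusionSystem.centralizerIn S P := by
    refine ⟨S.mul_mem (S.inv_mem (hPS g.2)) hx, Subgroup.mem_centralizer_iff.mpr ?_⟩
    intro y hy
    have h := hgx ⟨y, hy⟩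
    -- y * (g⁻¹ x) = (g⁻¹ x) * y
    have h2 : x * y = (g : Ω) * y * (g : Ω)⁻¹ * x := by
      rw [h]; group
    calc y * ((g : Ω)⁻¹ * x) = (g : Ω)⁻¹ * ((g : Ω) * y * (g : Ω)⁻¹ * x) := by group
      _ = (g : Ω)⁻¹ * (x * y) := by rw [← h2]
      _ = (g : Ω)⁻¹ * x * y := by group
  have h3 := hCP hcz
  have e : x = (g : Ω) * ((g : Ω)⁻¹ * x) := by group
  rw [e]
  exact P.mul_mem g.2 h3

end Cfsg.Agent.H28.SuzRes
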