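import Mathlib
import Cfsg.Agent.H9.XPAbs

set_option autoImplicit false

/-!
# XP-DC (S5746 team project, helper9)

Two double cosets with two-point stabilisers of index 100 and 315 exhaust a group of order
`416 * |H|`; hence `H` is maximal and every `H ∩ H^x` (`x ∉ H`) is maximal in `H`.
-/

namespace Cfsg.Agent.H28.XP

universe u

theorem dc : Cfsg.Agent.H9.XP.StDC.{u} := by
  intro G _ _ H U C a b hUH hUa hUco hUidx hCH hCb hCco hCidx hna hnb hcard
  classical
  obtain ⟨p0, hp0⟩ : ∃ p0 : G ⧸ H, p0 = ((1 : G) : G ⧸ H) := ⟨_, rfl⟩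
  have hstab0 : MulAction.stabilizer G p0 = H := by
    rw [hp0]; exact MulAction.stabilizer_quotient H
  have hstab : ∀ g : G, MulAction.stabilizer G (g • p0)
      = H.map (MulAut.conj g).toMonoidHom := by
    intro g
    rw [MulAction.stabilizer_smul_eq_stabilizer_map_conj, hstab0]
  have hsub : ∀ (L : Subgroup G) (x : G ⧸ H),
      MulAction.stabilizer ↥L x = (MulAction.stabilizer G x).subgroupOf L := by
    intro L x
    ext l
    exact Iff.rfl
  have hfix : ∀ g : G, g • p0 = p0 ↔ g ∈ H := by
    intro g
    rw [← MulAction.mem_stabilizer_iff, hstab0]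
  have hindex : H.index = 416 := by
    have h1 := H.card_mul_index
    rw [hcard] at h1
    have hpos : 0 < Nat.card H := Nat.card_pos
    exact Nat.eq_of_mul_eq_mul_left hpos (by rw [h1, mul_comm])
  have hX : Nat.card (G ⧸ H) = 416 := by rw [← Subgroup.index_eq_card]; exact hindex
  -- the stabilisers in `H` of the two points
  have hSa : MulAction.stabilizer ↥H (a • p0) = U.subgroupOf H := by
    rw [hsub, hstab]
    symm
    by_contra hne
    have hlt : U.subgroupOf H < (H.map (MulAut.conj a).toMonoidHom).subgroupOf H :=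
      lt_of_le_of_ne (fun x hx => hUa hx) hne
    have h1 := hUco.2 _ hlt
    rw [Subgroup.subgroupOf_eq_top] at h1
    exact hna h1
  have hSb : MulAction.stabilizer ↥H (b • p0) = C.subgroupOf H := by
    rw [hsub, hstab]
    symm
    by_contra hne
    have hlt : C.subgroupOf H < (H.map (MulAut.conj b).toMonoidHom).subgroupOf H :=
      lt_of_le_of_ne (fun x hx => hCb hx) hne
    have h1 := hCco.2 _ hlt
    rw [Subgroup.subgroupOf_eq_top] at h1
    exact hnb h1
  have hOa : (MulAction.orbit ↥H (a • p0)).ncard = 100 := by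
    rw [← MulAction.index_stabilizer, hSa, hUidx]
  have hOb : (MulAction.orbit ↥H (b • p0)).ncard = 315 := by
    rw [← MulAction.index_stabilizer, hSb, hCidx]
  have hO1 : MulAction.orbit ↥H p0 = {p0} := by
    ext q
    constructor
    · rintro ⟨h, rfl⟩
      show (h : G) • p0 ∈ ({p0} : Set (G ⧸ H))
      rw [Set.mem_singleton_iff, hfix]
      exact h.2
    · rintro rfl
      exact MulAction.mem_orbit_self _
  have hO1c : (MulAction.orbit ↥H p0).ncard = 1 := by rw [hO1, Set.ncard_singleton]
  have hd1 : Disjoint (MulAction.orbit ↥H p0) (MulAction.orbit ↥H (a • p0)) := by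
    rcases MulAction.orbit.eq_or_disjoint (G := ↥H) p0 (a • p0) with h | h
    · rw [h, hOa] at hO1c; omega
    · exact h
  have hd2 : Disjoint (MulAction.orbit ↥H p0) (MulAction.orbit ↥H (b • p0)) := by
    rcases MulAction.orbit.eq_or_disjoint (G := ↥H) p0 (b • p0) with h | h
    · rw [h, hOb] at hO1c; omega
    · exact h
  have hd3 : Disjoint (MulAction.orbit ↥H (a • p0)) (MulAction.orbit ↥H (b • p0)) := by
    rcases MulAction.orbit.eq_or_disjoint (G := ↥H) (a • p0) (b • p0) with h | h
    · rw [h, hOb] at hOa; omega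
    · exact h
  have hunion : MulAction.orbit ↥H p0 ∪ MulAction.orbit ↥H (a • p0)
      ∪ MulAction.orbit ↥H (b • p0) = Set.univ := by
    apply Set.eq_of_subset_of_ncard_le (Set.subset_univ _) _ (Set.toFinite _)
    rw [Set.ncard_univ, hX, Set.ncard_union_eq (Set.disjoint_union_left.mpr ⟨hd2, hd3⟩)
      (Set.toFinite _) (Set.toFinite _), Set.ncard_union_eq hd1 (Set.toFinite _) (Set.toFinite _),
      hO1c, hOa, hOb]
  have hcover : ∀ g : G, g ∈ H ∨ (∃ h : ↥H, g • p0 = h • (a • p0))
      ∨ (∃ h : ↥H, g • p0 = h • (b • p0)) := by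
    intro g
    have hg : g • p0 ∈ MulAction.orbit ↥H p0 ∪ MulAction.orbit ↥H (a • p0)
        ∪ MulAction.orbit ↥H (b • p0) := by rw [hunion]; trivial
    rcases hg with (hg | hg) | hg
    · left
      rw [hO1, Set.mem_singleton_iff, hfix] at hg
      exact hg
    · right; left
      obtain ⟨h, hh⟩ := MulAction.mem_orbit_iff.mp hg
      exact ⟨h, hh.symm⟩
    · right; right
      obtain ⟨h, hh⟩ := MulAction.mem_orbit_iff.mp hg
      exact ⟨h, hh.symm⟩
  -- transport of coatoms along conjugation
  have hconj : ∀ (x y : G) (h : ↥H) (W : Subgroup G),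
      MulAction.stabilizer ↥H (y • p0) = W.subgroupOf H → IsCoatom (W.subgroupOf H) →
      x • p0 = h • (y • p0) →
      IsCoatom ((H ⊓ H.map (MulAut.conj x).toMonoidHom).subgroupOf H) := by
    intro x y h W hS hW hxy
    rw [Subgroup.inf_subgroupOf_left, ← hstab x, ← hsub H, hxy,
      MulAction.stabilizer_smul_eq_stabilizer_map_conj, hS]
    exact (OrderIso.isCoatom_iff (MulEquiv.mapSubgroup (MulAut.conj h)) (W.subgroupOf H)).mpr hW
  refine ⟨⟨?_, fun K hK => ?_⟩, fun x hx => ?_⟩
  · intro h
    rw [h, Subgroup.index_top] at hindex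
    omega
  · -- maximality of `H`
    have hHK : H ≤ K := hK.le
    have hKiff : ∀ (g y : G) (h : ↥H), g • p0 = h • (y • p0) → (g ∈ K ↔ y ∈ K) := by
      intro g y h hgy
      have e0 : g • p0 = ((h : G) * y) • p0 := by
        rw [hgy, mul_smul]; rfl
      have e1 : (((h : G) * y)⁻¹ * g) • p0 = p0 := by
        rw [mul_smul, e0, ← mul_smul, inv_mul_cancel, one_smul]
      have e2 : ((h : G) * y)⁻¹ * g ∈ K := hHK ((hfix _).mp e1)
      have hh : (h : G) ∈ K := hHK h.2
      constructor
      · intro hg
        have e3 : (h : G) * y ∈ K := by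
          have h3 := K.mul_mem hg (K.inv_mem e2)
          have e4 : g * (((h : G) * y)⁻¹ * g)⁻¹ = (h : G) * y := by group
          rwa [e4] at h3
        have h5 := K.mul_mem (K.inv_mem hh) e3
        rwa [inv_mul_cancel_left] at h5
      · intro hy
        have h3 := K.mul_mem (K.mul_mem hh hy) e2
        have e4 : (h : G) * y * (((h : G) * y)⁻¹ * g) = g := by group
        rwa [e4] at h3
    -- the orbit of the base point under `K`
    have hOK : (MulAction.orbit ↥K p0).ncard ∣ 416 := by
      rw [← MulAction.index_stabilizer, hsub, hstab0, ← hindex]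
      exact Subgroup.relIndex_dvd_index_of_le hHK
    have key : ∀ (y y' : G) (N : ℕ), (MulAction.orbit ↥H (y • p0)).ncard = N →
        Disjoint (MulAction.orbit ↥H p0) (MulAction.orbit ↥H (y • p0)) →
        (∀ g : G, g ∈ H ∨ (∃ h : ↥H, g • p0 = h • (y • p0))
          ∨ (∃ h : ↥H, g • p0 = h • (y' • p0))) →
        y ∈ K → y' ∉ K → (1 + N) ∣ 416 := by
      intro y y' N hN hdis hcov hy hy'
      have hEq : MulAction.orbit ↥K p0
          = MulAction.orbit ↥H p0 ∪ MulAction.orbit ↥H (y • p0) := by
        ext q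
        constructor
        · rintro ⟨k, rfl⟩
          show (k : G) • p0 ∈ _
          rcases hcov (k : G) with h1 | ⟨h, h1⟩ | ⟨h, h1⟩
          · left
            rw [(hfix _).mpr h1]
            exact MulAction.mem_orbit_self _
          · right
            rw [h1]
            exact MulAction.mem_orbit _ _
          · exact absurd ((hKiff _ _ h h1).mp k.2) hy'
        · rintro (hq | hq)
          · rw [hO1, Set.mem_singleton_iff] at hq
            rw [hq]
            exact MulAction.mem_orbit_self _
          · obtain ⟨h, rfl⟩ := MulAction.mem_orbit_iff.mp hq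
            refine MulAction.mem_orbit_iff.mpr ⟨⟨(h : G) * y, K.mul_mem (hHK h.2) hy⟩, ?_⟩
            show ((h : G) * y) • p0 = (h : G) • (y • p0)
            rw [mul_smul]
      rw [hEq, Set.ncard_union_eq hdis (Set.toFinite _) (Set.toFinite _), hO1c, hN] at hOK
      exact hOK
    obtain ⟨k, hkK, hkH⟩ := SetLike.exists_of_lt hK
    by_cases ha : a ∈ K
    · by_cases hb : b ∈ K
      · rw [eq_top_iff]
        intro g _
        rcases hcover g with h1 | ⟨h, h1⟩ | ⟨h, h1⟩
        · exact hHK h1
        · exact (hKiff _ _ h h1).mpr ha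
        · exact (hKiff _ _ h h1).mpr hb
      · exfalso
        have := key a b 100 hOa hd1 hcover ha hb
        omega
    · by_cases hb : b ∈ K
      · exfalso
        have := key b a 315 hOb hd2
          (fun g => (hcover g).imp id (fun h => h.symm)) hb ha
        omega
      · exfalso
        rcases hcover k with h1 | ⟨h, h1⟩ | ⟨h, h1⟩
        · exact hkH h1
        · exact ha ((hKiff _ _ h h1).mp hkK)
        · exact hb ((hKiff _ _ h h1).mp hkK)
  · -- maximality of `H ∩ H^x` in `H`
    rcases hcover x with h1 | ⟨h, h1⟩ | ⟨h, h1⟩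
    · exact absurd h1 hx
    · exact hconj x a h U hSa hUco h1
    · exact hconj x b h C hSb hCco h1

example : Cfsg.Agent.H9.XP.StDC.{u} := dc

end Cfsg.Agent.H28.XP

#print axioms Cfsg.Agent.H28.XP.dc
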