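import Mathlib
import Cfsg.Agent.H72.ZasDefs

/-!
# S0690-ACT3 (helper28): a `Cyc3` element can be replaced by a 3-element acting exactly on a
quaternion pair (up to inverting its members).
-/

set_option autoImplicit false

namespace Cfsg.Agent.H28.Zas

open Cfsg.Agent.H72.Zas

universe u

section

variable {G : Type*} [Group G]

/-- conjugation by `g` maps the set `X` into the set `Y`. -/
def CMaps (g : G) (X Y : Set G) : Prop := ∀ u ∈ X, g * u * g⁻¹ ∈ Y

theorem CMaps.comp {g h : G} {X Y Z : Set G} (hg : CMaps g X Y) (hh : CMaps h Y Z) :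
    CMaps (h * g) X Z := by
  intro u hu
  have := hh _ (hg u hu)
  have e : h * g * u * (h * g)⁻¹ = h * (g * u * g⁻¹) * h⁻¹ := by group
  rw [e]
  exact this

theorem CMaps.one (X : Set G) : CMaps (1 : G) X X := by
  intro u hu
  simpa using hu

theorem CMaps.pow {g : G} {X : Set G} (hg : CMaps g X X) (k : ℕ) : CMaps (g ^ k) X X := by
  induction k with
  | zero =>
    rw [pow_zero]
    exact CMaps.one X
  | succ k ih =>
    rw [pow_succ]
    exact hg.comp ih

/-- conjugation maps `{a, a⁻¹}` into `{b, b⁻¹}` as soon as it maps `a` there. -/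
theorem cmaps_pair {g a b : G} (h : g * a * g⁻¹ = b ∨ g * a * g⁻¹ = b⁻¹) :
    CMaps g ({a, a⁻¹} : Set G) ({b, b⁻¹} : Set G) := by
  intro u hu
  rcases hu with rfl | rfl
  · rcases h with h | h
    · exact Or.inl h
    · exact Or.inr h
  · have e : g * a⁻¹ * g⁻¹ = (g * a * g⁻¹)⁻¹ := by group
    rw [e]
    rcases h with h | h
    · rw [h]
      exact Or.inr rfl
    · rw [h, inv_inv]
      exact Or.inl rfl

end

/-- **S0690-ACT3.** -/
theorem stAct3 : StAct3.{u} := by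
  intro G _ _ t s y ot os hinv hz hcyc
  -- basic relations
  have ht4 : t * t * t * t = 1 := by
    have := pow_orderOf_eq_one t
    rw [ot, pow_succ, pow_succ, pow_succ, pow_one] at this
    exact this
  have R1 : s * t = t⁻¹ * s := by
    rw [← hinv]
    group
  have ida : s * (t * s) = t := by
    calc s * (t * s) = s * t * s := by group
      _ = t⁻¹ * s * s := by rw [R1]
      _ = t⁻¹ * (s * s) := by group
      _ = t⁻¹ * (t * t) := by rw [hz]
      _ = t := by group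
  have idb : s * (t * s)⁻¹ = t⁻¹ := by group
  have idc : s⁻¹ * (t * s) = t⁻¹ := by
    have h1 : t = s⁻¹ * t⁻¹ * s := by
      rw [← hinv]
      group
    calc s⁻¹ * (t * s) = (s⁻¹ * t⁻¹ * s)⁻¹ := by group
      _ = t⁻¹ := by rw [← h1]
  have idd : s⁻¹ * (t * s)⁻¹ = t := by
    calc s⁻¹ * (t * s)⁻¹ = (s * s)⁻¹ * t⁻¹ := by group
      _ = (t * t)⁻¹ * t⁻¹ := by rw [hz]
      _ = (t * t * t * t)⁻¹ * t := by group
      _ = t := by rw [ht4]; simp
  have I2 : (t * s)⁻¹ = t * s⁻¹ := by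
    calc (t * s)⁻¹ = s⁻¹ * (t⁻¹ * s) * s⁻¹ := by group
      _ = s⁻¹ * (s * t) * s⁻¹ := by rw [R1]
      _ = t * s⁻¹ := by group
  have I3 : t⁻¹ * s⁻¹ = t * s := by
    calc t⁻¹ * s⁻¹ = (s * t)⁻¹ := by group
      _ = (t⁻¹ * s)⁻¹ := by rw [R1]
      _ = s⁻¹ * t := by group
      _ = s⁻¹ * (s * (t * s)) := by rw [ida]
      _ = t * s := by group
  have I3' : (t * s)⁻¹ = t⁻¹ * s := by
    apply inv_eq_of_mul_eq_one_right
    rw [← R1]
    calc t * s * (s * t) = t * (s * s) * t := by group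
      _ = t * (t * t) * t := by rw [hz]
      _ = t * t * t * t := by group
      _ = 1 := ht4
  -- the three maps
  have mAB : CMaps y ({t, t⁻¹} : Set G) ({s, s⁻¹} : Set G) := cmaps_pair hcyc.1
  have mBC : CMaps y ({s, s⁻¹} : Set G) ({t * s, (t * s)⁻¹} : Set G) := cmaps_pair hcyc.2
  have mCA : CMaps y ({t * s, (t * s)⁻¹} : Set G) ({t, t⁻¹} : Set G) := by
    apply cmaps_pair
    have e : y * (t * s) * y⁻¹ = (y * t * y⁻¹) * (y * s * y⁻¹) := by group
    rw [e]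
    rcases hcyc.1 with h1 | h1 <;> rcases hcyc.2 with h2 | h2 <;> rw [h1, h2]
    · exact Or.inl ida
    · exact Or.inr idb
    · exact Or.inr idc
    · exact Or.inl idd
  have mAA : CMaps (y * (y * y)) ({t, t⁻¹} : Set G) ({t, t⁻¹} : Set G) :=
    (mAB.comp mBC).comp mCA
  have mBB : CMaps (y * (y * y)) ({s, s⁻¹} : Set G) ({s, s⁻¹} : Set G) :=
    (mBC.comp mCA).comp mAB
  have hcyc' : ∀ k : ℕ, Cyc3 t s (y ^ (3 * k + 1)) := by
    intro k
    have e : y ^ (3 * k + 1) = y * (y * (y * y)) ^ k := by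
      have e3 : y * (y * y) = y ^ 3 := by
        rw [pow_succ, pow_succ, pow_one]
        group
      rw [e3, ← pow_mul, pow_succ']
    rw [e]
    have h1 : CMaps (y * (y * (y * y)) ^ k) ({t, t⁻¹} : Set G) ({s, s⁻¹} : Set G) :=
      (mAA.pow k).comp mAB
    have h2 : CMaps (y * (y * (y * y)) ^ k) ({s, s⁻¹} : Set G) ({t * s, (t * s)⁻¹} : Set G) :=
      (mBB.pow k).comp mBC
    exact ⟨h1 t (Or.inl rfl), h2 s (Or.inl rfl)⟩
  -- the exponent
  have hn0 : orderOf y ≠ 0 := (orderOf_pos y).ne'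
  obtain ⟨j, r, hr3, hn⟩ := Nat.exists_eq_pow_mul_and_not_dvd hn0 3 (by norm_num)
  have hr0 : 0 < r := by
    rcases Nat.eq_zero_or_pos r with h | h
    · exfalso
      apply hr3
      rw [h]
      exact dvd_zero 3
    · exact h
  obtain ⟨e, he3, heord⟩ : ∃ e : ℕ, e % 3 = 1 ∧ orderOf (y ^ e) = 3 ^ j := by
    by_cases hr1 : r % 3 = 1
    · refine ⟨r, hr1, ?_⟩
      rw [orderOf_pow' y hr0.ne', hn, Nat.gcd_mul_left_left, Nat.mul_div_cancel _ hr0]
    · refine ⟨2 * r, ?_, ?_⟩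
      · have : r % 3 ≠ 0 := fun h => hr3 (Nat.dvd_of_mod_eq_zero h)
        omega
      · have hcop : Nat.Coprime (3 ^ j) 2 := Nat.Coprime.pow_left j (by norm_num)
        rw [orderOf_pow' y (by omega), hn, Nat.gcd_mul_right, hcop, one_mul,
          Nat.mul_div_cancel _ hr0]
  obtain ⟨k, hk⟩ : ∃ k, e = 3 * k + 1 := ⟨e / 3, by omega⟩
  have hc := hcyc' k
  rw [← hk] at hc
  obtain ⟨y', hy'⟩ : ∃ y' : G, y' = y ^ e := ⟨_, rfl⟩
  rw [← hy'] at hc heord
  have einv : ∀ u : G, y' * u⁻¹ * y'⁻¹ = (y' * u * y'⁻¹)⁻¹ := fun u => by group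
  rcases hc.1 with h1 | h1 <;> rcases hc.2 with h2 | h2
  · exact ⟨y', t, s, Or.inl rfl, Or.inl rfl, h1, h2, j, heord⟩
  · refine ⟨y', t⁻¹, s⁻¹, Or.inr rfl, Or.inr rfl, ?_, ?_, j, heord⟩
    · rw [einv, h1]
    · rw [einv, h2, inv_inv, I3]
  · refine ⟨y', t, s⁻¹, Or.inl rfl, Or.inr rfl, h1, ?_, j, heord⟩
    rw [einv, h2, I2]
  · refine ⟨y', t⁻¹, s, Or.inr rfl, Or.inl rfl, ?_, ?_, j, heord⟩
    · rw [einv, h1, inv_inv]
    · rw [h2, I3']

end Cfsg.Agent.H28.Zas
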