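import Mathlib
import Cfsg.Agent.H72.ZasDefs

/-!
# S0690-P3 (helper28): the image of the 3-element of a frame under a fixed-point-free ring
embedding is `-(1 + τ + σ + τσ)/2`.
-/

set_option autoImplicit false

namespace Cfsg.Agent.H28.Zas

open Cfsg.Agent.H72.Zas

universe u

/-- ring identity: the 6th root of unity. -/
theorem ring_sixth {E : Type*} [Ring E] (η : E) (hη3 : η * η * η = -1) (hu : IsUnit (η * η - 1)) :
    η * η - η + 1 = 0 := by
  obtain ⟨u, hu⟩ := hu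
  have h3 : (η * η - 1) * (η * η - η + 1) = 0 := by
    calc (η * η - 1) * (η * η - η + 1) = η * (η * η * η) - η * η * η + η - 1 := by noncomm_ring
      _ = 0 := by rw [hη3]; noncomm_ring
  rw [← hu] at h3
  have := congrArg (fun y => (↑u⁻¹ : E) * y) h3
  simpa [← mul_assoc] using this

/-- ring identity: the core computation. -/
theorem ring_core {E : Type*} [Ring E] (τ σ ξ : E) (hσ : σ * σ = -1)
    (hanti : σ * τ = -(τ * σ)) (hξτ : ξ * τ = σ * ξ) (hc : ξ * ξ + ξ + 1 = 0)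
    (hd : ξ * τ * (ξ * τ) - ξ * τ + 1 = 0) : 2 * ξ = -(1 + τ + σ + τ * σ) := by
  have hξξ : ξ * ξ = -ξ - 1 := by
    have : ξ * ξ = (ξ * ξ + ξ + 1) + (-ξ - 1) := by noncomm_ring
    rw [this, hc, zero_add]
  have h1 : ξ * τ * (ξ * τ) = ξ + τ * σ := by
    calc ξ * τ * (ξ * τ) = σ * ξ * (ξ * τ) := by rw [hξτ]
      _ = σ * (ξ * ξ) * τ := by noncomm_ring
      _ = σ * (-ξ - 1) * τ := by rw [hξξ]
      _ = -(σ * (ξ * τ)) - σ * τ := by noncomm_ring
      _ = -(σ * (σ * ξ)) - (-(τ * σ)) := by rw [hξτ, hanti]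
      _ = -((σ * σ) * ξ) + τ * σ := by noncomm_ring
      _ = -((-1) * ξ) + τ * σ := by rw [hσ]
      _ = ξ + τ * σ := by noncomm_ring
  rw [h1, hξτ] at hd
  have h3 : (1 + σ) * (ξ + τ * σ - σ * ξ + 1) = 2 * ξ + (1 + τ + σ + τ * σ) := by
    calc (1 + σ) * (ξ + τ * σ - σ * ξ + 1)
        = ξ + τ * σ + 1 + σ + (σ * τ) * σ - (σ * σ) * ξ := by noncomm_ring
      _ = ξ + τ * σ + 1 + σ + (-(τ * σ)) * σ - (-1) * ξ := by rw [hanti, hσ]
      _ = ξ + τ * σ + 1 + σ - τ * (σ * σ) + ξ := by noncomm_ring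
      _ = ξ + τ * σ + 1 + σ - τ * (-1) + ξ := by rw [hσ]
      _ = 2 * ξ + (1 + τ + σ + τ * σ) := by noncomm_ring
  rw [hd, mul_zero] at h3
  exact eq_neg_of_add_eq_zero_left h3.symm

/-- ring identity: the cube of `ξ τ`. -/
theorem ring_cube {E : Type*} [Ring E] (τ σ ξ : E) (hτ : τ * τ = -1) (hσ : σ * σ = -1)
    (hξτ : ξ * τ = σ * ξ) (hξσ : ξ * σ = τ * σ * ξ) (hξ3 : ξ * ξ * ξ = 1) :
    ξ * τ * (ξ * τ) * (ξ * τ) = -1 := by
  have e1 : ξ * τ * (ξ * τ) * (ξ * τ) = σ * τ * σ * (σ * τ * σ) * (ξ * ξ * ξ) := by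
    calc ξ * τ * (ξ * τ) * (ξ * τ) = σ * ξ * (σ * ξ) * (σ * ξ) := by rw [hξτ]
      _ = σ * (ξ * σ) * (ξ * σ) * ξ := by noncomm_ring
      _ = σ * (τ * σ * ξ) * (τ * σ * ξ) * ξ := by rw [hξσ]
      _ = σ * τ * σ * (ξ * τ) * σ * ξ * ξ := by noncomm_ring
      _ = σ * τ * σ * (σ * ξ) * σ * ξ * ξ := by rw [hξτ]
      _ = σ * τ * σ * σ * (ξ * σ) * ξ * ξ := by noncomm_ring
      _ = σ * τ * σ * σ * (τ * σ * ξ) * ξ * ξ := by rw [hξσ]
      _ = σ * τ * σ * (σ * τ * σ) * (ξ * ξ * ξ) := by noncomm_ring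
  have e2 : σ * τ * σ * (σ * τ * σ) = -1 := by
    calc σ * τ * σ * (σ * τ * σ) = σ * τ * (σ * σ) * τ * σ := by noncomm_ring
      _ = σ * τ * (-1) * τ * σ := by rw [hσ]
      _ = -(σ * (τ * τ) * σ) := by noncomm_ring
      _ = -(σ * (-1) * σ) := by rw [hτ]
      _ = σ * σ := by noncomm_ring
      _ = -1 := hσ
  rw [e1, e2, hξ3, mul_one]

/-- **S0690-P3.** -/
theorem stP3 : StP3.{u} := by
  intro G _ _ E _ _ R t s x hF
  obtain ⟨ot, os, hinv, ox, hxt, hxs⟩ := hF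
  have hτ : R.ι t * R.ι t = -1 := R.map_four ot
  have hσ : R.ι s * R.ι s = -1 := R.map_four os
  have hanti : R.ι s * R.ι t = -(R.ι t * R.ι s) := R.anti ot hinv
  have hxt' : x * t = s * x := by
    rw [← hxt]
    group
  have hxs' : x * s = t * s * x := by
    rw [← hxs]
    group
  have hξτ : R.ι x * R.ι t = R.ι s * R.ι x := by
    rw [← map_mul, hxt', map_mul]
  have hξσ : R.ι x * R.ι s = R.ι t * R.ι s * R.ι x := by
    rw [← map_mul, hxs', map_mul, map_mul]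
  have hx3 : x * x * x = 1 := by
    have := pow_orderOf_eq_one x
    rw [ox, pow_succ, pow_succ, pow_one] at this
    exact this
  have hξ3 : R.ι x * R.ι x * R.ι x = 1 := by
    rw [← map_mul, ← map_mul, hx3, map_one]
  have hx1 : x ≠ 1 := by
    intro h
    rw [h, orderOf_one] at ox
    omega
  have hc : R.ι x * R.ι x + R.ι x + 1 = 0 := by
    obtain ⟨u, hu⟩ := R.unit x hx1
    have h3 : (R.ι x - 1) * (R.ι x * R.ι x + R.ι x + 1) = 0 := by
      calc (R.ι x - 1) * (R.ι x * R.ι x + R.ι x + 1) = R.ι x * R.ι x * R.ι x - 1 := by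
            noncomm_ring
        _ = 0 := by rw [hξ3]; simp
    rw [← hu] at h3
    have := congrArg (fun y => (↑u⁻¹ : E) * y) h3
    simpa [← mul_assoc] using this
  have hη3 : R.ι x * R.ι t * (R.ι x * R.ι t) * (R.ι x * R.ι t) = -1 :=
    ring_cube _ _ _ hτ hσ hξτ hξσ hξ3
  have hg1 : x * t * (x * t) ≠ 1 := by
    intro hg
    have hηη : R.ι x * R.ι t * (R.ι x * R.ι t) = 1 := by
      rw [← map_mul, ← map_mul, hg, map_one]
    have hη : R.ι x * R.ι t = -1 := by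
      have := hη3
      rw [hηη, one_mul] at this
      exact this
    have hxt2 : R.ι x = R.ι t := by
      calc R.ι x = -(R.ι x * (R.ι t * R.ι t)) := by rw [hτ]; noncomm_ring
        _ = -(R.ι x * R.ι t * R.ι t) := by noncomm_ring
        _ = -(-1 * R.ι t) := by rw [hη]
        _ = R.ι t := by noncomm_ring
    have := R.inj hxt2
    rw [this, ot] at ox
    omega
  have hu : IsUnit (R.ι x * R.ι t * (R.ι x * R.ι t) - 1) := by
    have := R.unit _ hg1
    rwa [map_mul, map_mul] at this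
  have hd := ring_sixth (R.ι x * R.ι t) hη3 hu
  exact ring_core _ _ _ hσ hanti hξτ hc hd

end Cfsg.Agent.H28.Zas
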